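import Mathlib
import Cfsg.Agent.Lib.Helper14.ExcIso
import Cfsg.Agent.Lib.Helper44.StdForms
import Cfsg.Agent.Lib.Helper5.LinearCard

/-! `SL₄ → Ω₆⁺` (the Klein correspondence). -/

set_option autoImplicit false

namespace Cfsg.Agent.Lib.Helper14

open Cfsg.Agent.Lib.Helper44 Matrix

section congAct

variable (F : Type*) {R : Type*} [Field F] [Ring R] [Algebra F R]

/-- The action `x ↦ g x σ(g)` for an anti-multiplicative map `σ`. -/
def congAct (σ : R → R) (hσ1 : σ 1 = 1) (hσ : ∀ a b, σ (a * b) = σ b * σ a) :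
    Rˣ →* (R ≃ₗ[F] R) where
  toFun g :=
    { toFun := fun x => (g : R) * x * σ (g : R)
      map_add' := fun x y => by rw [mul_add, add_mul]
      map_smul' := fun c x => by simp
      invFun := fun x => ((g⁻¹ : Rˣ) : R) * x * σ ((g⁻¹ : Rˣ) : R)
      left_inv := fun x => by
        show ((g⁻¹ : Rˣ) : R) * ((g : R) * x * σ (g : R)) * σ ((g⁻¹ : Rˣ) : R) = x
        rw [mul_assoc, mul_assoc, mul_assoc, ← hσ, Units.inv_mul, hσ1, mul_one, ← mul_assoc,
          Units.inv_mul, one_mul]
      right_inv := fun x => by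
        show (g : R) * (((g⁻¹ : Rˣ) : R) * x * σ ((g⁻¹ : Rˣ) : R)) * σ (g : R) = x
        rw [mul_assoc, mul_assoc, mul_assoc, ← hσ, Units.mul_inv, hσ1, mul_one, ← mul_assoc,
          Units.mul_inv, one_mul] }
  map_one' := by
    ext x
    simp [hσ1]
  map_mul' a b := by
    ext x
    simp [hσ, mul_assoc]

theorem congAct_apply (σ : R → R) (hσ1 : σ 1 = 1) (hσ : ∀ a b, σ (a * b) = σ b * σ a)
    (g : Rˣ) (x : R) : congAct F σ hσ1 hσ g x = (g : R) * x * σ (g : R) := rfl

end congAct

variable {F : Type*} [Field F]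

local notation "W" => Matrix (Fin 4) (Fin 4) F

/-- The Pfaffian of a `4 × 4` matrix. -/
def pf4 (M : W) : F := M 0 1 * M 2 3 - M 0 2 * M 1 3 + M 0 3 * M 1 2

/-- Alternating matrices. -/
def e6 : (Fin 3 ⊕ Fin 3 → F) →ₗ[F] W where
  toFun v := !![0, v (.inl 0), v (.inl 1), v (.inl 2);
               -v (.inl 0), 0, v (.inr 2), -v (.inr 1);
               -v (.inl 1), -v (.inr 2), 0, v (.inr 0);
               -v (.inl 2), v (.inr 1), -v (.inr 0), 0]
  map_add' x y := by
    ext i j; fin_cases i <;> fin_cases j <;> simp [add_comm]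
  map_smul' c x := by
    ext i j; fin_cases i <;> fin_cases j <;> simp

theorem e6_apply (v : Fin 3 ⊕ Fin 3 → F) :
    e6 v = !![0, v (.inl 0), v (.inl 1), v (.inl 2);
               -v (.inl 0), 0, v (.inr 2), -v (.inr 1);
               -v (.inl 1), -v (.inr 2), 0, v (.inr 0);
               -v (.inl 2), v (.inr 1), -v (.inr 0), 0] := rfl

theorem pf4_e6 (v : Fin 3 ⊕ Fin 3 → F) : pf4 (e6 v) = plusQF 3 F v := by
  rw [e6_apply, plusQF_apply, pf4]
  simp [Fin.sum_univ_three]

theorem pf4_cong (g : W) (v : Fin 3 ⊕ Fin 3 → F) :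
    pf4 (g * e6 v * gᵀ) = g.det * pf4 (e6 v) := by
  rw [e6_apply, pf4, pf4]
  simp only [Matrix.det_succ_row_zero, Matrix.mul_apply, Fin.sum_univ_succ, Matrix.transpose_apply]
  simp [Fin.succAbove, Matrix.submatrix_apply]
  ring

theorem e6_injective : Function.Injective (e6 (F := F)) := by
  intro x y hxy
  rw [e6_apply, e6_apply] at hxy
  have h01 := congrFun (congrFun hxy 0) 1
  have h02 := congrFun (congrFun hxy 0) 2
  have h03 := congrFun (congrFun hxy 0) 3
  have h12 := congrFun (congrFun hxy 1) 2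
  have h31 := congrFun (congrFun hxy 3) 1
  have h23 := congrFun (congrFun hxy 2) 3
  simp at h01 h02 h03 h12 h31 h23
  ext i
  rcases i with i | i <;> fin_cases i
  · exact h01
  · exact h02
  · exact h03
  · exact h23
  · exact h31
  · exact h12

theorem e6_range (M : W) (h1 : Mᵀ = -M) (h2 : ∀ i, M i i = 0) : ∃ v, e6 v = M := by
  refine ⟨fun i => match i with
    | .inl 0 => M 0 1
    | .inl 1 => M 0 2
    | .inl 2 => M 0 3
    | .inr 0 => M 2 3
    | .inr 1 => M 3 1
    | .inr 2 => M 1 2, ?_⟩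
  rw [e6_apply]
  have h : ∀ i j, M j i = - M i j := fun i j => congrFun (congrFun h1 i) j
  ext i j; fin_cases i <;> fin_cases j <;> simp [h2]
  · rw [h 0 1]
  · rw [h 3 1]
  · rw [h 0 2]
  · rw [h 1 2]
  · rw [h 0 3]
  · rw [h 2 3]

theorem e6_transpose (v : Fin 3 ⊕ Fin 3 → F) : (e6 v)ᵀ = - e6 v := by
  rw [e6_apply]
  ext i j; fin_cases i <;> fin_cases j <;> simp

theorem e6_cong_diag (g : W) (v : Fin 3 ⊕ Fin 3 → F) (i : Fin 4) :
    (g * e6 v * gᵀ) i i = 0 := by
  rw [e6_apply]
  simp only [Matrix.mul_apply, Fin.sum_univ_succ, Matrix.transpose_apply]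
  simp
  ring

theorem e6_cong_range (g : W) (v : Fin 3 ⊕ Fin 3 → F) : ∃ v', e6 v' = g * e6 v * gᵀ := by
  apply e6_range
  · rw [Matrix.transpose_mul, Matrix.transpose_mul, Matrix.transpose_transpose, e6_transpose]
    simp [mul_assoc]
  · exact e6_cong_diag g v

local notation "S" => Matrix.SpecialLinearGroup (Fin 4) F

/-- The homomorphism `SL₄ → O₆⁺`. -/
noncomputable def rho6 : S →* OQ (plusQF 3 F) :=
  liftOQ (plusQF 3 F) e6 e6_injective
    ((congAct F (R := W) Matrix.transpose Matrix.transpose_one Matrix.transpose_mul).comp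
      Matrix.SpecialLinearGroup.toGL)
    (fun a v => e6_cong_range _ v) pf4 pf4_e6 (fun a v => by
      show pf4 ((a : W) * e6 v * (a : W)ᵀ) = _
      rw [pf4_cong, a.det_coe, one_mul])

theorem rho6_eq_one_iff (a : S) : rho6 a = 1 ↔ ∀ v, (a : W) * e6 v * (a : W)ᵀ = e6 v :=
  liftOQ_eq_one_iff _ _ _ _ _ _ _ _ a

theorem cong_single (g : W) (i j k l : Fin 4) :
    (g * Matrix.single i j (1 : F) * gᵀ) k l = g k i * g l j := by
  rw [Matrix.mul_apply]
  simp only [Matrix.transpose_apply]
  rw [Finset.sum_eq_single j]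
  · rw [Matrix.mul_single_apply_same, mul_one]
  · intro b _ hb
    rw [Matrix.mul_single_apply_of_ne _ _ _ _ _ hb, zero_mul]
  · intro h; exact absurd (Finset.mem_univ j) h

theorem rho6_ker_aux (g : W) (h : ∀ v, g * e6 v * gᵀ = e6 v) (i j k l : Fin 4) (hij : i ≠ j) :
    g k i * g l j - g k j * g l i =
      (Matrix.single i j (1 : F) - Matrix.single j i (1 : F)) k l := by
  obtain ⟨v, hv⟩ := e6_range (Matrix.single i j (1 : F) - Matrix.single j i (1 : F))
    (by simp [Matrix.transpose_sub]) (by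
      intro m
      simp [Matrix.single_apply]
      have h1 : ¬ (i = m ∧ j = m) := fun h => hij (h.1.trans h.2.symm)
      have h2 : ¬ (j = m ∧ i = m) := fun h => hij (h.2.trans h.1.symm)
      simp [h1, h2])
  have := h v
  rw [hv, mul_sub, sub_mul] at this
  have h2 := congrFun (congrFun this k) l
  rw [Matrix.sub_apply, cong_single, cong_single] at h2
  exact h2

theorem rho6_ker_scalar (g : W) (h : ∀ v, g * e6 v * gᵀ = e6 v) : g = 1 ∨ g = -1 := by
  have key := rho6_ker_aux g h
  have hoff : ∀ k i, k ≠ i → g k i = 0 := by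
    intro k i hki
    obtain ⟨j, hji, hjk⟩ : ∃ j : Fin 4, j ≠ i ∧ j ≠ k := by
      revert k i; decide
    have A_j := key i j k j hji.symm
    have A_i := key i j k i hji.symm
    have B := key i j i j hji.symm
    simp [hki.symm, hji, hji.symm, hjk] at A_j A_i B
    have : g k i * 1 = 0 := by
      rw [← B]
      linear_combination (g i i) * A_j - (g j i) * A_i
    rwa [mul_one] at this
  have hdiag : ∀ i j, i ≠ j → g i i * g j j = 1 := by
    intro i j hij
    have B := key i j i j hij
    simp [hij, hij.symm, hoff i j hij] at B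
    exact B
  have heq : ∀ i, g i i = g 0 0 := by
    intro i
    by_cases hi : i = 0
    · rw [hi]
    obtain ⟨k, hki, hk0⟩ : ∃ k : Fin 4, k ≠ i ∧ k ≠ 0 := by
      revert i; decide
    have h1 := hdiag i k hki.symm
    have h2 := hdiag 0 k hk0.symm
    have hk : g k k ≠ 0 := by
      intro h0
      rw [h0, mul_zero] at h1
      exact zero_ne_one h1
    exact mul_right_cancel₀ hk (h1.trans h2.symm)
  have hsq : g 0 0 * g 0 0 = 1 := by
    have := hdiag 0 1 (by decide)
    rwa [heq 1] at this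
  have : (g 0 0 - 1) * (g 0 0 + 1) = 0 := by linear_combination hsq
  rcases mul_eq_zero.mp this with h | h
  · left
    have h1 : g 0 0 = 1 := by linear_combination h
    ext i j
    by_cases hij : i = j
    · rw [hij, heq, h1]; simp
    · rw [hoff i j hij]; simp [hij]
  · right
    have h1 : g 0 0 = -1 := by linear_combination h
    ext i j
    by_cases hij : i = j
    · rw [hij, heq, h1]; simp
    · rw [hoff i j hij]; simp [hij]

theorem mem_rho6_ker (a : S) : a ∈ (rho6 (F := F)).ker ↔ ((a : W) = 1 ∨ (a : W) = -1) := by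
  rw [MonoidHom.mem_ker, rho6_eq_one_iff]
  constructor
  · exact rho6_ker_scalar _
  · rintro (h | h) v <;> rw [h] <;> simp

theorem card_rho6_ker_odd (h2 : (2 : F) ≠ 0) : Nat.card (rho6 (F := F)).ker = 2 := by
  rw [Nat.card_eq_two_iff]
  let m : S := ⟨-1, by simp [Matrix.det_neg]; norm_num⟩
  have hm : (m : W) = -1 := rfl
  refine ⟨1, ⟨m, (mem_rho6_ker m).mpr (Or.inr hm)⟩, ?_, ?_⟩
  · intro h
    have h' : (1 : S) = m := congrArg Subtype.val h
    have h'' := congrArg (fun a : S => (a : W) 0 0) h'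
    simp [hm] at h''
    apply h2
    linear_combination h''
  · ext x
    simp only [Set.mem_insert_iff, Set.mem_singleton_iff, Set.mem_univ, iff_true]
    rcases (mem_rho6_ker x.1).mp x.2 with h | h
    · left
      apply Subtype.ext
      apply Subtype.ext
      exact h
    · right
      apply Subtype.ext
      apply Subtype.ext
      exact h

theorem card_rho6_ker_even (h2 : (2 : F) = 0) : Nat.card (rho6 (F := F)).ker = 1 := by
  rw [Nat.card_eq_one_iff_unique]
  refine ⟨⟨?_⟩, ⟨1⟩⟩
  have hneg : (-1 : W) = 1 := by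
    ext i j
    by_cases hij : i = j
    · subst hij
      simp
      linear_combination (-1 : F) * h2
    · simp [hij]
  have : ∀ x : (rho6 (F := F)).ker, x = 1 := by
    intro x
    apply Subtype.ext
    apply Subtype.ext
    rcases (mem_rho6_ker x.1).mp x.2 with h | h
    · exact h
    · rw [h, hneg]; rfl
  intro a b
  rw [this a, this b]

theorem card_SL4 [Fintype F] : Nat.card S
    = Fintype.card F ^ 6 * (Fintype.card F ^ 2 - 1) * (Fintype.card F ^ 3 - 1)
      * (Fintype.card F ^ 4 - 1) := by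
  have h1 := Cfsg.Agent.Lib.Helper5.card_GL_eq_card_SL_mul_card_units (n := Fin 4) (F := F)
  rw [Matrix.card_GL_field] at h1
  have h2 : Nat.card Fˣ = Fintype.card F - 1 := by
    classical
    rw [Nat.card_eq_fintype_card, Fintype.card_units]
  rw [h2] at h1
  have hq : 2 ≤ Fintype.card F := Fintype.one_lt_card
  set q := Fintype.card F with hqdef
  simp only [Fin.prod_univ_four, Fin.val_zero, Fin.val_one, Fin.val_two, pow_zero, pow_one] at h1
  have hpos : 0 < q - 1 := by omega
  apply Nat.eq_of_mul_eq_mul_right hpos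
  rw [← h1]
  have e1 : q ^ 4 - q = q * (q ^ 3 - 1) := by
    rw [Nat.mul_sub, mul_one]; ring_nf
  have e2 : q ^ 4 - q ^ 2 = q ^ 2 * (q ^ 2 - 1) := by
    rw [Nat.mul_sub, mul_one]; ring_nf
  have e3 : q ^ 4 - q ^ ((3 : Fin 4) : ℕ) = q ^ 3 * (q - 1) := by
    rw [Nat.mul_sub, mul_one]
    show q ^ 4 - q ^ 3 = _
    ring_nf
  rw [e1, e2, e3]
  ring

end Cfsg.Agent.Lib.Helper14
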