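import Mathlib
import Cfsg.Agent.Lib.Helper14.Omega6Plus

/-! `Sp₄ → Ω₅`. -/

set_option autoImplicit false

namespace Cfsg.Agent.Lib.Helper14

open Cfsg.Agent.Lib.Helper44 Matrix

variable {F : Type*} [Field F]

local notation "W" => Matrix (Fin 4) (Fin 4) F
local notation "Sp" => Matrix.symplecticGroup (Fin 2) F

/-- index bookkeeping -/
def c5idx : Fin 3 ⊕ Fin 3 → Unit ⊕ (Fin 2 ⊕ Fin 2)
  | .inl 0 => .inr (.inl 0)
  | .inl 1 => .inl ()
  | .inl 2 => .inr (.inl 1)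
  | .inr 0 => .inr (.inr 0)
  | .inr 1 => .inl ()
  | .inr 2 => .inr (.inr 1)

def e5 : (Unit ⊕ (Fin 2 ⊕ Fin 2) → F) →ₗ[F] W := e6 ∘ₗ LinearMap.funLeft F F c5idx

theorem e5_apply (u : Unit ⊕ (Fin 2 ⊕ Fin 2) → F) : e5 u = e6 (u ∘ c5idx) := rfl

theorem e5_injective : Function.Injective (e5 (F := F)) := by
  intro x y hxy
  have h := e6_injective hxy
  have h' : ∀ i, x (c5idx i) = y (c5idx i) := fun i => congrFun h i
  ext i
  rcases i with ⟨⟩ | i | i
  · exact h' (.inl 1)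
  · fin_cases i
    · exact h' (.inl 0)
    · exact h' (.inl 2)
  · fin_cases i
    · exact h' (.inr 0)
    · exact h' (.inr 2)

theorem e5_range (v : Fin 3 ⊕ Fin 3 → F) (h : v (.inl 1) = v (.inr 1)) : ∃ u, e5 u = e6 v := by
  refine ⟨fun i => match i with
    | .inl _ => v (.inl 1)
    | .inr (.inl 0) => v (.inl 0)
    | .inr (.inl 1) => v (.inl 2)
    | .inr (.inr 0) => v (.inr 0)
    | .inr (.inr 1) => v (.inr 2), ?_⟩
  rw [e5_apply]
  congr 1
  ext i
  rcases i with i | i <;> fin_cases i <;> simp [c5idx, h]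

theorem pf4_e5 (u : Unit ⊕ (Fin 2 ⊕ Fin 2) → F) : pf4 (e5 u) = oddQF 2 F u := by
  rw [e5_apply, pf4_e6, plusQF_apply, oddQF_apply]
  simp [Fin.sum_univ_three, Fin.sum_univ_two, c5idx]
  ring

/-- the vector of `J` -/
def vJ : Fin 3 ⊕ Fin 3 → F
  | .inl 1 => -1
  | .inr 1 => 1
  | _ => 0

def s4 : Fin 2 ⊕ Fin 2 ≃ Fin 4 := finSumFinEquiv

theorem s4_symm_0 : s4.symm 0 = .inl 0 := rfl
theorem s4_symm_1 : s4.symm 1 = .inl 1 := rfl
theorem s4_symm_2 : s4.symm 2 = .inr 0 := rfl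
theorem s4_symm_3 : s4.symm 3 = .inr 1 := rfl

theorem reindex_J : Matrix.reindex s4 s4 (Matrix.J (Fin 2) F) = e6 vJ := by
  rw [e6_apply]
  ext i j
  fin_cases i <;> fin_cases j <;>
    simp [s4_symm_0, s4_symm_1, s4_symm_2, s4_symm_3, vJ, Matrix.J, Matrix.fromBlocks]

/-- `Sp₄` as units of `M₄(F)`. -/
noncomputable def j5 : Sp →* Wˣ :=
  MonoidHom.toHomUnits
    ((Matrix.reindexAlgEquiv F F s4).toAlgHom.toRingHom.toMonoidHom.comp
      (Matrix.symplecticGroup (Fin 2) F).subtype)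

theorem j5_coe (g : Sp) : (j5 g : W) =
    Matrix.reindex s4 s4 (g : Matrix (Fin 2 ⊕ Fin 2) (Fin 2 ⊕ Fin 2) F) := rfl

theorem j5_J (g : Sp) : (j5 g : W) * e6 vJ * (j5 g : W)ᵀ = e6 vJ := by
  have h := (SymplecticGroup.mem_iff).mp g.2
  rw [j5_coe, ← reindex_J]
  conv_rhs => rw [← h]
  simp only [Matrix.reindex_apply, Matrix.transpose_submatrix, Matrix.submatrix_mul_equiv]

theorem j5_det (g : Sp) : (j5 g : W).det = 1 := by
  rw [j5_coe, Matrix.det_reindex_self]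
  exact SymplecticGroup.det_eq_one g.2

theorem pf4_add_J (v : Fin 3 ⊕ Fin 3 → F) :
    pf4 (e6 (v + vJ)) = pf4 (e6 v) - 1 + (v (.inl 1) - v (.inr 1)) := by
  rw [pf4_e6, pf4_e6, plusQF_apply, plusQF_apply]
  simp [Fin.sum_univ_three, vJ]
  ring

theorem j5_stable (g : Sp) (v v' : Fin 3 ⊕ Fin 3 → F)
    (h : e6 v' = (j5 g : W) * e6 v * (j5 g : W)ᵀ) :
    v' (.inl 1) - v' (.inr 1) = v (.inl 1) - v (.inr 1) := by
  have h1 : e6 (v' + vJ) = (j5 g : W) * e6 (v + vJ) * (j5 g : W)ᵀ := by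
    rw [map_add, map_add, mul_add, add_mul, j5_J, h]
  have h2 := congrArg pf4 h1
  have h3 := congrArg pf4 h
  rw [pf4_cong, j5_det, one_mul] at h2 h3
  rw [pf4_add_J, pf4_add_J, h3] at h2
  linear_combination h2

theorem e5_cong_range (g : Sp) (u : Unit ⊕ (Fin 2 ⊕ Fin 2) → F) :
    ∃ u', e5 u' = (j5 g : W) * e5 u * (j5 g : W)ᵀ := by
  obtain ⟨v', hv'⟩ := e6_cong_range (j5 g : W) (u ∘ c5idx)
  have h := j5_stable g _ _ hv'
  rw [e5_apply, ← hv']
  apply e5_range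
  have : (u ∘ c5idx) (.inl 1) - (u ∘ c5idx) (.inr 1) = 0 := by simp [c5idx]
  rw [this] at h
  linear_combination h

/-- The homomorphism `Sp₄ → O₅`. -/
noncomputable def rho5 : Sp →* OQ (oddQF 2 F) :=
  liftOQ (oddQF 2 F) e5 e5_injective
    ((congAct F (R := W) Matrix.transpose Matrix.transpose_one Matrix.transpose_mul).comp j5)
    (fun a v => e5_cong_range a v) pf4 pf4_e5 (fun a v => by
      show pf4 ((j5 a : W) * e5 v * (j5 a : W)ᵀ) = _
      rw [e5_apply, pf4_cong, j5_det, one_mul])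

theorem rho5_eq_one_iff (a : Sp) : rho5 a = 1 ↔ ∀ v, (j5 a : W) * e5 v * (j5 a : W)ᵀ = e5 v :=
  liftOQ_eq_one_iff _ _ _ _ _ _ _ _ a

theorem mem_rho5_ker (h2 : (2 : F) ≠ 0) (a : Sp) :
    a ∈ (rho5 (F := F)).ker ↔ ((a : Matrix (Fin 2 ⊕ Fin 2) (Fin 2 ⊕ Fin 2) F) = 1 ∨
      (a : Matrix (Fin 2 ⊕ Fin 2) (Fin 2 ⊕ Fin 2) F) = -1) := by
  rw [MonoidHom.mem_ker, rho5_eq_one_iff]
  constructor
  · intro h
    have h6 : ∀ v, (j5 a : W) * e6 v * (j5 a : W)ᵀ = e6 v := by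
      intro v
      set t : F := (v (.inr 1) - v (.inl 1)) / 2 with ht
      obtain ⟨u, hu⟩ := e5_range (v - t • vJ) (by
        simp [vJ]
        rw [ht]
        field_simp
        ring)
      have hv : e6 v = e5 u + t • e6 vJ := by
        rw [hu, map_sub, map_smul]; abel
      rw [hv, mul_add, add_mul, h u, Matrix.mul_smul, Matrix.smul_mul, j5_J]
    rcases rho6_ker_scalar _ h6 with h | h
    · left
      rw [j5_coe] at h
      have := congrArg (Matrix.reindex s4 s4).symm h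
      simpa using this
    · right
      rw [j5_coe] at h
      have := congrArg (Matrix.reindex s4 s4).symm h
      simpa [Matrix.submatrix_neg] using this
  · rintro (h | h) v <;> rw [j5_coe, h] <;> simp [Matrix.submatrix_neg]

theorem card_rho5_ker (h2 : (2 : F) ≠ 0) : Nat.card (rho5 (F := F)).ker = 2 := by
  rw [Nat.card_eq_two_iff]
  let m : Sp := ⟨-1, SymplecticGroup.neg_mem (one_mem _)⟩
  have hm : (m : Matrix (Fin 2 ⊕ Fin 2) (Fin 2 ⊕ Fin 2) F) = -1 := rfl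
  refine ⟨1, ⟨m, (mem_rho5_ker h2 m).mpr (Or.inr hm)⟩, ?_, ?_⟩
  · intro h
    have h' : (1 : Sp) = m := congrArg Subtype.val h
    have h'' := congrArg (fun a : Sp => (a : Matrix (Fin 2 ⊕ Fin 2) (Fin 2 ⊕ Fin 2) F)
      (.inl 0) (.inl 0)) h'
    simp [hm] at h''
    apply h2
    linear_combination h''
  · ext x
    simp only [Set.mem_insert_iff, Set.mem_singleton_iff, Set.mem_univ, iff_true]
    rcases (mem_rho5_ker h2 x.1).mp x.2 with h | h
    · left
      apply Subtype.ext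
      apply Subtype.ext
      exact h
    · right
      apply Subtype.ext
      apply Subtype.ext
      exact h

end Cfsg.Agent.Lib.Helper14
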