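import Mathlib
import Cfsg.Prelude.Def_ChevB2
import Cfsg.Agent.Lib.Helper14.Omega5

/-! The adjoint representation of `Sp₄(F)` on symmetric matrices, in the Chevalley basis of the
datum `chevB2`. -/

set_option autoImplicit false

namespace Cfsg.Agent.Lib.Helper14

open Cfsg Cfsg.Lie Matrix Cfsg.Agent.Lib.Helper44

variable {F : Type*} [Field F]

local notation "W" => Matrix (Fin 4) (Fin 4) F
local notation "Sp" => Matrix.symplecticGroup (Fin 2) F

/-- The form `J` on `Fin 4`. -/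
def J4 : W := !![0,0,-1,0; 0,0,0,-1; 1,0,0,0; 0,1,0,0]

theorem J4_eq : (J4 : W) = e6 vJ := by
  rw [e6_apply, J4]
  ext i j
  fin_cases i <;> fin_cases j <;> simp [vJ]

theorem reindex_J4 : Matrix.reindex s4 s4 (Matrix.J (Fin 2) F) = J4 := by
  rw [reindex_J, J4_eq]

/-- An element of `Sp₄` from a `4 × 4` matrix. -/
def mkSp (M : W) (h : M * J4 * Mᵀ = J4) : Sp :=
  ⟨Matrix.reindex s4.symm s4.symm M, by
    rw [SymplecticGroup.mem_iff]
    have hJ : Matrix.J (Fin 2) F = Matrix.reindex s4.symm s4.symm (J4 : W) := by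
      rw [← reindex_J4]
      simp
    rw [hJ]
    conv_rhs => rw [← h]
    simp only [Matrix.reindex_apply, Matrix.transpose_submatrix, Matrix.submatrix_mul_equiv]⟩

theorem j5_mkSp (M : W) (h : M * J4 * Mᵀ = J4) : (j5 (mkSp M h) : W) = M := by
  rw [j5_coe]
  simp [mkSp]

theorem j5_injective : Function.Injective (j5 (F := F)) := by
  intro a b hab
  have h : (j5 a : W) = (j5 b : W) := congrArg Units.val hab
  rw [j5_coe, j5_coe] at h
  apply Subtype.ext
  exact (Matrix.reindex s4 s4).injective h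

theorem j5_symp (g : Sp) : (j5 g : W) * J4 * (j5 g : W)ᵀ = J4 := by
  rw [J4_eq]; exact j5_J g

/-- The root elements of `Sp₄`, numbered as in `chevB2`. -/
def rootMat : Fin 8 → F → W
  | 0, t => !![1,0,0,0; 0,1,0,0; t,0,1,0; 0,0,0,1]
  | 1, t => !![1,0,0,0; 0,1,0,0; 0,-t,1,0; -t,0,0,1]
  | 2, t => !![1,0,0,0; -t,1,0,0; 0,0,1,t; 0,0,0,1]
  | 3, t => !![1,0,0,0; 0,1,0,0; 0,0,1,0; 0,-t,0,1]
  | 4, t => !![1,0,0,0; 0,1,0,-t; 0,0,1,0; 0,0,0,1]
  | 5, t => !![1,-t,0,0; 0,1,0,0; 0,0,1,0; 0,0,t,1]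
  | 6, t => !![1,0,0,-t; 0,1,-t,0; 0,0,1,0; 0,0,0,1]
  | 7, t => !![1,0,t,0; 0,1,0,0; 0,0,1,0; 0,0,0,1]

set_option maxHeartbeats 4000000 in
theorem rootMat_symp (r : Fin 8) (t : F) : rootMat r t * J4 * (rootMat r t)ᵀ = J4 := by
  fin_cases r <;>
  · ext i j
    fin_cases i <;> fin_cases j <;> simp [rootMat, J4, Matrix.mul_apply, Fin.sum_univ_four]

/-- The root elements. -/
def xs (r : Fin 8) (t : F) : Sp := mkSp (rootMat r t) (rootMat_symp r t)

theorem j5_xs (r : Fin 8) (t : F) : (j5 (xs r t) : W) = rootMat r t := j5_mkSp _ _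

def e10f (v : Fin 2 ⊕ Fin 8 → F) : W :=
  !![v (.inr 7), -v (.inr 6), -v (.inl 0), v (.inr 5);
     -v (.inr 6), -v (.inr 4), v (.inr 2), v (.inl 0) - v (.inl 1);
     -v (.inl 0), v (.inr 2), -v (.inr 0), v (.inr 1);
     v (.inr 5), v (.inl 0) - v (.inl 1), v (.inr 1), v (.inr 3)]

/-- Symmetric matrices in the Chevalley basis. -/
def e10 : (Fin 2 ⊕ Fin 8 → F) →ₗ[F] W where
  toFun := e10f
  map_add' x y := by
    ext i j; fin_cases i <;> fin_cases j <;> simp [e10f] <;> ring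
  map_smul' c x := by
    ext i j; fin_cases i <;> fin_cases j <;> simp [e10f] <;> ring

theorem e10_apply (v : Fin 2 ⊕ Fin 8 → F) : e10 v = e10f v := rfl

theorem e10_injective : Function.Injective (e10 (F := F)) := by
  intro x y hxy
  rw [e10_apply, e10_apply, e10f, e10f] at hxy
  have h00 := congrFun (congrFun hxy 0) 0
  have h01 := congrFun (congrFun hxy 0) 1
  have h02 := congrFun (congrFun hxy 0) 2
  have h03 := congrFun (congrFun hxy 0) 3
  have h11 := congrFun (congrFun hxy 1) 1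
  have h12 := congrFun (congrFun hxy 1) 2
  have h13 := congrFun (congrFun hxy 1) 3
  have h22 := congrFun (congrFun hxy 2) 2
  have h23 := congrFun (congrFun hxy 2) 3
  have h33 := congrFun (congrFun hxy 3) 3
  simp at h00 h01 h02 h03 h11 h12 h13 h22 h23 h33
  ext i
  rcases i with i | i <;> fin_cases i
  · exact h02
  · show x (.inl 1) = y (.inl 1)
    rw [h02] at h13
    linear_combination -h13
  · exact h22
  · exact h23
  · exact h12
  · exact h33
  · exact h11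
  · exact h03
  · exact h01
  · exact h00

theorem e10_range (M : W) (h1 : Mᵀ = M) : ∃ v, e10 v = M := by
  refine ⟨fun i => match i with
    | .inl 0 => - M 0 2
    | .inl 1 => - M 0 2 - M 1 3
    | .inr 0 => - M 2 2
    | .inr 1 => M 2 3
    | .inr 2 => M 1 2
    | .inr 3 => M 3 3
    | .inr 4 => - M 1 1
    | .inr 5 => M 0 3
    | .inr 6 => - M 0 1
    | .inr 7 => M 0 0, ?_⟩
  rw [e10_apply, e10f]
  have h : ∀ i j, M j i = M i j := fun i j => congrFun (congrFun h1 i) j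
  ext i j; fin_cases i <;> fin_cases j <;> simp
  · rw [h 0 1]
  · rw [h 0 2]
  · rw [h 1 2]
  · rw [h 0 3]
  · rw [h 1 3]
  · rw [h 2 3]

theorem e10_transpose (v : Fin 2 ⊕ Fin 8 → F) : (e10 v)ᵀ = e10 v := by
  rw [e10_apply, e10f]
  ext i j; fin_cases i <;> fin_cases j <;> simp

theorem e10_cong_range (g : W) (v : Fin 2 ⊕ Fin 8 → F) : ∃ v', e10 v' = g * e10 v * gᵀ := by
  apply e10_range
  rw [Matrix.transpose_mul, Matrix.transpose_mul, Matrix.transpose_transpose, e10_transpose]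
  simp [mul_assoc]

/-- The adjoint representation, as linear equivalences. -/
noncomputable def adL : Sp →* ((Fin 2 ⊕ Fin 8 → F) ≃ₗ[F] (Fin 2 ⊕ Fin 8 → F)) :=
  liftRep e10 e10_injective
    ((congAct F (R := W) Matrix.transpose Matrix.transpose_one Matrix.transpose_mul).comp j5)
    (fun _ v => e10_cong_range _ v)

theorem adL_spec (a : Sp) (v : Fin 2 ⊕ Fin 8 → F) :
    e10 (adL a v) = (j5 a : W) * e10 v * (j5 a : W)ᵀ :=
  liftRep_spec _ _ _ _ a v

/-- The adjoint representation, as matrices. -/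
noncomputable def adG : Sp →* GL (Fin 2 ⊕ Fin 8) F :=
  (glEquiv (ι := Fin 2 ⊕ Fin 8) (F := F)).symm.toMonoidHom.comp adL

theorem adG_mulVec (a : Sp) (v : Fin 2 ⊕ Fin 8 → F) :
    (adG a : Matrix (Fin 2 ⊕ Fin 8) (Fin 2 ⊕ Fin 8) F) *ᵥ v = adL a v := by
  rw [← glEquiv_apply]
  simp [adG]

theorem adG_eq_of (a : Sp) (X : Matrix (Fin 2 ⊕ Fin 8) (Fin 2 ⊕ Fin 8) F)
    (h : ∀ v, e10 (X *ᵥ v) = (j5 a : W) * e10 v * (j5 a : W)ᵀ) :
    (adG a : Matrix (Fin 2 ⊕ Fin 8) (Fin 2 ⊕ Fin 8) F) = X := by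
  apply matrix_ext_mulVec
  intro v
  apply e10_injective
  rw [adG_mulVec, adL_spec, h]

end Cfsg.Agent.Lib.Helper14
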