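import Mathlib
import Cfsg.Agent.Lib.Helper14.B2Adj

/-! The matrices `x_r(t)` of `chevB2` are the adjoint images of the root elements of `Sp₄`. -/

set_option autoImplicit false

namespace Cfsg.Agent.Lib.Helper14

open Cfsg Cfsg.Lie Matrix Cfsg.Agent.Lib.Helper44

variable {F : Type*} [Field F]

local notation "W" => Matrix (Fin 4) (Fin 4) F
local notation "Sp" => Matrix.symplecticGroup (Fin 2) F

/-- `x_r(t)` with clean types. -/
def XB (r : Fin 8) (t : F) : Matrix (Fin 2 ⊕ Fin 8) (Fin 2 ⊕ Fin 8) F := chevB2.xMat F r t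

def ccB (r s u : ℕ) : List (ℕ × ℤ) := chevB2.chainCoeff r s u

theorem XB_hh (r : Fin 8) (t : F) (i j : Fin 2) :
    XB r t (.inl i) (.inl j) = if i = j then 1 else 0 := rfl
theorem XB_rh (r : Fin 8) (t : F) (u : Fin 8) (j : Fin 2) :
    XB r t (.inr u) (.inl j) =
      if u = r then - (((chevB2CartanSR.getD j.val #[]).getD r.val 0 : ℤ) : F) * t else 0 := rfl
theorem XB_hr (r : Fin 8) (t : F) (i : Fin 2) (s : Fin 8) :
    XB r t (.inl i) (.inr s) =
      if s = r then 0 else if s.val = chevB2NegIdx.getD r.val 0 then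
        (((chevB2Coroot.getD r.val #[]).getD i.val 0 : ℤ) : F) * t else 0 := rfl
theorem XB_rr (r : Fin 8) (t : F) (u : Fin 8) (s : Fin 8) :
    XB r t (.inr u) (.inr s) =
      if s = r then (if u = r then 1 else 0) else if s.val = chevB2NegIdx.getD r.val 0 then
        (if u = s then 1 else if u = r then -(t ^ 2) else 0) else
        (if u = s then 1 else 0) +
               ((ccB r.val s.val u.val).map fun km => ((km.2 : ℤ) : F) * t ^ km.1).sum := rfl

theorem XB_mulVec (r : Fin 8) (t : F) (v : Fin 2 ⊕ Fin 8 → F) (i : Fin 2 ⊕ Fin 8) :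
   (XB r t).mulVec v i =
    XB r t i (.inl (0 : Fin 2)) * v (.inl 0) + XB r t i (.inl (1 : Fin 2)) * v (.inl 1) +
    (XB r t i (.inr (0 : Fin 8)) * v (.inr 0) + XB r t i (.inr (1 : Fin 8)) * v (.inr 1)
    + XB r t i (.inr (2 : Fin 8)) * v (.inr 2) + XB r t i (.inr (3 : Fin 8)) * v (.inr 3)
    + XB r t i (.inr (4 : Fin 8)) * v (.inr 4) + XB r t i (.inr (5 : Fin 8)) * v (.inr 5)
    + XB r t i (.inr (6 : Fin 8)) * v (.inr 6) + XB r t i (.inr (7 : Fin 8)) * v (.inr 7)) := by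
  have : (XB r t).mulVec v i = ∑ j : Fin 2 ⊕ Fin 8, XB r t i j * v j := rfl
  rw [this, Fintype.sum_sum_type, Fin.sum_univ_two, Fin.sum_univ_eight]

set_option maxHeartbeats 4000000 in
theorem XB_check0 (t : F) (v : Fin 2 ⊕ Fin 8 → F) :
    e10f ((XB (0 : Fin 8) t).mulVec v) = rootMat 0 t * e10f v * (rootMat 0 t)ᵀ := by
  unfold e10f
  simp only [XB_mulVec]
  simp only [XB_hh, XB_rh, XB_hr, XB_rr]
  ext i j
  fin_cases i <;> fin_cases j <;>
  simp [rootMat, Matrix.mul_apply, Fin.sum_univ_four, chevB2NegIdx, chevB2CartanSR, chevB2Coroot,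
    ccB, ChevalleyDatum.chainCoeff, chevB2, chevB2Chain, chevB2Chain0] <;> ring

set_option maxHeartbeats 4000000 in
theorem XB_check1 (t : F) (v : Fin 2 ⊕ Fin 8 → F) :
    e10f ((XB (1 : Fin 8) t).mulVec v) = rootMat 1 t * e10f v * (rootMat 1 t)ᵀ := by
  unfold e10f
  simp only [XB_mulVec]
  simp only [XB_hh, XB_rh, XB_hr, XB_rr]
  ext i j
  fin_cases i <;> fin_cases j <;>
  simp [rootMat, Matrix.mul_apply, Fin.sum_univ_four, chevB2NegIdx, chevB2CartanSR, chevB2Coroot,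
    ccB, ChevalleyDatum.chainCoeff, chevB2, chevB2Chain, chevB2Chain1] <;> ring

set_option maxHeartbeats 4000000 in
theorem XB_check2 (t : F) (v : Fin 2 ⊕ Fin 8 → F) :
    e10f ((XB (2 : Fin 8) t).mulVec v) = rootMat 2 t * e10f v * (rootMat 2 t)ᵀ := by
  unfold e10f
  simp only [XB_mulVec]
  simp only [XB_hh, XB_rh, XB_hr, XB_rr]
  ext i j
  fin_cases i <;> fin_cases j <;>
  simp [rootMat, Matrix.mul_apply, Fin.sum_univ_four, chevB2NegIdx, chevB2CartanSR, chevB2Coroot,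
    ccB, ChevalleyDatum.chainCoeff, chevB2, chevB2Chain, chevB2Chain2] <;> ring

set_option maxHeartbeats 4000000 in
theorem XB_check3 (t : F) (v : Fin 2 ⊕ Fin 8 → F) :
    e10f ((XB (3 : Fin 8) t).mulVec v) = rootMat 3 t * e10f v * (rootMat 3 t)ᵀ := by
  unfold e10f
  simp only [XB_mulVec]
  simp only [XB_hh, XB_rh, XB_hr, XB_rr]
  ext i j
  fin_cases i <;> fin_cases j <;>
  simp [rootMat, Matrix.mul_apply, Fin.sum_univ_four, chevB2NegIdx, chevB2CartanSR, chevB2Coroot,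
    ccB, ChevalleyDatum.chainCoeff, chevB2, chevB2Chain, chevB2Chain3] <;> ring

set_option maxHeartbeats 4000000 in
theorem XB_check4 (t : F) (v : Fin 2 ⊕ Fin 8 → F) :
    e10f ((XB (4 : Fin 8) t).mulVec v) = rootMat 4 t * e10f v * (rootMat 4 t)ᵀ := by
  unfold e10f
  simp only [XB_mulVec]
  simp only [XB_hh, XB_rh, XB_hr, XB_rr]
  ext i j
  fin_cases i <;> fin_cases j <;>
  simp [rootMat, Matrix.mul_apply, Fin.sum_univ_four, chevB2NegIdx, chevB2CartanSR, chevB2Coroot,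
    ccB, ChevalleyDatum.chainCoeff, chevB2, chevB2Chain, chevB2Chain4] <;> ring

set_option maxHeartbeats 4000000 in
theorem XB_check5 (t : F) (v : Fin 2 ⊕ Fin 8 → F) :
    e10f ((XB (5 : Fin 8) t).mulVec v) = rootMat 5 t * e10f v * (rootMat 5 t)ᵀ := by
  unfold e10f
  simp only [XB_mulVec]
  simp only [XB_hh, XB_rh, XB_hr, XB_rr]
  ext i j
  fin_cases i <;> fin_cases j <;>
  simp [rootMat, Matrix.mul_apply, Fin.sum_univ_four, chevB2NegIdx, chevB2CartanSR, chevB2Coroot,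
    ccB, ChevalleyDatum.chainCoeff, chevB2, chevB2Chain, chevB2Chain5] <;> ring

set_option maxHeartbeats 4000000 in
theorem XB_check6 (t : F) (v : Fin 2 ⊕ Fin 8 → F) :
    e10f ((XB (6 : Fin 8) t).mulVec v) = rootMat 6 t * e10f v * (rootMat 6 t)ᵀ := by
  unfold e10f
  simp only [XB_mulVec]
  simp only [XB_hh, XB_rh, XB_hr, XB_rr]
  ext i j
  fin_cases i <;> fin_cases j <;>
  simp [rootMat, Matrix.mul_apply, Fin.sum_univ_four, chevB2NegIdx, chevB2CartanSR, chevB2Coroot,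
    ccB, ChevalleyDatum.chainCoeff, chevB2, chevB2Chain, chevB2Chain6] <;> ring

set_option maxHeartbeats 4000000 in
theorem XB_check7 (t : F) (v : Fin 2 ⊕ Fin 8 → F) :
    e10f ((XB (7 : Fin 8) t).mulVec v) = rootMat 7 t * e10f v * (rootMat 7 t)ᵀ := by
  unfold e10f
  simp only [XB_mulVec]
  simp only [XB_hh, XB_rh, XB_hr, XB_rr]
  ext i j
  fin_cases i <;> fin_cases j <;>
  simp [rootMat, Matrix.mul_apply, Fin.sum_univ_four, chevB2NegIdx, chevB2CartanSR, chevB2Coroot,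
    ccB, ChevalleyDatum.chainCoeff, chevB2, chevB2Chain, chevB2Chain7] <;> ring

theorem XB_check (r : Fin 8) (t : F) (v : Fin 2 ⊕ Fin 8 → F) :
    e10 ((XB r t).mulVec v) = rootMat r t * e10 v * (rootMat r t)ᵀ := by
  fin_cases r
  · exact XB_check0 t v
  · exact XB_check1 t v
  · exact XB_check2 t v
  · exact XB_check3 t v
  · exact XB_check4 t v
  · exact XB_check5 t v
  · exact XB_check6 t v
  · exact XB_check7 t v

theorem adG_xs (r : Fin 8) (t : F) :
    (adG (xs r t) : Matrix (Fin 2 ⊕ Fin 8) (Fin 2 ⊕ Fin 8) F) = XB r t := by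
  apply adG_eq_of
  intro v
  rw [j5_xs, XB_check]

end Cfsg.Agent.Lib.Helper14
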