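import Mathlib
import Cfsg.Agent.Lib.Helper14.B2Check
import Cfsg.Agent.Lib.Helper5.SpPerfect
import Cfsg.Agent.Lib.Helper5.SpCenter

/-! `B₂(F) ≃* PSp₄(F)` for every field. -/

set_option autoImplicit false

namespace Cfsg.Agent.Lib.Helper14

open Cfsg Cfsg.Lie Matrix Cfsg.Agent.Lib.Helper44 Cfsg.Agent.Lib.Helper13 Cfsg.Agent.Lib.Helper5

variable {F : Type*} [Field F]

local notation "W" => Matrix (Fin 4) (Fin 4) F
local notation "Sp" => Matrix.symplecticGroup (Fin 2) F

/-- The subgroup generated by the root elements. -/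
def rootGen (F : Type*) [Field F] : Subgroup (Matrix.symplecticGroup (Fin 2) F) :=
  Subgroup.closure {g | ∃ (r : Fin 8) (t : F), g = xs r t}

theorem xs_mem (r : Fin 8) (t : F) : xs r t ∈ rootGen F := Subgroup.subset_closure ⟨r, t, rfl⟩

def Reach (w : Fin 4 → F) : Prop := ∃ x ∈ rootGen F, (j5 x : W) *ᵥ w = ![1, 0, 0, 0]

theorem reach_step (r : Fin 8) (t : F) (w w' : Fin 4 → F) (hw : rootMat r t *ᵥ w = w')
    (h : Reach w') : Reach w := by
  obtain ⟨x, hx, hxw⟩ := h
  refine ⟨x * xs r t, mul_mem hx (xs_mem r t), ?_⟩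
  rw [map_mul, Units.val_mul, j5_xs, ← Matrix.mulVec_mulVec, hw, hxw]

theorem reach_e0 : Reach (![1, 0, 0, 0] : Fin 4 → F) := ⟨1, one_mem _, by simp⟩

theorem reach_of_ne (a b c d : F) (ha : a ≠ 0) : Reach ![a, b, c, d] := by
  apply reach_step 2 (b / a) _ ![a, 0, c + b / a * d, d]
  · ext i; fin_cases i <;> simp [rootMat, Matrix.mulVec, dotProduct, Fin.sum_univ_four]
    field_simp
    ring
  generalize c + b / a * d = c'
  apply reach_step 1 (d / a) _ ![a, 0, c', 0]
  · ext i; fin_cases i <;> simp [rootMat, Matrix.mulVec, dotProduct, Fin.sum_univ_four]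
    field_simp
    ring
  apply reach_step 0 (-c' / a) _ ![a, 0, 0, 0]
  · ext i; fin_cases i <;> simp [rootMat, Matrix.mulVec, dotProduct, Fin.sum_univ_four]
    field_simp
    ring
  apply reach_step 0 (1 / a) _ ![a, 0, 1, 0]
  · ext i; fin_cases i <;> simp [rootMat, Matrix.mulVec, dotProduct, Fin.sum_univ_four]
    field_simp
  apply reach_step 7 (1 - a) _ ![1, 0, 1, 0]
  · ext i; fin_cases i <;> simp [rootMat, Matrix.mulVec, dotProduct, Fin.sum_univ_four]
  apply reach_step 0 (-1) _ ![1, 0, 0, 0]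
  · ext i; fin_cases i <;> simp [rootMat, Matrix.mulVec, dotProduct, Fin.sum_univ_four]
  exact reach_e0

theorem reach (w : Fin 4 → F) (hw : w ≠ 0) : Reach w := by
  have hw' : w = ![w 0, w 1, w 2, w 3] := by
    ext i; fin_cases i <;> rfl
  rw [hw']
  by_cases h0 : w 0 = 0
  · by_cases h2 : w 2 = 0
    · by_cases h1 : w 1 = 0
      · have h3 : w 3 ≠ 0 := by
          intro h3
          apply hw
          ext i; fin_cases i <;> assumption
        apply reach_step 6 (-1) _ ![w 0 + w 3, w 1 + w 2, w 2, w 3]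
        · ext i; fin_cases i <;> simp [rootMat, Matrix.mulVec, dotProduct, Fin.sum_univ_four]
        apply reach_of_ne
        rwa [h0, zero_add]
      · apply reach_step 5 (-1) _ ![w 0 + w 1, w 1, w 2, w 3 - w 2]
        · ext i; fin_cases i <;> simp [rootMat, Matrix.mulVec, dotProduct, Fin.sum_univ_four]
          ring
        apply reach_of_ne
        rwa [h0, zero_add]
    · apply reach_step 7 1 _ ![w 0 + w 2, w 1, w 2, w 3]
      · ext i; fin_cases i <;> simp [rootMat, Matrix.mulVec, dotProduct, Fin.sum_univ_four]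
      apply reach_of_ne
      rwa [h0, zero_add]
  · exact reach_of_ne _ _ _ _ h0

theorem j5_mulVec (x : Sp) (w : Fin 2 ⊕ Fin 2 → F) :
    (j5 x : W) *ᵥ (w ∘ s4.symm) = (x.1 *ᵥ w) ∘ s4.symm := by
  rw [j5_coe, Matrix.reindex_apply, Matrix.submatrix_mulVec_equiv]
  congr 2
  ext i
  simp

theorem tv_eL_eq (c : F) : tv (eL (0 : Fin 2) : Fin 2 ⊕ Fin 2 → F) c = xs 7 c := by
  apply j5_injective
  apply Units.ext
  rw [j5_xs, j5_coe]
  ext i j
  fin_cases i <;> fin_cases j <;>
    simp [tv, Cfsg.sympTransvection, eL, rootMat, s4_symm_0, s4_symm_1, s4_symm_2, s4_symm_3,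
      Matrix.vecMulVec_apply, Matrix.J, Matrix.fromBlocks]

theorem tv_mem_rootGen (w : Fin 2 ⊕ Fin 2 → F) (c : F) : tv w c ∈ rootGen F := by
  by_cases hw : w = 0
  · rw [hw, tv_zero_left]; exact one_mem _
  obtain ⟨x, hx, hxw⟩ := reach (w ∘ s4.symm) (by
    intro h
    apply hw
    ext i
    have := congrFun h (s4 i)
    simpa using this)
  rw [j5_mulVec] at hxw
  have hxw' : x.1 *ᵥ w = eL 0 := by
    ext i
    have := congrFun hxw (s4 i)
    simp only [Function.comp_apply, Equiv.symm_apply_apply] at this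
    rw [this]
    rcases i with i | i <;> fin_cases i <;> simp [eL, s4] <;> rfl
  have h := tv_conj x w c
  rw [hxw', tv_eL_eq] at h
  have h2 : tv w c = x⁻¹ * xs 7 c * x := by
    rw [← h]; group
  rw [h2]
  exact mul_mem (mul_mem (inv_mem hx) (xs_mem _ _)) hx

theorem rootGen_eq_top : rootGen F = ⊤ := by
  rw [eq_top_iff, ← Cfsg.Agent.S0765.result (F := F) 2, Subgroup.closure_le]
  rintro A ⟨w, c, hA⟩
  have : A = tv w c := Subtype.ext hA
  rw [this]
  exact tv_mem_rootGen w c

/-- The adjoint representation with the index type of the datum. -/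
noncomputable def adB : Sp →* GL chevB2.Idx F := adG

theorem adB_xs (r : Fin 8) (t : F) :
    (adB (xs r t) : Matrix chevB2.Idx chevB2.Idx F) = chevB2.xMat F r t := adG_xs r t

theorem adB_range : (adB (F := F)).range = chevB2.group F := by
  rw [MonoidHom.range_eq_map, ← rootGen_eq_top, rootGen, MonoidHom.map_closure,
    ChevalleyDatum.group]
  congr 1
  ext g
  constructor
  · rintro ⟨a, ⟨r, t, rfl⟩, rfl⟩
    exact ⟨r, t, adB_xs r t⟩
  · rintro ⟨r, t, h⟩
    exact ⟨xs r t, ⟨r, t, rfl⟩, Units.ext ((adB_xs r t).trans h.symm)⟩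

theorem sym_ker_scalar (g : W) (h : ∀ v, g * e10 v * gᵀ = e10 v) : g = 1 ∨ g = -1 := by
  have key1 : ∀ i k l, g k i * g l i = (Matrix.single i i (1 : F)) k l := by
    intro i k l
    obtain ⟨v, hv⟩ := e10_range (Matrix.single i i (1 : F)) (by simp)
    have := h v
    rw [hv] at this
    rw [← cong_single, this]
  have key2 : ∀ i j k l, g k i * g l j + g k j * g l i =
      (Matrix.single i j (1 : F) + Matrix.single j i (1 : F)) k l := by
    intro i j k l
    obtain ⟨v, hv⟩ := e10_range (Matrix.single i j (1 : F) + Matrix.single j i (1 : F))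
      (by simp [Matrix.transpose_add, add_comm])
    have := h v
    rw [hv, mul_add, add_mul] at this
    have h2 := congrFun (congrFun this k) l
    rw [Matrix.add_apply, cong_single, cong_single] at h2
    exact h2
  have hoff : ∀ k i, k ≠ i → g k i = 0 := by
    intro k i hki
    have := key1 i k k
    simp [Matrix.single_apply, hki.symm] at this
    exact this
  have hsq : ∀ i, g i i * g i i = 1 := by
    intro i
    have := key1 i i i
    simpa using this
  have hdiag : ∀ i j, i ≠ j → g i i * g j j = 1 := by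
    intro i j hij
    have := key2 i j i j
    simp [Matrix.single_apply, hij, hij.symm, hoff i j hij] at this
    exact this
  have heq : ∀ i, g i i = g 0 0 := by
    intro i
    by_cases hi : i = 0
    · rw [hi]
    have h1 := hdiag 0 i (Ne.symm hi)
    have h2 := hsq 0
    have h0 : g 0 0 ≠ 0 := by
      intro h0
      rw [h0, mul_zero] at h2
      exact zero_ne_one h2
    exact mul_left_cancel₀ h0 (h1.trans h2.symm)
  have : (g 0 0 - 1) * (g 0 0 + 1) = 0 := by linear_combination hsq 0
  rcases mul_eq_zero.mp this with h | h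
  · left
    have h1 : g 0 0 = 1 := by linear_combination h
    ext i j
    by_cases hij : i = j
    · rw [hij, heq, h1]; simp
    · rw [hoff i j hij]; simp [hij]
  · right
    have h1 : g 0 0 = -1 := by linear_combination h
    ext i j
    by_cases hij : i = j
    · rw [hij, heq, h1]; simp
    · rw [hoff i j hij]; simp [hij]

theorem adG_eq_one_iff (a : Sp) : adG a = 1 ↔ ∀ v, (j5 a : W) * e10 v * (j5 a : W)ᵀ = e10 v := by
  constructor
  · intro h v
    rw [← adL_spec, ← adG_mulVec, h]
    simp
  · intro h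
    apply Units.ext
    apply adG_eq_of
    intro v
    rw [h]
    simp

theorem adG_ker : (adG (F := F)).ker = Subgroup.center Sp := by
  ext a
  rw [MonoidHom.mem_ker, adG_eq_one_iff]
  constructor
  · intro h
    have h1 : (a : Matrix (Fin 2 ⊕ Fin 2) (Fin 2 ⊕ Fin 2) F) = 1 ∨
        (a : Matrix (Fin 2 ⊕ Fin 2) (Fin 2 ⊕ Fin 2) F) = -1 := by
      rcases sym_ker_scalar _ h with h | h
      · left
        rw [j5_coe] at h
        have := congrArg (Matrix.reindex s4 s4).symm h
        simpa using this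
      · right
        rw [j5_coe] at h
        have := congrArg (Matrix.reindex s4 s4).symm h
        simpa [Matrix.submatrix_neg] using this
    rw [Subgroup.mem_center_iff]
    intro b
    apply Subtype.ext
    show (b : Matrix (Fin 2 ⊕ Fin 2) (Fin 2 ⊕ Fin 2) F) * a = a * b
    rcases h1 with h1 | h1 <;> rw [h1] <;> simp
  · intro h v
    obtain ⟨c, hc⟩ := sp_center_scalar 2 a h
    have hc2 : c * c = 1 := by
      have h1 := (SymplecticGroup.mem_iff).mp a.2
      rw [hc] at h1
      have h2 := congrFun (congrFun h1 (.inr 0)) (.inl 0)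
      simp [Matrix.J, Matrix.fromBlocks, Matrix.mul_apply, Matrix.diagonal_apply] at h2
      exact h2
    have hj : (j5 a : W) = c • (1 : W) := by
      rw [j5_coe, hc]
      ext i j
      simp [Matrix.diagonal_apply, Matrix.one_apply]
    rw [hj]
    simp [smul_smul, hc2]

/-- `B₂(F) ≃* PSp₄(F)`. -/
theorem chevB2_equiv_psp : Nonempty (↥(chevB2.group F) ≃* Cfsg.PSp 2 F) := by
  have e1 : Sp ⧸ (adB (F := F)).ker ≃* (adB (F := F)).range :=
    QuotientGroup.quotientKerEquivRange _
  have e2 : (adB (F := F)).range ≃* ↥(chevB2.group F) := MulEquiv.subgroupCongr adB_range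
  have e3 : Sp ⧸ (adB (F := F)).ker ≃* Sp ⧸ Subgroup.center Sp :=
    QuotientGroup.quotientMulEquivOfEq adG_ker
  exact ⟨(e2.symm.trans e1.symm).trans e3⟩

end Cfsg.Agent.Lib.Helper14
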