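import Mathlib
import Cfsg.Agent.Lib.Helper5.SpSimple
import Cfsg.Agent.Lib.Helper5.SpParabolic
import Cfsg.Agent.Lib.Helper5.SpCenter

set_option autoImplicit false

/-! Elements of the unipotent radical of a point stabiliser in `Sp_{2m}(F)`. -/

namespace Cfsg.Agent.Lib.Helper14.PSpAut

open Matrix Cfsg.Agent.Lib.Helper13 Cfsg.Agent.Lib.Helper5

variable {F : Type*} [Field F] {m : ℕ}

local notation "V" => (Fin m ⊕ Fin m → F)
local notation "Sp" => Matrix.symplecticGroup (Fin m) F
local notation "B" => Cfsg.sympForm m F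

lemma one_mulVec' (x : V) : (1 : Sp).1 *ᵥ x = x := by
  change (1 : Matrix _ _ F) *ᵥ x = x
  simp

/-- `x ↦ x + B(x,u) w + B(x,w) u + a B(x,u) u` (for `B(u,w) = 0`). -/
def E (u w : V) (a : F) : Sp := tv (w + u) 1 * tv w (-1) * tv u (a - 1)

lemma E_mulVec {u w : V} (h : B u w = 0) (a : F) (x : V) :
    (E u w a).1 *ᵥ x = x + B x u • w + B x w • u + (a * B x u) • u := by
  have hwu : B w u = 0 := by rw [sympForm_swap, h, neg_zero]
  unfold E
  rw [sp_mul_mulVec, sp_mul_mulVec, tv_mulVec, tv_mulVec, tv_mulVec]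
  simp only [sympForm_add_left, sympForm_add_right, sympForm_smul_left, sympForm_self, h, hwu]
  module

lemma E_conj (A : Sp) (u w : V) (a : F) :
    A * E u w a * A⁻¹ = E (A.1 *ᵥ u) (A.1 *ᵥ w) a := by
  unfold E
  rw [← tv_conj, ← tv_conj, ← Matrix.mulVec_add, ← tv_conj]
  group

lemma E_mul {u w w' : V} (h : B u w = 0) (h' : B u w' = 0) (a a' : F) :
    E u w a * E u w' a' = E u (w + w') (a + a' + B w' w) := by
  have hwu : B w u = 0 := by rw [sympForm_swap, h, neg_zero]
  have hwu' : B w' u = 0 := by rw [sympForm_swap, h', neg_zero]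
  apply sp_ext
  intro x
  rw [sp_mul_mulVec, E_mulVec h', E_mulVec h, E_mulVec (by rw [sympForm_add_right, h, h', add_zero])]
  simp only [sympForm_add_left, sympForm_add_right, sympForm_smul_left, sympForm_self, h, hwu, h', hwu']
  module

lemma E_zero (u : V) (a : F) : E u 0 a = tv u a := by
  apply sp_ext
  intro x
  rw [E_mulVec (sympForm_zero_right u), tv_mulVec, sympForm_zero_right]
  module

lemma tv_zero_right (u : V) : tv u (0 : F) = 1 := by
  apply sp_ext
  intro x
  rw [tv_mulVec, one_mulVec']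
  simp

lemma E_zero_zero (u : V) : E u 0 (0 : F) = 1 := by
  rw [E_zero, tv_zero_right]

lemma E_inv {u w : V} (h : B u w = 0) (a : F) : (E u w a)⁻¹ = E u (-w) (-a) := by
  rw [inv_eq_iff_mul_eq_one, E_mul h (by rw [sympForm_neg_right, h, neg_zero])]
  rw [sympForm_neg_left, sympForm_self]
  simp [E_zero_zero]

lemma E_smul {u w : V} (h : B u w = 0) (l a : F) :
    E (l • u) w a = E u (l • w) (l ^ 2 * a) := by
  apply sp_ext
  intro x
  rw [E_mulVec (by rw [sympForm_smul_left, h, mul_zero]),
    E_mulVec (by rw [sympForm_smul_right, h, mul_zero])]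
  simp only [sympForm_smul_right]
  module

lemma E_add_smul {u w : V} (h : B u w = 0) (s a : F) :
    E u (w + s • u) a = E u w (a + 2 * s) := by
  apply sp_ext
  intro x
  rw [E_mulVec (by rw [sympForm_add_right, sympForm_smul_right, h, sympForm_self]; simp),
    E_mulVec h]
  simp only [sympForm_smul_right, sympForm_add_right]
  module

lemma E_fix {u w : V} (h : B u w = 0) (a : F) : (E u w a).1 *ᵥ u = u := by
  rw [E_mulVec h, sympForm_self, h]
  simp

/-- nondegeneracy: a partner vector -/
lemma exists_partner {u : V} (hu : u ≠ 0) : ∃ f : V, B u f = 1 := by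
  obtain ⟨a, ha⟩ := exists_sympForm_ne_zero hu
  exact ⟨(B u a)⁻¹ • a, by rw [sympForm_smul_right, inv_mul_cancel₀ ha]⟩

/-- the decomposition of a vector along a hyperbolic pair -/
def prW (e f x : V) : V := x - B x f • e + B x e • f

lemma prW_e {e f : V} (h : B e f = 1) (x : V) : B (prW e f x) e = 0 := by
  have h' : B f e = -1 := by rw [sympForm_swap, h]
  unfold prW
  rw [sympForm_add_left, sympForm_sub_left, sympForm_smul_left, sympForm_smul_left, sympForm_self, h']
  ring

lemma prW_f {e f : V} (h : B e f = 1) (x : V) : B (prW e f x) f = 0 := by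
  unfold prW
  rw [sympForm_add_left, sympForm_sub_left, sympForm_smul_left, sympForm_smul_left, sympForm_self, h]
  ring

lemma eq_prW (e f x : V) : x = B x f • e - B x e • f + prW e f x := by
  unfold prW; module

/-- two symplectic matrices agreeing on `e`, `f` and `{e,f}^⊥` are equal -/
lemma sp_ext_pair {e f : V} (h : B e f = 1) {A A' : Sp} (he : A.1 *ᵥ e = A'.1 *ᵥ e)
    (hf : A.1 *ᵥ f = A'.1 *ᵥ f)
    (hW : ∀ w : V, B w e = 0 → B w f = 0 → A.1 *ᵥ w = A'.1 *ᵥ w) : A = A' := by
  apply sp_ext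
  intro x
  rw [eq_prW e f x, Matrix.mulVec_add, Matrix.mulVec_sub, Matrix.mulVec_smul, Matrix.mulVec_smul,
    Matrix.mulVec_add, Matrix.mulVec_sub, Matrix.mulVec_smul, Matrix.mulVec_smul, he, hf,
    hW _ (prW_e h x) (prW_f h x)]

/-- `(u^⊥)^⊥ = ⟨u⟩` -/
lemma mem_span_of_perp {e f : V} (h : B e f = 1) {y : V} (hy : ∀ z : V, B z e = 0 → B z y = 0) :
    y = B y f • e := by
  have h' : B f e = -1 := by rw [sympForm_swap, h]
  rw [← sub_eq_zero]
  apply sympForm_nondeg
  intro v
  rw [eq_prW e f v]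
  have h1 := hy (prW e f v) (prW_e h v)
  have h2 := hy e (sympForm_self e)
  have h1' : B y (prW e f v) = 0 := by rw [sympForm_swap, h1, neg_zero]
  have h2' : B y e = 0 := by rw [sympForm_swap, h2, neg_zero]
  have h3 : B e (prW e f v) = 0 := by rw [sympForm_swap, prW_e h, neg_zero]
  simp only [sympForm_add_right, sympForm_sub_right, sympForm_smul_right, sympForm_sub_left,
    sympForm_smul_left, sympForm_self, h, h1', h2', h3]
  ring

/-- structure lemma: an element fixing `e` and acting trivially on `e^⊥/e` is an `E e w a`. -/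
lemma eq_E_of_trivial {e f : V} (h : B e f = 1) (g : Sp) (he : g.1 *ᵥ e = e)
    (hW : ∀ w : V, B w e = 0 → ∃ l : F, g.1 *ᵥ w = w + l • e) :
    ∃ (w : V) (a : F), B w e = 0 ∧ B w f = 0 ∧ g = E e w a := by
  have h' : B f e = -1 := by rw [sympForm_swap, h]
  set gf := g.1 *ᵥ f with hgf
  have h1 : B e gf = 1 := by
    have := Cfsg.Agent.Lib.Helper13.sp_preserves g e f
    rwa [he, h] at this
  have h1' : B gf e = -1 := by rw [sympForm_swap, h1]
  set w0 := prW e f gf with hw0
  have hw0e : B w0 e = 0 := prW_e h gf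
  have hw0f : B w0 f = 0 := prW_f h gf
  have hew0 : B e w0 = 0 := by rw [sympForm_swap, hw0e, neg_zero]
  have hgf' : gf = B gf f • e + f + w0 := by
    have := eq_prW e f gf
    rw [h1'] at this
    rw [hw0]
    nth_rewrite 1 [this]
    module
  refine ⟨-w0, -(B gf f), by rw [sympForm_neg_left, hw0e, neg_zero],
    by rw [sympForm_neg_left, hw0f, neg_zero], ?_⟩
  have hE : B e (-w0) = 0 := by rw [sympForm_neg_right, hew0, neg_zero]
  apply sp_ext_pair h
  · rw [he, E_fix hE]
  · rw [E_mulVec hE, ← hgf, h', sympForm_neg_right]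
    have : B f w0 = 0 := by rw [sympForm_swap, hw0f, neg_zero]
    rw [this]
    nth_rewrite 1 [hgf']
    module
  · intro w hwe hwf
    obtain ⟨l, hl⟩ := hW w hwe
    rw [E_mulVec hE, hwe, hl, sympForm_neg_right]
    have h2 := Cfsg.Agent.Lib.Helper13.sp_preserves g w f
    rw [hl, ← hgf, hwf, hgf'] at h2
    simp only [sympForm_add_left, sympForm_add_right, sympForm_smul_left, sympForm_smul_right,
      sympForm_self, hwe, hwf, h, hew0] at h2
    have : l = - B w w0 := by linear_combination h2
    rw [this]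
    module

end Cfsg.Agent.Lib.Helper14.PSpAut
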