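import Mathlib
import Cfsg.Agent.Lib.Helper14.PSpAutE

set_option autoImplicit false

/-! Products of two non-commuting transvections are not `p`-elements; images in `PSp`. -/

namespace Cfsg.Agent.Lib.Helper14.PSpAut

open Matrix Cfsg.Agent.Lib.Helper13 Cfsg.Agent.Lib.Helper5 Cfsg.Agent.Lib.Helper94

variable {F : Type*} [Field F] {m : ℕ}

local notation "V" => (Fin m ⊕ Fin m → F)
local notation "Sp" => Matrix.symplecticGroup (Fin m) F
local notation "B" => Cfsg.sympForm m F

/-- a non-zero vector orthogonal to fewer than `2m` given vectors -/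
lemma exists_perp {k : ℕ} (hk : k < 2 * m) (y : Fin k → V) :
    ∃ x : V, x ≠ 0 ∧ ∀ i, B x (y i) = 0 := by
  let f : V →ₗ[F] (Fin k → F) := LinearMap.pi fun i => (sympB m F).flip (y i)
  have hker : LinearMap.ker f ≠ ⊥ := by
    apply LinearMap.ker_ne_bot_of_finrank_lt
    rw [finrank_symp, Module.finrank_fin_fun]
    exact hk
  obtain ⟨x, hx, hx0⟩ := (Submodule.ne_bot_iff _).1 hker
  refine ⟨x, hx0, fun i => ?_⟩
  have := congrFun (LinearMap.mem_ker.1 hx) i
  simpa [f, sympB_apply] using this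

lemma exists_perp_two (hm : 2 ≤ m) (u v : V) : ∃ x : V, x ≠ 0 ∧ B x u = 0 ∧ B x v = 0 := by
  obtain ⟨x, hx, h⟩ := exists_perp (k := 2) (by omega) ![u, v]
  exact ⟨x, hx, h 0, h 1⟩

lemma center_smul (z : Sp) (hz : z ∈ Subgroup.center Sp) : ∃ c : F, ∀ x : V, z.1 *ᵥ x = c • x := by
  obtain ⟨a, ha⟩ := sp_center_scalar m z hz
  refine ⟨a, fun x => ?_⟩
  rw [ha]
  ext i
  simp [Matrix.mulVec_diagonal]

lemma sp_pow_coe (A : Sp) (k : ℕ) : (A ^ k).1 = A.1 ^ k := rfl

/-- a central element fixing a non-zero vector is trivial -/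
lemma center_eq_one_of_fix (z : Sp) (hz : z ∈ Subgroup.center Sp) {x : V} (hx : x ≠ 0)
    (h : z.1 *ᵥ x = x) : z = 1 := by
  obtain ⟨c, hc⟩ := center_smul z hz
  have h1 : c = 1 := by
    have := hc x
    rw [h] at this
    have h2 : (c - 1) • x = 0 := by rw [sub_smul, ← this, one_smul, sub_self]
    rcases smul_eq_zero.1 h2 with h3 | h3
    · linear_combination h3
    · exact absurd h3 hx
  apply sp_ext
  intro y
  rw [hc, h1, one_smul, one_mulVec']

lemma pow_fix (A : Sp) {x : V} (h : A.1 *ᵥ x = x) (k : ℕ) : (A ^ k).1 *ᵥ x = x := by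
  induction k with
  | zero => rw [pow_zero, one_mulVec']
  | succ k ih => rw [pow_succ, sp_mul_mulVec, h, ih]

/-- **NP**: the product of two non-commuting transvections is not a `p`-element modulo the centre. -/
theorem tv_mul_tv_not_pElement (p : ℕ) [Fact p.Prime] [CharP F p] (hm : 2 ≤ m) {u v : V}
    (huv : B u v ≠ 0) {c d : F} (hc : c ≠ 0) (hd : d ≠ 0) (k : ℕ) :
    (tv u c * tv v d) ^ (p ^ k) ∉ Subgroup.center Sp := by
  intro hz
  set h := tv u c * tv v d with hh
  obtain ⟨x0, hx0, hx0u, hx0v⟩ := exists_perp_two hm u v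
  have hfix : h.1 *ᵥ x0 = x0 := by
    rw [hh, sp_mul_mulVec, tv_mulVec v, hx0v, mul_zero, zero_smul, add_zero, tv_mulVec, hx0u,
      mul_zero, zero_smul, add_zero]
  have h1 : h ^ (p ^ k) = 1 := center_eq_one_of_fix _ hz hx0 (pow_fix h hfix _)
  haveI : Nonempty (Fin m ⊕ Fin m) := ⟨Sum.inl ⟨0, by omega⟩⟩
  have h2 : (h.1 - 1) ^ (p ^ k) = 0 := by
    rw [sub_pow_char_pow_of_commute _ _ (Commute.one_right _), one_pow, ← sp_pow_coe, h1]
    exact sub_self _
  set N := h.1 - 1 with hN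
  set b := B u v with hb
  have hvu : B v u = -b := by rw [sympForm_swap]
  have hNu : N *ᵥ u = (d * b) • v - (c * d * b ^ 2) • u := by
    rw [hN, Matrix.sub_mulVec, Matrix.one_mulVec, hh, sp_mul_mulVec, tv_mulVec, tv_mulVec]
    simp only [sympForm_add_left, sympForm_smul_left, sympForm_self, hvu, ← hb]
    module
  have hNv : N *ᵥ v = -(c * b) • u := by
    rw [hN, Matrix.sub_mulVec, Matrix.one_mulVec, hh, sp_mul_mulVec, tv_mulVec, tv_mulVec]
    simp only [sympForm_add_left, sympForm_smul_left, sympForm_self, hvu]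
    module
  set τ := c * d * b ^ 2 with hτ
  have hτ0 : τ ≠ 0 := mul_ne_zero (mul_ne_zero hc hd) (pow_ne_zero 2 huv)
  have hrel : N *ᵥ (N *ᵥ u) = -(τ • (N *ᵥ u)) - τ • u := by
    nth_rewrite 1 [hNu]
    rw [Matrix.mulVec_sub, Matrix.mulVec_smul, Matrix.mulVec_smul, hNv]
    rw [hτ]
    module
  have hu0 : u ≠ 0 := by
    rintro rfl
    exact huv (sympForm_zero_left v)
  have key : ∀ j : ℕ, (N ^ j) *ᵥ u ≠ 0 := by
    intro j
    induction j with
    | zero => rw [pow_zero, Matrix.one_mulVec]; exact hu0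
    | succ j ih =>
      intro h0
      apply ih
      have h4 : (N ^ j) *ᵥ (N *ᵥ u) = 0 := by
        rw [Matrix.mulVec_mulVec, ← pow_succ]; exact h0
      have h3 : (N ^ j) *ᵥ (N *ᵥ (N *ᵥ u)) = 0 := by
        rw [Matrix.mulVec_mulVec, ← pow_succ, Matrix.mulVec_mulVec, ← pow_succ, pow_succ',
          ← Matrix.mulVec_mulVec, h0, Matrix.mulVec_zero]
      rw [hrel, Matrix.mulVec_sub, Matrix.mulVec_neg, Matrix.mulVec_smul, Matrix.mulVec_smul, h4,
        smul_zero, neg_zero, zero_sub, neg_eq_zero] at h3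
      exact (smul_eq_zero.1 h3).resolve_left hτ0
  exact key _ (by rw [h2, Matrix.zero_mulVec])

end Cfsg.Agent.Lib.Helper14.PSpAut
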