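import Mathlib
import Cfsg.Agent.Lib.Helper14.PSpAutNP

set_option autoImplicit false

/-! Sylow `p`-subgroups of `Sp_{2m}(q)` and their centres. -/

namespace Cfsg.Agent.Lib.Helper14.PSpAut

open Matrix Cfsg.Agent.Lib.Helper13 Cfsg.Agent.Lib.Helper5 Cfsg.Agent.Lib.Helper94

variable {F : Type*} [Field F] {m : ℕ}

local notation "V" => (Fin m ⊕ Fin m → F)
local notation "Sp" => Matrix.symplecticGroup (Fin m) F
local notation "B" => Cfsg.sympForm m F

/-- the natural action on vectors -/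
def spActV : MulAction Sp V where
  smul A x := A.1 *ᵥ x
  one_smul := one_mulVec'
  mul_smul A A' x := sp_mul_mulVec A A' x

/-- the unipotent radical of the stabiliser of `u` -/
def Q (u : V) : Subgroup Sp where
  carrier := {A | ∃ (w : V) (a : F), B u w = 0 ∧ A = E u w a}
  mul_mem' := by
    rintro _ _ ⟨w, a, h, rfl⟩ ⟨w', a', h', rfl⟩
    exact ⟨w + w', _, by rw [sympForm_add_right, h, h', add_zero], E_mul h h' a a'⟩
  one_mem' := ⟨0, 0, sympForm_zero_right u, (E_zero_zero u).symm⟩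
  inv_mem' := by
    rintro _ ⟨w, a, h, rfl⟩
    exact ⟨-w, -a, by rw [sympForm_neg_right, h, neg_zero], E_inv h a⟩

lemma E_pow {u w : V} (h : B u w = 0) (a : F) (k : ℕ) :
    (E u w a) ^ k = E u ((k : F) • w) (k * a) := by
  induction k with
  | zero => simp [E_zero_zero]
  | succ k ih =>
    rw [pow_succ, ih, E_mul (by rw [sympForm_smul_right, h, mul_zero]) h, sympForm_smul_right,
      sympForm_self, mul_zero, add_zero]
    congr 1
    · push_cast; module
    · push_cast; ring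

lemma Q_isPGroup (p : ℕ) [CharP F p] (u : V) : IsPGroup p (Q u) := by
  rintro ⟨_, w, a, h, rfl⟩
  refine ⟨1, ?_⟩
  apply Subtype.ext
  rw [pow_one]
  change (E u w a) ^ p = 1
  rw [E_pow h, CharP.cast_eq_zero F p]
  simp [E_zero_zero]

lemma tv_mem_Q (u : V) (a : F) : tv u a ∈ Q u := ⟨0, a, sympForm_zero_right u, (E_zero u a).symm⟩

lemma exists_fixed_vector [Fintype F] (p : ℕ) [Fact p.Prime] [CharP F p] (hm : 1 ≤ m)
    (S : Subgroup Sp) (hS : IsPGroup p S) : ∃ u : V, u ≠ 0 ∧ ∀ s ∈ S, s.1 *ᵥ u = u := by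
  letI := spActV (F := F) (m := m)
  have hcard : p ∣ Nat.card V := by
    obtain ⟨n, -, hn⟩ := FiniteField.card F p
    rw [Nat.card_eq_fintype_card, Fintype.card_fun, hn, Fintype.card_sum, Fintype.card_fin]
    exact dvd_pow (dvd_pow_self p n.ne_zero) (by omega)
  have h0 : (0 : V) ∈ MulAction.fixedPoints S V := by
    intro s
    change s.1.1 *ᵥ (0 : V) = 0
    simp
  obtain ⟨b, hb, hb0⟩ := hS.exists_fixed_point_of_prime_dvd_card_of_fixed_point V hcard h0
  exact ⟨b, hb0.symm, fun s hs => hb ⟨s, hs⟩⟩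

lemma conj_mem_Q {u : V} {s : Sp} (hs : s.1 *ᵥ u = u) {A : Sp} (hA : A ∈ Q u) :
    s * A * s⁻¹ ∈ Q u := by
  obtain ⟨w, a, h, rfl⟩ := hA
  refine ⟨s.1 *ᵥ w, a, ?_, ?_⟩
  · nth_rewrite 1 [← hs]
    rw [Cfsg.Agent.Lib.Helper13.sp_preserves, h]
  · rw [E_conj, hs]

lemma inv_fix {u : V} {s : Sp} (hs : s.1 *ᵥ u = u) : (s⁻¹).1 *ᵥ u = u := by
  nth_rewrite 1 [← hs]
  rw [sp_inv_mulVec_mulVec]

lemma Q_le_sylow (p : ℕ) [Fact p.Prime] [CharP F p] (S : Sylow p Sp) {u : V}
    (hu : ∀ s ∈ S, s.1 *ᵥ u = u) : Q u ≤ S := by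
  have hnorm : (S : Subgroup Sp) ≤ Subgroup.normalizer (Q u : Set Sp) := by
    intro s hs
    rw [Subgroup.mem_normalizer_iff]
    intro A
    refine ⟨fun hA => conj_mem_Q (hu s hs) hA, fun hA => ?_⟩
    have := conj_mem_Q (inv_fix (hu s hs)) hA
    simpa [mul_assoc] using this
  have hp : IsPGroup p ((S : Subgroup Sp) ⊔ Q u : Subgroup Sp) :=
    S.2.to_sup_of_normal_right' (Q_isPGroup p u) hnorm
  have := S.3 hp le_sup_left
  rw [← this]
  exact le_sup_right

/-- central elements of a Sylow subgroup lie in `Q u` -/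
lemma sylow_center_mem (p : ℕ) [Fact p.Prime] [CharP F p] (S : Sylow p Sp) {u f : V}
    (huf : B u f = 1) (hu : ∀ s ∈ S, s.1 *ᵥ u = u) {z : Sp} (hz : z ∈ S)
    (hc : ∀ s ∈ S, s * z = z * s) :
    ∃ (w : V) (a : F), B w u = 0 ∧ B w f = 0 ∧ z = E u w a ∧ ((2 : F) ≠ 0 → w = 0) := by
  have hfu : B f u = -1 := by rw [sympForm_swap, huf]
  have hQ := Q_le_sylow p S hu
  have hzu := hu z hz
  have key : ∀ w : V, B w u = 0 → z.1 *ᵥ w = w + (B f (z.1 *ᵥ w) - B f w) • u := by
    intro w hw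
    have hw' : B u w = 0 := by rw [sympForm_swap, hw, neg_zero]
    have h1 : z * E u w 0 * z⁻¹ = E u w 0 := by
      rw [← hc _ (hQ ⟨w, 0, hw', rfl⟩)]; group
    rw [E_conj, hzu] at h1
    have hw'' : B u (z.1 *ᵥ w) = 0 := by
      nth_rewrite 1 [← hzu]
      rw [Cfsg.Agent.Lib.Helper13.sp_preserves, hw']
    have h2 := congrArg (fun A : Sp => A.1 *ᵥ f) h1
    simp only [E_mulVec hw'', E_mulVec hw', hfu] at h2
    have h3 : z.1 *ᵥ w = w + (B f (z.1 *ᵥ w) - B f w) • u := by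
      linear_combination (norm := module) -h2
    exact h3
  obtain ⟨w1, a, h1, h2, h3⟩ := eq_E_of_trivial huf z hzu (fun w hw => ⟨_, key w hw⟩)
  refine ⟨w1, a, h1, h2, h3, fun h20 => ?_⟩
  have hw1 : B u w1 = 0 := by rw [sympForm_swap, h1, neg_zero]
  have hfix : ∀ w : V, B w u = 0 → B w w1 = 0 := by
    intro w hw
    have h4 := key w hw
    set l := B f (z.1 *ᵥ w) - B f w with hl
    have h5 : l = -l := by
      nth_rewrite 1 [hl]
      rw [h4, sympForm_add_right, sympForm_smul_right, hfu]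
      ring
    have h6 : l = 0 := by
      have : 2 * l = 0 := by linear_combination h5
      exact (mul_eq_zero.1 this).resolve_left h20
    rw [h6, zero_smul, add_zero, h3, E_mulVec hw1, hw] at h4
    have h7 : B w w1 • u = 0 := by
      linear_combination (norm := module) h4
    have hu0 : u ≠ 0 := by
      rintro rfl
      rw [sympForm_zero_left] at huf
      exact zero_ne_one huf
    exact (smul_eq_zero.1 h7).resolve_right hu0
  have := mem_span_of_perp huf hfix
  rw [this, h2, zero_smul]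

lemma tv_central_sylow (p : ℕ) [Fact p.Prime] [CharP F p] (S : Sylow p Sp) {u : V}
    (hu : ∀ s ∈ S, s.1 *ᵥ u = u) (a : F) :
    tv u a ∈ S ∧ ∀ s ∈ S, s * tv u a = tv u a * s := by
  refine ⟨Q_le_sylow p S hu (tv_mem_Q u a), fun s hs => ?_⟩
  have := tv_conj s u a
  rw [hu s hs] at this
  nth_rewrite 2 [← this]; group

end Cfsg.Agent.Lib.Helper14.PSpAut
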