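import Mathlib
import Cfsg.Agent.Lib.Helper14.PSpAutSyl

set_option autoImplicit false

/-! Automorphisms of `PSp_{2m}(q)` permute the transvection subgroups. -/

namespace Cfsg.Agent.Lib.Helper14.PSpAut

open Matrix Cfsg.Agent.Lib.Helper13 Cfsg.Agent.Lib.Helper5 Cfsg.Agent.Lib.Helper94
open scoped Pointwise

variable {F : Type*} [Field F] {m : ℕ}

local notation "V" => (Fin m ⊕ Fin m → F)
local notation "Sp" => Matrix.symplecticGroup (Fin m) F
local notation "B" => Cfsg.sympForm m F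

/-- the projection `Sp → PSp` -/
abbrev mkP : Sp →* Cfsg.PSp m F := QuotientGroup.mk' (Subgroup.center Sp)

lemma mkP_surj : Function.Surjective (mkP (F := F) (m := m)) := QuotientGroup.mk'_surjective _

lemma mkP_eq_one {A : Sp} : mkP A = 1 ↔ A ∈ Subgroup.center Sp := QuotientGroup.eq_one_iff A

lemma ne_zero_of_partner {u f : V} (h : B u f = 1) : u ≠ 0 := by
  rintro rfl
  rw [sympForm_zero_left] at h
  exact zero_ne_one h

/-- first form of (A): for one vector `u0` -/
lemma aut_tv_aux [Fintype F] (p : ℕ) [Fact p.Prime] [CharP F p] (hm : 1 ≤ m)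
    (β : Cfsg.PSp m F ≃* Cfsg.PSp m F) :
    ∃ (u0 u1 f1 : V), u0 ≠ 0 ∧ B u1 f1 = 1 ∧ ∀ a : F, ∃ (w : V) (a' : F), B w u1 = 0 ∧ B w f1 = 0 ∧
      β (mkP (tv u0 a)) = mkP (E u1 w a') ∧ ((2 : F) ≠ 0 → w = 0) := by
  classical
  haveI : Finite Sp := inferInstance
  let S : Sylow p Sp := (Sylow.nonempty (p := p) (G := Sp)).some
  obtain ⟨u0, hu0, hfix⟩ := exists_fixed_vector p hm (S : Subgroup Sp) S.2
  obtain ⟨f0, hf0⟩ := exists_partner hu0
  let P : Sylow p (Cfsg.PSp m F) := S.mapSurjective mkP_surj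
  have hPmem : ∀ x, x ∈ (P : Subgroup (Cfsg.PSp m F)) ↔ ∃ s ∈ S, mkP s = x := by
    intro x
    change x ∈ (S : Subgroup Sp).map mkP ↔ _
    rw [Subgroup.mem_map]
    rfl
  let β' : MulAut (Cfsg.PSp m F) := β
  obtain ⟨gb, hgb⟩ := MulAction.exists_smul_eq (Cfsg.PSp m F) P (β' • P)
  have hsub : (MulAut.conj gb • (P : Subgroup (Cfsg.PSp m F))) = β' • (P : Subgroup (Cfsg.PSp m F)) := by
    have := congrArg Sylow.toSubgroup hgb
    simpa [Sylow.smul_def, Sylow.pointwise_smul_def] using this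
  have h1 : ∀ x ∈ (P : Subgroup (Cfsg.PSp m F)), gb⁻¹ * β x * gb ∈ (P : Subgroup (Cfsg.PSp m F)) := by
    intro x hx
    have hx' : β x ∈ β' • (P : Subgroup (Cfsg.PSp m F)) := by
      rw [Subgroup.mem_pointwise_smul_iff_inv_smul_mem]
      change β'⁻¹ (β' x) ∈ _
      simpa using hx
    rw [← hsub, Subgroup.mem_pointwise_smul_iff_inv_smul_mem] at hx'
    simpa [MulAut.smul_def, MulAut.conj_apply, MulAut.conj_inv_apply, mul_assoc] using hx'
  have h2 : ∀ y ∈ (P : Subgroup (Cfsg.PSp m F)), ∃ x ∈ (P : Subgroup (Cfsg.PSp m F)), β x = gb * y * gb⁻¹ := by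
    intro y hy
    have hy' : gb * y * gb⁻¹ ∈ MulAut.conj gb • (P : Subgroup (Cfsg.PSp m F)) := by
      rw [Subgroup.mem_pointwise_smul_iff_inv_smul_mem]
      simpa [MulAut.smul_def, MulAut.conj_apply, MulAut.conj_inv_apply, mul_assoc] using hy
    rw [hsub, Subgroup.mem_pointwise_smul_iff_inv_smul_mem] at hy'
    refine ⟨β'⁻¹ (gb * y * gb⁻¹), hy', ?_⟩
    change β' (β'⁻¹ _) = _
    simp
  obtain ⟨g, hg⟩ := mkP_surj gb
  refine ⟨u0, g.1 *ᵥ u0, g.1 *ᵥ f0, hu0, by rw [Cfsg.Agent.Lib.Helper13.sp_preserves, hf0], ?_⟩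
  intro a
  obtain ⟨ht, htc⟩ := tv_central_sylow p S hfix a
  have hy := h1 (mkP (tv u0 a)) ((hPmem _).2 ⟨_, ht, rfl⟩)
  obtain ⟨z, hz, hzy⟩ := (hPmem _).1 hy
  have hzc : ∀ s ∈ S, s * z = z * s := by
    intro s hs
    obtain ⟨x, hx, hxs⟩ := h2 (mkP s) ((hPmem _).2 ⟨s, hs, rfl⟩)
    obtain ⟨s', hs', rfl⟩ := (hPmem _).1 hx
    have hcomm : mkP s * mkP z = mkP z * mkP s := by
      have e1 : mkP s = gb⁻¹ * β (mkP s') * gb := by rw [hxs]; group
      rw [hzy, e1]
      have e2 : β (mkP s') * β (mkP (tv u0 a)) = β (mkP (tv u0 a)) * β (mkP s') := by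
        rw [← map_mul, ← map_mul, ← map_mul, ← map_mul, htc s' hs']
      calc gb⁻¹ * β (mkP s') * gb * (gb⁻¹ * β (mkP (tv u0 a)) * gb)
          = gb⁻¹ * (β (mkP s') * β (mkP (tv u0 a))) * gb := by group
        _ = gb⁻¹ * (β (mkP (tv u0 a)) * β (mkP s')) * gb := by rw [e2]
        _ = _ := by group
    have hc : s * z * s⁻¹ * z⁻¹ ∈ Subgroup.center Sp := by
      rw [← mkP_eq_one, map_mul, map_mul, map_mul, map_inv, map_inv, hcomm]
      group
    have hfx : (s * z * s⁻¹ * z⁻¹).1 *ᵥ u0 = u0 := by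
      rw [sp_mul_mulVec, sp_mul_mulVec, sp_mul_mulVec, inv_fix (hfix z hz), inv_fix (hfix s hs),
        hfix z hz, hfix s hs]
    have := center_eq_one_of_fix _ hc hu0 hfx
    calc s * z = (s * z * s⁻¹ * z⁻¹) * (z * s) := by group
      _ = z * s := by rw [this, one_mul]
  obtain ⟨w, a', hw1, hw2, hzE, hw3⟩ := sylow_center_mem p S hf0 hfix hz hzc
  refine ⟨g.1 *ᵥ w, a', by rw [Cfsg.Agent.Lib.Helper13.sp_preserves, hw1],
    by rw [Cfsg.Agent.Lib.Helper13.sp_preserves, hw2], ?_, fun h => by rw [hw3 h, Matrix.mulVec_zero]⟩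
  rw [← E_conj, ← hzE, map_mul, map_mul, map_inv, hzy, hg]
  group

/-- transitivity on non-zero vectors -/
lemma exists_sp_map {u u' : V} (hu : u ≠ 0) (hu' : u' ≠ 0) : ∃ A : Sp, A.1 *ᵥ u = u' := by
  have hW : ∀ u ∈ (⊤ : Submodule F (Fin m ⊕ Fin m → F)), u ≠ 0 →
      ∃ a ∈ (⊤ : Submodule F (Fin m ⊕ Fin m → F)), Cfsg.sympForm m F u a ≠ 0 := by
    intro u _ hu
    by_contra hcon
    push Not at hcon
    exact hu (sympForm_nondeg u (fun v => hcon v trivial))
  obtain ⟨A, _, hA⟩ := exists_tv_vec (⊤ : Submodule F (Fin m ⊕ Fin m → F)) hW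
    (u := u) (u' := u') trivial trivial hu hu'
  exact ⟨A, hA⟩

section CharTwo

lemma add_self_vec (h2 : (2 : F) = 0) (x : V) : x + x = 0 := by
  rw [← two_smul F, h2, zero_smul]

lemma add_self_sc (h2 : (2 : F) = 0) (x : F) : x + x = 0 := by
  rw [← two_mul, h2, zero_mul]

lemma tv_comm {u v : V} (h : B u v = 0) (a b : F) : tv v b * tv u a = tv u a * tv v b := by
  have := tv_conj (tv v b) u a
  rw [tv_mulVec, h, mul_zero, zero_smul, add_zero] at this
  nth_rewrite 2 [← this]; group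

/-- T1 -/
lemma T1 (hm : 2 ≤ m) [CharP F 2] (u : V) (a : F) (g : Sp)
    (h : (tv u a * (g * tv u a * g⁻¹)) ^ 4 ∈ Subgroup.center Sp) :
    (tv u a * (g * tv u a * g⁻¹)) ^ 2 = 1 := by
  have h2 : (2 : F) = 0 := CharTwo.two_eq_zero
  rw [tv_conj] at h ⊢
  set v := g.1 *ᵥ u
  by_cases ha : a = 0
  · rw [ha, tv_zero_right, tv_zero_right]; simp
  by_cases hb : B u v = 0
  · rw [pow_two]
    calc tv u a * tv v a * (tv u a * tv v a) = tv u a * (tv v a * tv u a) * tv v a := by group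
      _ = tv u a * (tv u a * tv v a) * tv v a := by rw [tv_comm hb]
      _ = (tv u a * tv u a) * (tv v a * tv v a) := by group
      _ = 1 := by rw [tv_mul_tv, tv_mul_tv, add_self_sc h2, tv_zero_right, tv_zero_right, one_mul]
  · exact absurd h (tv_mul_tv_not_pElement 2 hm hb ha ha 2)

/-- T2 -/
lemma T2 (hm : 3 ≤ m) (h2 : (2 : F) = 0) {u f w : V} (huf : B u f = 1) (hwu : B w u = 0)
    (hwf : B w f = 0) (hw : w ≠ 0) (a : F) :
    ∃ g : Sp, (E u w a * (g * E u w a * g⁻¹)) ^ 4 = 1 ∧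
      (E u w a * (g * E u w a * g⁻¹)) ^ 2 ∉ Subgroup.center Sp := by
  have hu0 := ne_zero_of_partner huf
  have huw : B u w = 0 := by rw [sympForm_swap, hwu, neg_zero]
  -- the vector z
  obtain ⟨z, hzu, hzw⟩ : ∃ z : V, B z u = 0 ∧ B w z = 1 := by
    by_contra hcon
    push Not at hcon
    have : ∀ z : V, B z u = 0 → B z w = 0 := by
      intro z hz
      by_contra h0
      have h0' : B w z ≠ 0 := by rw [sympForm_swap]; exact neg_ne_zero.2 h0
      apply hcon ((B w z)⁻¹ • z) (by rw [sympForm_smul_left, hz, mul_zero])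
      rw [sympForm_smul_right, inv_mul_cancel₀ h0']
    have h3 := mem_span_of_perp huf this
    rw [hwf, zero_smul] at h3
    exact hw h3
  obtain ⟨y, hy0, hy⟩ := exists_perp (k := 4) (by omega) ![u, w, z, f]
  have hyu : B y u = 0 := hy 0
  have hyw : B y w = 0 := hy 1
  have hyz : B y z = 0 := hy 2
  have hyf : B y f = 0 := hy 3
  have huy : B u y = 0 := by rw [sympForm_swap, hyu, neg_zero]
  have hwy : B w y = 0 := by rw [sympForm_swap, hyw, neg_zero]
  have huz : B u z = 0 := by rw [sympForm_swap, hzu, neg_zero]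
  have hfy : B f y = 0 := by rw [sympForm_swap, hyf, neg_zero]
  have hli1 : LinearIndependent F ![u, w] := by
    rw [LinearIndependent.pair_iff]
    intro s t hst
    have h3 := congrArg (fun x => B x f) hst
    simp only [sympForm_add_left, sympForm_smul_left, huf, hwf, sympForm_zero_left] at h3
    have hs : s = 0 := by linear_combination h3
    rw [hs, zero_smul, zero_add] at hst
    exact ⟨hs, (smul_eq_zero.1 hst).resolve_right hw⟩
  have hli2 : LinearIndependent F ![y, z] := by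
    rw [LinearIndependent.pair_iff]
    intro s t hst
    have h3 := congrArg (fun x => B w x) hst
    simp only [sympForm_add_right, sympForm_smul_right, hwy, hzw, sympForm_zero_right] at h3
    have ht : t = 0 := by linear_combination h3
    rw [ht, zero_smul, add_zero] at hst
    exact ⟨(smul_eq_zero.1 hst).resolve_right hy0, ht⟩
  obtain ⟨g, hg⟩ := exists_sp_of_frames m ![u, w] ![y, z] hli1 hli2 (by
    intro i j
    fin_cases i <;> fin_cases j <;>
      simp [sympForm_self, huw, hwu, hyz, sympForm_swap z y])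
  have hgu : g.1 *ᵥ u = y := congrFun hg 0
  have hgw : g.1 *ᵥ w = z := congrFun hg 1
  refine ⟨g, ?_⟩
  rw [E_conj, hgu, hgw]
  set d := E u w a with hd
  set d' := E y z a with hd'
  have hd'2 : d' * d' = 1 := by
    rw [hd', E_mul hyz hyz, sympForm_self, add_self_vec h2, add_self_sc h2, add_zero, E_zero_zero]
  have hd'inv : d'⁻¹ = d' := by rw [inv_eq_iff_mul_eq_one, hd'2]
  have hsq : (d * d') ^ 2 = E u y 0 := by
    have e1 : d' * d * d'⁻¹ = E u (w + y) a := by
      rw [hd, E_conj, hd', E_mulVec hyz, E_mulVec hyz, huy, huz, hwy, hzw]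
      congr 1 <;> module
    rw [pow_two]
    calc d * d' * (d * d') = d * (d' * d * d'⁻¹) * (d' * d') := by group
      _ = d * E u (w + y) a := by rw [e1, hd'2, mul_one]
      _ = E u y 0 := by
        rw [hd, E_mul huw (by rw [sympForm_add_right, huw, huy, add_zero]), sympForm_add_left,
          sympForm_self, hyw, add_self_sc h2, ← add_assoc, add_self_vec h2]
        simp
  constructor
  · rw [show (4 : ℕ) = 2 * 2 from rfl, pow_mul, hsq, pow_two, E_mul huy huy, sympForm_self,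
      add_self_vec h2]
    simp [E_zero_zero]
  · rw [hsq]
    intro hc
    have h1 := center_eq_one_of_fix _ hc hu0 (E_fix huy 0)
    have h3 := congrArg (fun A : Sp => A.1 *ᵥ f) h1
    simp only [E_mulVec huy, one_mulVec', hfy] at h3
    have hfu : B f u = -1 := by rw [sympForm_swap, huf]
    rw [hfu] at h3
    apply hy0
    linear_combination (norm := module) -h3

end CharTwo

/-- **(A)**: an automorphism of `PSp` maps each transvection group into a transvection group. -/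
theorem aut_tv [Fintype F] (p : ℕ) [Fact p.Prime] [CharP F p] (hm : 2 ≤ m) (h4 : m = 2 → p ≠ 2)
    (β : Cfsg.PSp m F ≃* Cfsg.PSp m F) {u : V} (hu : u ≠ 0) :
    ∃ u' : V, u' ≠ 0 ∧ ∀ a : F, ∃ a' : F, β (mkP (tv u a)) = mkP (tv u' a') := by
  obtain ⟨u0, u1, f1, hu0, huf, h⟩ := aut_tv_aux p (by omega) β
  have hu1 := ne_zero_of_partner huf
  have key : ∀ a : F, ∃ a' : F, β (mkP (tv u0 a)) = mkP (tv u1 a') := by
    intro a
    obtain ⟨w, a', hw1, hw2, hβ, hw3⟩ := h a
    by_cases h2 : (2 : F) = 0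
    · have hp2 : p = 2 := by
        have : (p : ℕ) ∣ 2 := (CharP.cast_eq_zero_iff F p 2).1 (by exact_mod_cast h2)
        exact (Nat.prime_dvd_prime_iff_eq Fact.out Nat.prime_two).1 this
      subst hp2
      have hm3 : 3 ≤ m := by
        rcases Nat.lt_or_ge m 3 with h5 | h5
        · exact absurd rfl (h4 (by omega))
        · exact h5
      by_cases hw : w = 0
      · exact ⟨a', by rw [hβ, hw, E_zero]⟩
      · exfalso
        obtain ⟨g, hg4, hg2⟩ := T2 hm3 h2 huf hw1 hw2 hw a'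
        obtain ⟨g', hg'⟩ := mkP_surj (β.symm (mkP g))
        have e : β (mkP (tv u0 a * (g' * tv u0 a * g'⁻¹))) = mkP (E u1 w a' * (g * E u1 w a' * g⁻¹)) := by
          simp only [map_mul, map_inv, hβ, hg', MulEquiv.apply_symm_apply]
        have h5 : (tv u0 a * (g' * tv u0 a * g'⁻¹)) ^ 4 ∈ Subgroup.center Sp := by
          rw [← mkP_eq_one, map_pow]
          apply β.injective
          rw [map_pow, e, ← map_pow, hg4, map_one, map_one]
        have h6 := T1 hm u0 a g' h5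
        apply hg2
        rw [← mkP_eq_one, map_pow, ← e, ← map_pow, ← map_pow, h6, map_one, map_one]
    · exact ⟨a', by rw [hβ, hw3 h2, E_zero]⟩
  obtain ⟨A, hA⟩ := exists_sp_map hu0 hu
  obtain ⟨A', hA'⟩ := mkP_surj (β (mkP A))
  refine ⟨A'.1 *ᵥ u1, sp_mulVec_ne_zero A' hu1, fun a => ?_⟩
  obtain ⟨a', ha'⟩ := key a
  refine ⟨a', ?_⟩
  rw [← hA, ← tv_conj, ← tv_conj, map_mul, map_mul, map_mul, map_mul, map_mul, map_mul, map_inv,
    map_inv, map_inv, ha', hA']

end Cfsg.Agent.Lib.Helper14.PSpAut
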