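import Mathlib
import Cfsg.Agent.Lib.Helper14.PSpAutA

set_option autoImplicit false

/-! An automorphism of `PSp` fixing the transvection group `X_e` fixes the radical `Q_e`. -/

namespace Cfsg.Agent.Lib.Helper14.PSpAut

open Matrix Cfsg.Agent.Lib.Helper13 Cfsg.Agent.Lib.Helper5 Cfsg.Agent.Lib.Helper94

variable {F : Type*} [Field F] {m : ℕ}

local notation "V" => (Fin m ⊕ Fin m → F)
local notation "Sp" => Matrix.symplecticGroup (Fin m) F
local notation "B" => Cfsg.sympForm m F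

/-- `-r` -/
def negS (r : Sp) : Sp := ⟨-r.1, SymplecticGroup.neg_mem r.2⟩

lemma negS_mulVec (r : Sp) (x : V) : (negS r).1 *ᵥ x = -(r.1 *ᵥ x) := Matrix.neg_mulVec _ _

lemma mkP_negS (r : Sp) : mkP (negS r) = mkP r := by
  symm
  change (QuotientGroup.mk r : Cfsg.PSp m F) = QuotientGroup.mk (negS r)
  rw [QuotientGroup.eq, Subgroup.mem_center_iff]
  intro g
  apply sp_ext
  intro x
  simp only [sp_mul_mulVec, negS_mulVec, Matrix.mulVec_neg, sp_inv_mulVec_mulVec]

/-- equality in `PSp` of two elements with a common non-zero fixed vector -/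
lemma eq_of_mkP_eq {A A' : Sp} (h : mkP A = mkP A') {x : V} (hx : x ≠ 0) (h1 : A.1 *ᵥ x = x)
    (h2 : A'.1 *ᵥ x = x) : A = A' := by
  have hc : A⁻¹ * A' ∈ Subgroup.center Sp := by
    rw [← mkP_eq_one, map_mul, map_inv, h]; group
  have := center_eq_one_of_fix _ hc hx (by rw [sp_mul_mulVec, h2, inv_fix h1])
  calc A = A * (A⁻¹ * A') := by rw [this, mul_one]
    _ = A' := by group

lemma tv_fix {v x : V} (h : B x v = 0) (c : F) : (tv v c).1 *ᵥ x = x := by
  rw [tv_mulVec, h, mul_zero, zero_smul, add_zero]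

lemma tv_eq_of_mkP_eq (hm : 2 ≤ m) {v e : V} {c c' : F} (h : mkP (tv v c) = mkP (tv e c')) :
    tv v c = tv e c' := by
  obtain ⟨x, hx, hxv, hxe⟩ := exists_perp_two hm v e
  exact eq_of_mkP_eq h hx (tv_fix hxv c) (tv_fix hxe c')

/-- L7a -/
lemma span_of_tv_eq {v e : V} {c c' : F} (hv : v ≠ 0) (hc : c ≠ 0) (h : tv v c = tv e c') :
    ∃ l : F, v = l • e := by
  obtain ⟨x, hx⟩ := exists_partner hv
  have hx' : B x v = -1 := by rw [sympForm_swap, hx]
  have h1 := congrArg (fun A : Sp => A.1 *ᵥ x) h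
  simp only [tv_mulVec, hx'] at h1
  have h2 := add_left_cancel h1
  refine ⟨-(c⁻¹ * (c' * B x e)), ?_⟩
  have h3 : v = -(c⁻¹ • ((c * -1) • v)) := by
    rw [smul_smul, mul_neg, mul_one, mul_neg, inv_mul_cancel₀ hc]; simp
  rw [h3, h2, smul_smul, neg_smul]

lemma tv_inj {e : V} (he : e ≠ 0) {a b : F} (h : tv e a = tv e b) : a = b := by
  obtain ⟨x, hx⟩ := exists_partner he
  have hx' : B x e = -1 := by rw [sympForm_swap, hx]
  have h1 := congrArg (fun A : Sp => A.1 *ᵥ x) h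
  simp only [tv_mulVec, hx'] at h1
  have h2 := add_left_cancel h1
  have h3 : (a * -1 - b * -1) • e = 0 := by rw [sub_smul, h2, sub_self]
  have := (smul_eq_zero.1 h3).resolve_right he
  linear_combination -this

/-- `β` maps the transvection group of `e` into itself -/
def FixX (β : Cfsg.PSp m F ≃* Cfsg.PSp m F) (e : V) : Prop :=
  ∀ a : F, ∃ a' : F, β (mkP (tv e a)) = mkP (tv e a')

lemma FixX.symm [Finite F] (hm : 2 ≤ m) {β : Cfsg.PSp m F ≃* Cfsg.PSp m F} {e : V} (he : e ≠ 0)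
    (h : FixX β e) : FixX β.symm e := by
  choose σ hσ using h
  have hinj : Function.Injective σ := by
    intro a b hab
    have h1 : β (mkP (tv e a)) = β (mkP (tv e b)) := by rw [hσ, hσ, hab]
    exact tv_inj he (tv_eq_of_mkP_eq hm (β.injective h1))
  have hsurj := Finite.surjective_of_injective hinj
  intro a
  obtain ⟨b, rfl⟩ := hsurj a
  exact ⟨b, by rw [← hσ, MulEquiv.symm_apply_apply]⟩

/-- Step 1 -/
lemma stab_of_fixX (hm : 2 ≤ m) {β : Cfsg.PSp m F ≃* Cfsg.PSp m F} {e : V} (he : e ≠ 0)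
    (h : FixX β e) {n n' : Sp} {l : F} (hn : n.1 *ᵥ e = l • e) (hn' : mkP n' = β (mkP n)) :
    ∃ l' : F, n'.1 *ᵥ e = l' • e := by
  obtain ⟨a1, ha1⟩ := h 1
  obtain ⟨a2, ha2⟩ := h (l ^ 2 * 1)
  have ha10 : a1 ≠ 0 := by
    rintro rfl
    rw [tv_zero_right, map_one, ← map_one β] at ha1
    have h0 : mkP (tv e (1 : F)) = mkP (tv e (0 : F)) := by
      rw [tv_zero_right, map_one]; exact β.injective ha1
    exact one_ne_zero (tv_inj he (tv_eq_of_mkP_eq hm h0))
  have h1 : n * tv e 1 * n⁻¹ = tv e (l ^ 2 * 1) := by rw [tv_conj, hn, tv_smul]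
  have h2 : mkP (tv (n'.1 *ᵥ e) a1) = mkP (tv e a2) := by
    rw [← tv_conj, map_mul, map_mul, map_inv, hn', ← ha1, ← ha2, ← h1]
    simp only [map_mul, map_inv]
  exact span_of_tv_eq (sp_mulVec_ne_zero n' he) ha10 (tv_eq_of_mkP_eq hm h2)

lemma conj_mem_Q' {u : V} {s : Sp} {l : F} (hs : s.1 *ᵥ u = l • u) (hu : u ≠ 0) {A : Sp}
    (hA : A ∈ Q u) : s * A * s⁻¹ ∈ Q u := by
  obtain ⟨w, a, h, rfl⟩ := hA
  have hl : l ≠ 0 := by
    rintro rfl
    rw [zero_smul] at hs
    exact sp_mulVec_ne_zero s hu hs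
  have h1 : B u (s.1 *ᵥ w) = 0 := by
    have := Cfsg.Agent.Lib.Helper13.sp_preserves s u w
    rw [hs, sympForm_smul_left, h] at this
    exact (mul_eq_zero.1 this).resolve_left hl
  refine ⟨l • (s.1 *ᵥ w), l ^ 2 * a, by rw [sympForm_smul_right, h1, mul_zero], ?_⟩
  rw [E_conj, hs, E_smul h1]

/-- **(C)** -/
theorem aut_Q [Fintype F] (p : ℕ) [Fact p.Prime] [CharP F p] (hm : 2 ≤ m)
    {β : Cfsg.PSp m F ≃* Cfsg.PSp m F} {e f : V} (hef : B e f = 1) (h : FixX β e)
    {A : Sp} (hA : A ∈ Q e) :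
    ∃ (w : V) (a : F), B w e = 0 ∧ B w f = 0 ∧ β (mkP A) = mkP (E e w a) := by
  have he := ne_zero_of_partner hef
  have hs := h.symm hm he
  -- the preimage of `β (Q e)`
  let R : Sp → Prop := fun r => ∃ A ∈ Q e, mkP r = β (mkP A)
  have hR1 : ∀ r, R r → ∃ l : F, r.1 *ᵥ e = l • e := by
    rintro r ⟨A, ⟨w, a, hw, rfl⟩, hr⟩
    exact stab_of_fixX hm he h (l := 1) (by rw [E_fix hw, one_smul]) hr
  have hR2 : ∀ r, R r → r ^ (p ^ 1) ∈ Subgroup.center Sp := by
    rintro r ⟨A, ⟨w, a, hw, rfl⟩, hr⟩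
    rw [← mkP_eq_one, map_pow, hr, ← map_pow, ← map_pow, pow_one, E_pow hw, CharP.cast_eq_zero F p]
    simp [E_zero_zero]
  have hR3 : ∀ r t : Sp, R r → (∃ l : F, t.1 *ᵥ e = l • e) → R (r * t * r⁻¹ * t⁻¹) := by
    rintro r t ⟨A, hA, hr⟩ ⟨l, hl⟩
    obtain ⟨t0, ht0⟩ := mkP_surj (β.symm (mkP t))
    obtain ⟨l0, hl0⟩ := stab_of_fixX hm he hs hl ht0
    refine ⟨A * (t0 * A⁻¹ * t0⁻¹), (Q e).mul_mem hA (conj_mem_Q' hl0 he ((Q e).inv_mem hA)), ?_⟩
    simp only [map_mul, map_inv, hr, ht0, MulEquiv.apply_symm_apply]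
    group
  -- Step 3
  have hR4 : ∀ r, R r → ∀ w : V, B w e = 0 → B (r.1 *ᵥ w) w = 0 := by
    intro r hr w hw
    by_contra hne
    have h1 := hR3 r (tv w 1) hr ⟨1, by
      rw [tv_fix (by rw [sympForm_swap, hw, neg_zero]), one_smul]⟩
    rw [tv_conj, tv_inv] at h1
    exact tv_mul_tv_not_pElement p hm hne one_ne_zero (neg_ne_zero.2 one_ne_zero) 1 (hR2 _ h1)
  -- Step 4
  have hR5 : ∀ r, R r → ∀ w : V, B w e = 0 →
      (∃ l : F, r.1 *ᵥ w = w + l • e) ∨ (∃ l : F, r.1 *ᵥ w = -w + l • e) := by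
    intro r hr w hw
    have hs1 := hR3 r (tv w 1) hr ⟨1, by
      rw [tv_fix (by rw [sympForm_swap, hw, neg_zero]), one_smul]⟩
    rw [tv_conj, tv_inv] at hs1
    have h0 := hR4 r hr w hw
    set y := r.1 *ᵥ w - w with hy
    have hrw : r.1 *ᵥ w = w + y := by rw [hy]; abel
    have hyw : B y w = 0 := by rw [hy, sympForm_sub_left, h0, sympForm_self, sub_zero]
    have hwy : B w y = 0 := by rw [sympForm_swap, hyw, neg_zero]
    have h2 : ∀ z : V, B z e = 0 → B z y = 0 ∨ B z (y + (2 : F) • w) = 0 := by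
      intro z hz
      have h3 := hR4 _ hs1 z hz
      rw [sp_mul_mulVec, tv_mulVec, tv_mulVec, hrw] at h3
      simp only [sympForm_add_left, sympForm_add_right, sympForm_smul_left, sympForm_self,
        hwy, hyw] at h3
      rw [sympForm_swap w z, sympForm_swap y z] at h3
      rw [sympForm_add_right, sympForm_smul_right]
      have h4 : B z y * (B z y + 2 * B z w) = 0 := by linear_combination -h3
      exact mul_eq_zero.1 h4
    have h3 : (∀ z : V, B z e = 0 → B z y = 0) ∨ (∀ z : V, B z e = 0 → B z (y + (2 : F) • w) = 0) := by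
      by_contra hcon
      push Not at hcon
      obtain ⟨⟨z1, hz1, hz1'⟩, ⟨z2, hz2, hz2'⟩⟩ := hcon
      have e1 := (h2 z1 hz1).resolve_left hz1'
      have e2 := (h2 z2 hz2).resolve_right hz2'
      rcases h2 (z1 + z2) (by rw [sympForm_add_left, hz1, hz2, add_zero]) with h5 | h5
      · rw [sympForm_add_left, e2, add_zero] at h5; exact hz1' h5
      · rw [sympForm_add_left, e1, zero_add] at h5; exact hz2' h5
    rcases h3 with h3 | h3
    · left
      exact ⟨B y f, by rw [hrw]; congr 1; exact mem_span_of_perp hef h3⟩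
    · right
      refine ⟨B (y + (2 : F) • w) f, ?_⟩
      rw [← mem_span_of_perp hef h3, hrw]
      module
  -- Step 5
  have hR6 : ∀ r, R r → (∀ w : V, B w e = 0 → ∃ l : F, r.1 *ᵥ w = w + l • e) ∨
      (∀ w : V, B w e = 0 → ∃ l : F, r.1 *ᵥ w = -w + l • e) := by
    intro r hr
    by_contra hcon
    push Not at hcon
    obtain ⟨⟨w1, hw1, hw1'⟩, ⟨w2, hw2, hw2'⟩⟩ := hcon
    obtain ⟨l1, hl1⟩ := (hR5 r hr w1 hw1).resolve_left (by push Not; exact hw1')
    obtain ⟨l2, hl2⟩ := (hR5 r hr w2 hw2).resolve_right (by push Not; exact hw2')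
    rcases hR5 r hr (w1 + w2) (by rw [sympForm_add_left, hw1, hw2, add_zero]) with ⟨l, hl⟩ | ⟨l, hl⟩
    · rw [Matrix.mulVec_add, hl1, hl2] at hl
      apply hw1' (l - l2)
      rw [hl1]
      linear_combination (norm := module) hl
    · rw [Matrix.mulVec_add, hl1, hl2] at hl
      apply hw2' (l - l1)
      rw [hl2]
      linear_combination (norm := module) hl
  -- Step 6
  have hR7 : ∀ r : Sp, (∃ k : ℕ, r ^ (p ^ k) ∈ Subgroup.center Sp) →
      (∀ w : V, B w e = 0 → ∃ l : F, r.1 *ᵥ w = w + l • e) →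
      ∃ (w : V) (a : F), B w e = 0 ∧ B w f = 0 ∧ r = E e w a := by
    rintro r ⟨k, hk⟩ hr
    obtain ⟨c, hc⟩ := center_smul _ hk
    obtain ⟨w0, hw0, hw0e, hw0f⟩ := exists_perp_two hm e f
    have hpow : ∀ n : ℕ, ∃ l : F, (r ^ n).1 *ᵥ w0 = w0 + l • e := by
      intro n
      induction n with
      | zero => exact ⟨0, by rw [pow_zero, one_mulVec']; simp⟩
      | succ n ih =>
        obtain ⟨l, hl⟩ := ih
        obtain ⟨l1, hl1⟩ := hr w0 hw0e
        obtain ⟨l2, hl2⟩ := hr e (sympForm_self e)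
        refine ⟨l1 + l * (1 + l2), ?_⟩
        rw [pow_succ', sp_mul_mulVec, hl, Matrix.mulVec_add, Matrix.mulVec_smul, hl1, hl2]
        module
    obtain ⟨l, hl⟩ := hpow (p ^ k)
    rw [hc] at hl
    have hc1 : c = 1 := by
      have h1 := congrArg (fun x => B x f) hl
      simp only [sympForm_add_left, sympForm_smul_left, hw0f, hef] at h1
      have hl0 : l = 0 := by linear_combination -h1
      rw [hl0, zero_smul, add_zero] at hl
      have h2 : (c - 1) • w0 = 0 := by rw [sub_smul, hl, one_smul, sub_self]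
      have := (smul_eq_zero.1 h2).resolve_right hw0
      linear_combination this
    obtain ⟨l2, hl2⟩ := hr e (sympForm_self e)
    have hle : r.1 *ᵥ e = (1 + l2) • e := by rw [hl2]; module
    have hpe : ∀ n : ℕ, (r ^ n).1 *ᵥ e = ((1 + l2) ^ n) • e := by
      intro n
      induction n with
      | zero => rw [pow_zero, one_mulVec', pow_zero, one_smul]
      | succ n ih => rw [pow_succ', sp_mul_mulVec, ih, Matrix.mulVec_smul, hle, smul_smul, pow_succ]
    have h3 := hpe (p ^ k)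
    rw [hc, hc1] at h3
    have h4 : (1 + l2) ^ (p ^ k) = 1 := by
      have h5 : (1 - (1 + l2) ^ (p ^ k)) • e = 0 := by rw [sub_smul, ← h3, sub_self]
      have := (smul_eq_zero.1 h5).resolve_right he
      linear_combination -this
    have h5 : l2 = 0 := by
      have h6 : ((1 + l2) - 1) ^ (p ^ k) = 0 := by rw [sub_pow_char_pow, h4, one_pow, sub_self]
      have := pow_eq_zero_iff (pow_ne_zero k (Fact.out : p.Prime).ne_zero) |>.1 h6
      linear_combination this
    exact eq_E_of_trivial hef r (by rw [hl2, h5]; simp) hr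
  obtain ⟨r, hr⟩ := mkP_surj (β (mkP A))
  have hRr : R r := ⟨A, hA, hr⟩
  rcases hR6 r hRr with h6 | h6
  · obtain ⟨w, a, h1, h2, h3⟩ := hR7 r ⟨1, hR2 r hRr⟩ h6
    exact ⟨w, a, h1, h2, by rw [← hr, h3]⟩
  · have hc : (negS r) ^ (p ^ 1) ∈ Subgroup.center Sp := by
      rw [← mkP_eq_one, map_pow, mkP_negS, ← map_pow, mkP_eq_one]
      exact hR2 r hRr
    obtain ⟨w, a, h1, h2, h3⟩ := hR7 (negS r) ⟨1, hc⟩ (fun w hw => by
      obtain ⟨l, hl⟩ := h6 w hw
      exact ⟨-l, by rw [negS_mulVec, hl]; module⟩)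
    exact ⟨w, a, h1, h2, by rw [← hr, ← mkP_negS, h3]⟩

end Cfsg.Agent.Lib.Helper14.PSpAut
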