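import Mathlib
import Cfsg.Agent.Lib.Helper14.PSpAutC

set_option autoImplicit false

/-! The core computation: an automorphism fixing `X_e`, `X_f` is induced by a semilinear map. Part 1. -/

namespace Cfsg.Agent.Lib.Helper14.PSpAut

open Matrix Cfsg.Agent.Lib.Helper13 Cfsg.Agent.Lib.Helper5 Cfsg.Agent.Lib.Helper94

variable {F : Type*} [Field F] {m : ℕ}

local notation "V" => (Fin m ⊕ Fin m → F)
local notation "Sp" => Matrix.symplecticGroup (Fin m) F
local notation "B" => Cfsg.sympForm m F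

lemma swap0 {x y : V} (h : B x y = 0) : B y x = 0 := by rw [sympForm_swap, h, neg_zero]

/-- uniqueness of the parameters -/
lemma E_unique {e f : V} (hef : B e f = 1) {w w' : V} {a a' : F} (hwe : B w e = 0) (hwf : B w f = 0)
    (hwe' : B w' e = 0) (hwf' : B w' f = 0) (h : mkP (E e w a) = mkP (E e w' a')) :
    w = w' ∧ a = a' := by
  have he := ne_zero_of_partner hef
  have hfe : B f e = -1 := by rw [sympForm_swap, hef]
  have h1 := eq_of_mkP_eq h he (E_fix (swap0 hwe) a) (E_fix (swap0 hwe') a')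
  have h2 := congrArg (fun A : Sp => A.1 *ᵥ f) h1
  simp only [E_mulVec (swap0 hwe), E_mulVec (swap0 hwe'), hfe, swap0 hwf, swap0 hwf'] at h2
  have h3 := congrArg (fun x => B x f) h2
  simp only [sympForm_add_left, sympForm_smul_left, hwf, hwf', hef, sympForm_self] at h3
  have ha : a = a' := by linear_combination -h3
  refine ⟨?_, ha⟩
  rw [ha] at h2
  linear_combination (norm := module) -h2

/-- the same for the pair `(f, e)` -/
lemma E_unique' {e f : V} (hef : B e f = 1) {w w' : V} {a a' : F} (hwe : B w e = 0) (hwf : B w f = 0)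
    (hwe' : B w' e = 0) (hwf' : B w' f = 0) (h : mkP (E f w a) = mkP (E f w' a')) :
    w = w' ∧ a = a' := by
  have hfe : B f (-e) = 1 := by rw [sympForm_neg_right, sympForm_swap, hef, neg_neg]
  exact E_unique hfe hwf (by rw [sympForm_neg_right, hwe, neg_zero]) hwf'
    (by rw [sympForm_neg_right, hwe', neg_zero]) h

lemma E_e_f {e f : V} (hef : B e f = 1) {w : V} (hwe : B w e = 0) (hwf : B w f = 0) (a : F) :
    (E e w a).1 *ᵥ f = f - w - a • e := by
  have hfe : B f e = -1 := by rw [sympForm_swap, hef]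
  rw [E_mulVec (swap0 hwe), hfe, swap0 hwf]
  module

lemma E_f_e {e f : V} (hef : B e f = 1) {w : V} (hwe : B w e = 0) (hwf : B w f = 0) (a : F) :
    (E f w a).1 *ᵥ e = e + w + a • f := by
  rw [E_mulVec (swap0 hwf), hef, swap0 hwe]
  module

/-- the key relation -/
lemma key_rel (hm : 2 ≤ m) {β : Cfsg.PSp m F ≃* Cfsg.PSp m F} {e f : V} (hef : B e f = 1)
    (hXe : FixX β e) (hXf : FixX β f) {w w1 w2 : V} {a a1 a2 : F} (ha : a ≠ 0)
    (hwe : B w e = 0) (hwf : B w f = 0) (hwe1 : B w1 e = 0) (hwf1 : B w1 f = 0)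
    (hwe2 : B w2 e = 0) (hwf2 : B w2 f = 0)
    (h1 : β (mkP (E e w a)) = mkP (E e w1 a1))
    (h2 : β (mkP (E f (a⁻¹ • w) (-a⁻¹))) = mkP (E f w2 a2)) :
    w1 = a1 • w2 ∧ a1 * a2 = -1 := by
  have he := ne_zero_of_partner hef
  have hfe : B f e = -1 := by rw [sympForm_swap, hef]
  have hf : f ≠ 0 := by
    rintro rfl
    rw [sympForm_zero_right] at hef
    exact zero_ne_one hef
  obtain ⟨t1, ht1⟩ := hXf 1
  obtain ⟨s1, hs1⟩ := hXe ((-a) ^ 2 * 1)
  have ht10 : t1 ≠ 0 := by
    rintro rfl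
    rw [tv_zero_right, map_one, ← map_one β] at ht1
    have h0 : mkP (tv f (1 : F)) = mkP (tv f (0 : F)) := by
      rw [tv_zero_right, map_one]; exact β.injective ht1
    exact one_ne_zero (tv_inj hf (tv_eq_of_mkP_eq hm h0))
  have hwe' : B (a⁻¹ • w) e = 0 := by rw [sympForm_smul_left, hwe, mul_zero]
  have hwf' : B (a⁻¹ • w) f = 0 := by rw [sympForm_smul_left, hwf, mul_zero]
  have hid : E e w a * tv f 1 * (E e w a)⁻¹
      = E f (a⁻¹ • w) (-a⁻¹) * tv e ((-a) ^ 2 * 1) * (E f (a⁻¹ • w) (-a⁻¹))⁻¹ := by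
    rw [tv_conj, tv_conj, E_e_f hef hwe hwf, E_f_e hef hwe' hwf', ← tv_smul]
    congr 1
    have e1 : -a * a⁻¹ = -1 := by field_simp
    have e2 : -a * -a⁻¹ = 1 := by field_simp
    rw [smul_add, smul_add, smul_smul, smul_smul, e1, e2]
    module
  have h3 := congrArg (fun A : Sp => β (mkP A)) hid
  simp only [map_mul, map_inv, h1, h2, ht1, hs1] at h3
  simp only [← map_mul, ← map_inv] at h3
  rw [tv_conj, tv_conj, E_e_f hef hwe1 hwf1, E_f_e hef hwe2 hwf2] at h3
  have h4 := tv_eq_of_mkP_eq hm h3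
  have hv0 : f - w1 - a1 • e ≠ 0 := by
    rw [← E_e_f hef hwe1 hwf1]
    exact sp_mulVec_ne_zero _ hf
  obtain ⟨l, hl⟩ := span_of_tv_eq hv0 ht10 h4
  have h5 := congrArg (fun x => B x f) hl
  simp only [sympForm_add_left, sympForm_sub_left, sympForm_smul_left, hwf1, hwf2, hef,
    sympForm_self] at h5
  have h6 := congrArg (fun x => B x e) hl
  simp only [sympForm_add_left, sympForm_sub_left, sympForm_smul_left, hwe1, hwe2, hfe,
    sympForm_self] at h6
  have hl1 : l = -a1 := by linear_combination -h5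
  have hl2 : a1 * a2 = -1 := by rw [hl1] at h6; linear_combination -h6
  refine ⟨?_, hl2⟩
  rw [hl1] at hl
  have e3 : (-a1 * a2) = 1 := by linear_combination -hl2
  have : f - w1 - a1 • e = -(a1 • e) - a1 • w2 + (-a1 * a2) • f := by
    rw [hl]; module
  rw [e3] at this
  linear_combination (norm := module) -this

end Cfsg.Agent.Lib.Helper14.PSpAut
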