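import Mathlib
import Cfsg.Agent.Lib.Helper14.PSpAutD

set_option autoImplicit false

/-! The core computation, part 2: the field automorphism and the semilinear map on `{e,f}^⊥`. -/

namespace Cfsg.Agent.Lib.Helper14.PSpAut

open Matrix Cfsg.Agent.Lib.Helper13 Cfsg.Agent.Lib.Helper5 Cfsg.Agent.Lib.Helper94

variable {F : Type*} [Field F] {m : ℕ}

local notation "V" => (Fin m ⊕ Fin m → F)
local notation "Sp" => Matrix.symplecticGroup (Fin m) F
local notation "B" => Cfsg.sympForm m F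

lemma prW_of_mem {e f w : V} (h1 : B w e = 0) (h2 : B w f = 0) : prW e f w = w := by
  unfold prW; rw [h1, h2]; simp

lemma prW_add (e f x y : V) : prW e f (x + y) = prW e f x + prW e f y := by
  unfold prW; simp only [sympForm_add_left]; module

lemma prW_smul (e f : V) (c : F) (x : V) : prW e f (c • x) = c • prW e f x := by
  unfold prW; simp only [sympForm_smul_left]; module

lemma prW_zero (e f : V) : prW e f 0 = 0 := by
  unfold prW; simp [sympForm_zero_left]

lemma E_split {u w : V} (h : B u w = 0) (a : F) : E u w a = E u w 0 * tv u a := by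
  rw [← E_zero, E_mul h (sympForm_zero_right u), sympForm_zero_left]
  simp

theorem core [Fintype F] (p : ℕ) [Fact p.Prime] [CharP F p] (hm : 2 ≤ m)
    {β : Cfsg.PSp m F ≃* Cfsg.PSp m F} {e f : V} (hef : B e f = 1)
    (hXe : FixX β e) (hXf : FixX β f) :
    ∃ (θ : F ≃+* F) (κ : F) (φ : V → V), κ ≠ 0 ∧
      (∀ x, B (φ x) e = 0) ∧ (∀ x, B (φ x) f = 0) ∧ (∀ x y, φ (x + y) = φ x + φ y) ∧
      (∀ c x, φ (c • x) = θ c • φ x) ∧
      (∀ x y, B (φ x) (φ y) = κ * θ (B (prW e f x) (prW e f y))) ∧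
      (∀ x a, β (mkP (E e (prW e f x) a)) = mkP (E e (φ x) (κ * θ a))) ∧
      (∀ x a, β (mkP (E f (prW e f x) a)) = mkP (E f (κ⁻¹ • φ x) (κ⁻¹ * θ a))) := by
  have he := ne_zero_of_partner hef
  have hfe : B f e = -1 := by rw [sympForm_swap, hef]
  have hfe' : B f (-e) = 1 := by rw [sympForm_neg_right, hfe, neg_neg]
  have hf := ne_zero_of_partner hfe'
  have hQe : ∀ x : V, ∃ (w' : V) (a' : F), B w' e = 0 ∧ B w' f = 0 ∧
      β (mkP (E e (prW e f x) 0)) = mkP (E e w' a') :=
    fun x => aut_Q p hm hef hXe ⟨prW e f x, 0, swap0 (prW_e hef x), rfl⟩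
  have hQf : ∀ x : V, ∃ (w' : V) (a' : F), B w' f = 0 ∧ B w' (-e) = 0 ∧
      β (mkP (E f (prW e f x) 0)) = mkP (E f w' a') :=
    fun x => aut_Q p hm hfe' hXf ⟨prW e f x, 0, swap0 (prW_f hef x), rfl⟩
  choose φ ν hφe hφf hφ using hQe
  choose ψ μ hψf hψe' hψ using hQf
  have hψe : ∀ x, B (ψ x) e = 0 := by
    intro x
    have := hψe' x
    rwa [sympForm_neg_right, neg_eq_zero] at this
  have hXe' := hXe
  have hXf' := hXf
  choose σ hσ using hXe'
  choose τ hτ using hXf'
  -- full formulas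
  have hE : ∀ x a, β (mkP (E e (prW e f x) a)) = mkP (E e (φ x) (ν x + σ a)) := by
    intro x a
    rw [E_split (swap0 (prW_e hef x)), map_mul, map_mul, hφ, hσ, ← map_mul, ← E_zero,
      E_mul (swap0 (hφe x)) (sympForm_zero_right e), sympForm_zero_left]
    simp
  have hEf : ∀ x a, β (mkP (E f (prW e f x) a)) = mkP (E f (ψ x) (μ x + τ a)) := by
    intro x a
    rw [E_split (swap0 (prW_f hef x)), map_mul, map_mul, hψ, hτ, ← map_mul, ← E_zero,
      E_mul (swap0 (hψf x)) (sympForm_zero_right f), sympForm_zero_left]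
    simp
  -- σ
  have hσadd : ∀ a b, σ (a + b) = σ a + σ b := by
    intro a b
    have h1 : mkP (tv e (σ (a + b))) = mkP (tv e (σ a + σ b)) := by
      rw [← hσ, ← tv_mul_tv, ← tv_mul_tv, map_mul, map_mul, map_mul, hσ, hσ]
    exact tv_inj he (tv_eq_of_mkP_eq hm h1)
  have hσ0 : σ 0 = 0 := by
    have := hσadd 0 0
    rw [add_zero] at this
    linear_combination -this
  have hσinj : Function.Injective σ := by
    intro a b hab
    have h1 : β (mkP (tv e a)) = β (mkP (tv e b)) := by rw [hσ, hσ, hab]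
    exact tv_inj he (tv_eq_of_mkP_eq hm (β.injective h1))
  have hσsurj := Finite.surjective_of_injective hσinj
  -- the relation
  have hR : ∀ x a, a ≠ 0 → φ x = (ν x + σ a) • ψ (a⁻¹ • x) ∧
      (ν x + σ a) * (μ (a⁻¹ • x) + τ (-a⁻¹)) = -1 := by
    intro x a ha
    refine key_rel hm hef hXe hXf ha (prW_e hef x) (prW_f hef x) (hφe x) (hφf x) (hψe _) (hψf _)
      (hE x a) ?_
    rw [← prW_smul, hEf]
  have hν : ∀ x, ν x = 0 := by
    intro x
    by_contra hne
    obtain ⟨a, ha⟩ := hσsurj (-ν x)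
    have ha0 : a ≠ 0 := by
      rintro rfl
      rw [hσ0] at ha
      exact hne (by linear_combination ha)
    have := (hR x a ha0).2
    rw [ha, add_neg_cancel, zero_mul] at this
    exact one_ne_zero (by linear_combination this)
  simp only [hν, zero_add] at hR hE
  set κ := σ 1 with hκ
  have hκ0 : κ ≠ 0 := by
    intro h
    exact one_ne_zero (hσinj (by rw [← hκ, h, hσ0]))
  have hφψ : ∀ x, φ x = κ • ψ x := by
    intro x
    have := (hR x 1 one_ne_zero).1
    rwa [inv_one, one_smul] at this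
  have hψφ : ∀ x, ψ x = κ⁻¹ • φ x := by
    intro x
    rw [hφψ, smul_smul, inv_mul_cancel₀ hκ0, one_smul]
  -- additivity and the form
  have hmul : ∀ x y, φ (x + y) = φ x + φ y ∧
      B (φ y) (φ x) = σ (B (prW e f y) (prW e f x)) := by
    intro x y
    have h1 := E_mul (swap0 (prW_e hef x)) (swap0 (prW_e hef y)) (0 : F) 0
    have h2 := congrArg (fun A : Sp => β (mkP A)) h1
    simp only [map_mul] at h2
    rw [hE, hE, ← prW_add, hE, ← map_mul, E_mul (swap0 (hφe x)) (swap0 (hφe y)), hσ0] at h2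
    obtain ⟨h3, h4⟩ := E_unique hef (by rw [sympForm_add_left, hφe, hφe, add_zero])
      (by rw [sympForm_add_left, hφf, hφf, add_zero]) (hφe _) (hφf _) h2
    exact ⟨h3.symm, by simpa using h4⟩
  have hφ0 : φ 0 = 0 := by
    have := (hmul 0 0).1
    rw [add_zero] at this
    exact (left_eq_add.1 this)
  have hsemi : ∀ a x, φ (a • x) = (κ⁻¹ * σ a) • φ x := by
    intro a x
    by_cases ha : a = 0
    · rw [ha, zero_smul, hφ0, hσ0, mul_zero, zero_smul]
    · have := (hR (a • x) a ha).1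
      rw [smul_smul, inv_mul_cancel₀ ha, one_smul, hψφ, smul_smul] at this
      rw [this, mul_comm]
  obtain ⟨w0, hw0, hw0e, hw0f⟩ := exists_perp_two hm e f
  have hφw0 : φ w0 ≠ 0 := by
    intro h0
    have h1 := hE w0 0
    rw [h0, hσ0, E_zero_zero, map_one, ← map_one β] at h1
    have h2 := β.injective h1
    rw [prW_of_mem hw0e hw0f, ← map_one mkP, ← E_zero_zero e] at h2
    exact hw0 (E_unique hef hw0e hw0f (sympForm_zero_left e) (sympForm_zero_left f) h2).1
  have hθmul : ∀ a b, κ⁻¹ * σ (a * b) = (κ⁻¹ * σ a) * (κ⁻¹ * σ b) := by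
    intro a b
    have h1 := hsemi (a * b) w0
    rw [mul_smul, hsemi, hsemi, smul_smul] at h1
    have h2 : ((κ⁻¹ * σ a) * (κ⁻¹ * σ b) - κ⁻¹ * σ (a * b)) • φ w0 = 0 := by
      rw [sub_smul, h1, sub_self]
    have := (smul_eq_zero.1 h2).resolve_right hφw0
    linear_combination -this
  let θ₀ : F →+* F :=
    { toFun := fun a => κ⁻¹ * σ a
      map_one' := by rw [← hκ, inv_mul_cancel₀ hκ0]
      map_mul' := hθmul
      map_zero' := by rw [hσ0, mul_zero]
      map_add' := fun a b => by rw [hσadd, mul_add] }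
  have hbij : Function.Bijective θ₀ :=
    ⟨θ₀.injective, Finite.surjective_of_injective θ₀.injective⟩
  let θ : F ≃+* F := RingEquiv.ofBijective θ₀ hbij
  have hθ : ∀ a, θ a = κ⁻¹ * σ a := fun a => rfl
  have hσθ : ∀ a, σ a = κ * θ a := by
    intro a
    rw [hθ, ← mul_assoc, mul_inv_cancel₀ hκ0, one_mul]
  -- μ and τ
  have hμ0 : μ 0 = 0 := by
    have h1 := hψ 0
    rw [prW_zero, E_zero_zero, map_one, map_one, ← map_one mkP, ← E_zero_zero f] at h1
    exact (E_unique' hef (sympForm_zero_left e) (sympForm_zero_left f) (hψe 0) (hψf 0) h1).2.symm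
  have hτ1 : ∀ a, a ≠ 0 → σ a * τ (-a⁻¹) = -1 := by
    intro a ha
    have := (hR 0 a ha).2
    rwa [smul_zero, hμ0, zero_add] at this
  have hμ : ∀ x, μ x = 0 := by
    intro x
    have h1 := (hR x 1 one_ne_zero).2
    have h2 := hτ1 1 one_ne_zero
    rw [inv_one, one_smul, ← hκ] at h1
    rw [← hκ, inv_one] at h2
    have : κ * μ x = 0 := by linear_combination h1 - h2
    exact (mul_eq_zero.1 this).resolve_left hκ0
  have hτ0 : τ 0 = 0 := by
    have h1 := hτ 0
    rw [tv_zero_right, map_one, map_one, ← map_one mkP, ← tv_zero_right f] at h1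
    exact (tv_inj hf (tv_eq_of_mkP_eq hm h1)).symm
  have hτθ : ∀ b, τ b = κ⁻¹ * θ b := by
    intro b
    by_cases hb : b = 0
    · rw [hb, hτ0, map_zero, mul_zero]
    · have h1 := hτ1 (-b⁻¹) (neg_ne_zero.2 (inv_ne_zero hb))
      rw [inv_neg, inv_inv, neg_neg, hσθ, map_neg, map_inv₀] at h1
      have hθb : θ b ≠ 0 := by
        intro h0
        exact hb (θ.injective (by rw [h0, map_zero]))
      field_simp at h1 ⊢
      linear_combination -h1
  refine ⟨θ, κ, φ, hκ0, hφe, hφf, fun x y => (hmul x y).1, fun c x => hsemi c x, ?_, ?_, ?_⟩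
  · intro x y
    rw [(hmul y x).2, hσθ]
  · intro x a
    rw [hE, hσθ]
  · intro x a
    rw [hEf, hμ, zero_add, hψφ, hτθ]

end Cfsg.Agent.Lib.Helper14.PSpAut
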