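import Mathlib
import Cfsg.Prelude.Def_LieTypeDatum
import Cfsg.Agent.Lib.Helper14.PSpAutD2

set_option autoImplicit false

/-! Semilinear conjugation on `Sp`, generation by two opposite radicals. -/

namespace Cfsg.Agent.Lib.Helper14.PSpAut

open Matrix Cfsg.Agent.Lib.Helper13 Cfsg.Agent.Lib.Helper5 Cfsg.Agent.Lib.Helper94
open scoped MatrixGroups

variable {F : Type*} [Field F] {m : ℕ}

local notation "V" => (Fin m ⊕ Fin m → F)
local notation "Sp" => Matrix.symplecticGroup (Fin m) F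
local notation "B" => Cfsg.sympForm m F

/-- apply a field automorphism to the coordinates -/
def thV (θ : F ≃+* F) (x : V) : V := fun i => θ (x i)

lemma sympForm_thV (θ : F ≃+* F) (x y : V) : B (thV θ x) (thV θ y) = θ (B x y) := by
  simp only [sympForm_eq_sum, thV, map_sum, map_sub, map_mul]

lemma map_mulVec_thV (θ : F ≃+* F) (M : Matrix (Fin m ⊕ Fin m) (Fin m ⊕ Fin m) F) (x : V) :
    (M.map θ) *ᵥ (thV θ x) = thV θ (M *ᵥ x) := by
  ext i
  exact (RingHom.map_mulVec (θ : F →+* F) M x i).symm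

lemma thV_symm (θ : F ≃+* F) (x : V) : thV θ (thV θ.symm x) = x := by
  ext i; simp [thV]

lemma map_mem_sp (θ : F ≃+* F) (s : Sp) : s.1.map θ ∈ Matrix.symplecticGroup (Fin m) F := by
  rw [mem_symplecticGroup_iff_preserves]
  intro u v
  rw [← thV_symm θ u, ← thV_symm θ v, map_mulVec_thV, map_mulVec_thV, sympForm_thV, sympForm_thV,
    Cfsg.Agent.Lib.Helper13.sp_preserves]

lemma gl_inv_mulVec (g : GL (Fin m ⊕ Fin m) F) (x : V) : g.1 *ᵥ ((g⁻¹ : GL _ F).1 *ᵥ x) = x := by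
  rw [Matrix.mulVec_mulVec, ← Units.val_mul, mul_inv_cancel]; simp

lemma gl_inv_mulVec' (g : GL (Fin m ⊕ Fin m) F) (x : V) : (g⁻¹ : GL _ F).1 *ᵥ (g.1 *ᵥ x) = x := by
  rw [Matrix.mulVec_mulVec, ← Units.val_mul, inv_mul_cancel]; simp

lemma conj_mem_sp {g : GL (Fin m ⊕ Fin m) F} (hg : g ∈ Cfsg.GSp m F)
    {M : Matrix (Fin m ⊕ Fin m) (Fin m ⊕ Fin m) F} (hM : M ∈ Matrix.symplecticGroup (Fin m) F) :
    g.1 * M * (g⁻¹ : GL _ F).1 ∈ Matrix.symplecticGroup (Fin m) F := by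
  obtain ⟨c, hc⟩ := hg
  rw [mem_symplecticGroup_iff_preserves] at hM ⊢
  intro u v
  rw [← Matrix.mulVec_mulVec, ← Matrix.mulVec_mulVec, ← Matrix.mulVec_mulVec, ← Matrix.mulVec_mulVec,
    hc, hM, ← hc, gl_inv_mulVec, gl_inv_mulVec]

/-- `s ↦ g θ(s) g⁻¹` -/
def semiHom (g : GL (Fin m ⊕ Fin m) F) (hg : g ∈ Cfsg.GSp m F) (θ : F ≃+* F) : Sp →* Sp where
  toFun s := ⟨g.1 * s.1.map θ * (g⁻¹ : GL _ F).1, conj_mem_sp hg (map_mem_sp θ s)⟩
  map_one' := by
    apply Subtype.ext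
    change g.1 * (1 : Matrix _ _ F).map θ * (g⁻¹ : GL _ F).1 = 1
    rw [Matrix.map_one _ (map_zero θ) (map_one θ), mul_one, ← Units.val_mul, mul_inv_cancel]
    rfl
  map_mul' s t := by
    apply Subtype.ext
    change g.1 * (s.1 * t.1).map θ * (g⁻¹ : GL _ F).1
      = (g.1 * s.1.map θ * (g⁻¹ : GL _ F).1) * (g.1 * t.1.map θ * (g⁻¹ : GL _ F).1)
    have h1 : (s.1 * t.1).map θ = s.1.map θ * t.1.map θ := Matrix.map_mul (f := (θ : F →+* F))
    have h2 : (g⁻¹ : GL _ F).1 * g.1 = 1 := by rw [← Units.val_mul, inv_mul_cancel]; rfl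
    rw [h1]
    calc g.1 * (s.1.map θ * t.1.map θ) * (g⁻¹ : GL _ F).1
        = g.1 * s.1.map θ * 1 * t.1.map θ * (g⁻¹ : GL _ F).1 := by simp [mul_assoc]
      _ = _ := by rw [← h2]; simp only [mul_assoc]

lemma semiHom_coe (g : GL (Fin m ⊕ Fin m) F) (hg : g ∈ Cfsg.GSp m F) (θ : F ≃+* F) (s : Sp) :
    (semiHom g hg θ s).1 = g.1 * s.1.map θ * (g⁻¹ : GL _ F).1 := rfl

lemma semiHom_mulVec (g : GL (Fin m ⊕ Fin m) F) (hg : g ∈ Cfsg.GSp m F) (θ : F ≃+* F) (s : Sp)
    (x : V) : (semiHom g hg θ s).1 *ᵥ (g.1 *ᵥ thV θ x) = g.1 *ᵥ thV θ (s.1 *ᵥ x) := by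
  rw [semiHom_coe, ← Matrix.mulVec_mulVec, ← Matrix.mulVec_mulVec, gl_inv_mulVec', map_mulVec_thV]

/-- `Sp` is generated by two opposite radicals -/
theorem Q_sup_Q {e f : V} (hef : B e f = 1) : Q e ⊔ Q f = ⊤ := by
  have hfe : B f e = -1 := by rw [sympForm_swap, hef]
  set H := Q e ⊔ Q f with hH
  have hQe : Q e ≤ H := le_sup_left
  have hQf : Q f ≤ H := le_sup_right
  have hEe : ∀ w a, B w e = 0 → E e w a ∈ H := fun w a h => hQe ⟨w, a, swap0 h, rfl⟩
  have hEf : ∀ w a, B w f = 0 → E f w a ∈ H := fun w a h => hQf ⟨w, a, swap0 h, rfl⟩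
  have hte : ∀ (h : Sp) (l c : F), h ∈ H → tv (l • (h.1 *ᵥ e)) c ∈ H := by
    intro h l c hh
    rw [tv_smul, ← tv_conj]
    exact H.mul_mem (H.mul_mem hh (hQe (tv_mem_Q e _))) (H.inv_mem hh)
  have htf : ∀ (h : Sp) (l c : F), h ∈ H → tv (l • (h.1 *ᵥ f)) c ∈ H := by
    intro h l c hh
    rw [tv_smul, ← tv_conj]
    exact H.mul_mem (H.mul_mem hh (hQf (tv_mem_Q f _))) (H.inv_mem hh)
  rw [eq_top_iff, ← Cfsg.Agent.S0765.result m, Subgroup.closure_le]
  rintro A ⟨x, c, hA⟩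
  have hA' : A = tv x c := Subtype.ext hA
  rw [hA', SetLike.mem_coe]
  set w := prW e f x with hw
  have hwe : B w e = 0 := prW_e hef x
  have hwf : B w f = 0 := prW_f hef x
  have hx : x = B x f • e - B x e • f + w := eq_prW e f x
  by_cases hb : B x e = 0
  · by_cases ha : B x f = 0
    · -- x = w
      by_cases hw0 : w = 0
      · rw [hx, hb, ha, hw0]; simp only [zero_smul, sub_zero, add_zero]
        rw [tv_zero_left]; exact H.one_mem
      obtain ⟨y, hy⟩ := exists_partner hw0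
      set w1 := prW e f y with hw1
      have hw1e : B w1 e = 0 := prW_e hef y
      have hww1 : B w w1 = 1 := by
        rw [hw1]; unfold prW
        rw [sympForm_add_right, sympForm_sub_right, sympForm_smul_right, sympForm_smul_right, hwe,
          hwf, hy]; ring
      have h1 : x = (1 : F) • (((E e w1 0)⁻¹ * E f w 0).1 *ᵥ e) := by
        rw [one_smul, sp_mul_mulVec, E_f_e hef hwe hwf, E_inv (swap0 hw1e),
          E_mulVec (by rw [sympForm_neg_right, swap0 hw1e, neg_zero])]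
        simp only [sympForm_add_left, sympForm_smul_left, sympForm_self, hwe, hfe,
          sympForm_neg_right, hww1, swap0 hw1e]
        rw [hx, hb, ha]
        module
      rw [h1]
      exact hte _ _ _ (H.mul_mem (H.inv_mem (hEe _ _ hw1e)) (hEf _ _ hwf))
    · have h1 : x = B x f • ((E f ((B x f)⁻¹ • w) 0).1 *ᵥ e) := by
        rw [E_f_e hef (by rw [sympForm_smul_left, hwe, mul_zero])
          (by rw [sympForm_smul_left, hwf, mul_zero]), smul_add, smul_add, smul_smul,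
          mul_inv_cancel₀ ha]
        nth_rewrite 1 [hx]
        rw [hb]; module
      rw [h1]
      exact hte _ _ _ (hEf _ _ (by rw [sympForm_smul_left, hwf, mul_zero]))
  · have h1 : x = (-B x e) • ((E e ((B x e)⁻¹ • w) ((B x e)⁻¹ * B x f)).1 *ᵥ f) := by
      rw [E_e_f hef (by rw [sympForm_smul_left, hwe, mul_zero])
        (by rw [sympForm_smul_left, hwf, mul_zero]), smul_sub, smul_sub, smul_smul, smul_smul,
        ← mul_assoc, neg_mul, mul_inv_cancel₀ hb]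
      nth_rewrite 1 [hx]
      module
    rw [h1]
    exact htf _ _ _ (hEe _ _ (by rw [sympForm_smul_left, hwe, mul_zero]))

end Cfsg.Agent.Lib.Helper14.PSpAut
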