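import Mathlib
import Cfsg.Agent.Lib.Helper14.PSpAutApi

set_option autoImplicit false

/-! Every automorphism of `PSp_{2m}(q)`, `(2m,p) ≠ (4,2)`, is induced by a semilinear similarity. -/

namespace Cfsg.Agent.Lib.Helper14.PSpAut

open Matrix Cfsg.Agent.Lib.Helper13 Cfsg.Agent.Lib.Helper5 Cfsg.Agent.Lib.Helper94
open scoped MatrixGroups

variable {F : Type*} [Field F] {m : ℕ}

local notation "V" => (Fin m ⊕ Fin m → F)
local notation "Sp" => Matrix.symplecticGroup (Fin m) F
local notation "B" => Cfsg.sympForm m F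

lemma sympForm_decomp {e f : V} (hef : B e f = 1) (x y : V) :
    B x y = -(B x f * B y e) + B x e * B y f + B (prW e f x) (prW e f y) := by
  have hfe : B f e = -1 := by rw [sympForm_swap, hef]
  unfold prW
  simp only [sympForm_add_left, sympForm_add_right, sympForm_sub_left, sympForm_sub_right,
    sympForm_smul_left, sympForm_smul_right, sympForm_self, hef, hfe]
  rw [sympForm_swap e y, sympForm_swap f y]
  ring

/-- an automorphism fixing `X_e` and `X_f` is induced by a semilinear similarity -/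
theorem aut_induced_of_fix [Fintype F] (p : ℕ) [Fact p.Prime] [CharP F p] (hm : 2 ≤ m)
    {β : Cfsg.PSp m F ≃* Cfsg.PSp m F} {e f : V} (hef : B e f = 1)
    (hXe : FixX β e) (hXf : FixX β f) :
    ∃ (g : GL (Fin m ⊕ Fin m) F) (hg : g ∈ Cfsg.GSp m F) (θ : F ≃+* F),
      ∀ s : Sp, β (mkP s) = mkP (semiHom g hg θ s) := by
  classical
  have hfe : B f e = -1 := by rw [sympForm_swap, hef]
  obtain ⟨θ, κ, φ, hκ, hφe, hφf, hφadd, hφsmul, hφB, hEe, hEf⟩ := core p hm hef hXe hXf
  have hφ0 : φ 0 = 0 := by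
    have := hφsmul 0 0
    rwa [zero_smul, map_zero, zero_smul] at this
  have hφpr : ∀ x, φ x = φ (prW e f x) := by
    intro x
    have h1 := hEe x 0
    have h2 := hEe (prW e f x) 0
    rw [prW_of_mem (prW_e hef x) (prW_f hef x), h1] at h2
    exact (E_unique hef (hφe _) (hφf _) (hφe _) (hφf _) h2).1
  have hφe0 : φ e = 0 := by
    rw [hφpr]
    have : prW e f e = 0 := by unfold prW; rw [hef, sympForm_self]; simp
    rw [this, hφ0]
  have hφf0 : φ f = 0 := by
    rw [hφpr]
    have : prW e f f = 0 := by unfold prW; rw [hfe, sympForm_self]; simp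
    rw [this, hφ0]
  let Φ : V →ₛₗ[(θ : F →+* F)] V :=
    { toFun := fun x => (κ * θ (B x f)) • e - θ (B x e) • f + φ x
      map_add' := by
        intro x y
        simp only [sympForm_add_left, map_add, hφadd]
        module
      map_smul' := by
        intro c x
        simp only [sympForm_smul_left, map_mul, hφsmul, RingEquiv.coe_toRingHom]
        module }
  have hΦ : ∀ x, Φ x = (κ * θ (B x f)) • e - θ (B x e) • f + φ x := fun x => rfl
  have hΦe : Φ e = κ • e := by
    rw [hΦ, hef, sympForm_self, hφe0]; simp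
  have hΦf : Φ f = f := by
    rw [hΦ, hfe, sympForm_self, hφf0]; simp
  have hΦw : ∀ w, B w e = 0 → B w f = 0 → Φ w = φ w := by
    intro w h1 h2
    rw [hΦ, h1, h2]; simp
  have hΦBe : ∀ x, B (Φ x) e = θ (B x e) := by
    intro x
    rw [hΦ]
    simp only [sympForm_add_left, sympForm_sub_left, sympForm_smul_left, sympForm_self, hfe, hφe]
    ring
  have hΦBf : ∀ x, B (Φ x) f = κ * θ (B x f) := by
    intro x
    rw [hΦ]
    simp only [sympForm_add_left, sympForm_sub_left, sympForm_smul_left, sympForm_self, hef, hφf]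
    ring
  have hΦB : ∀ x y, B (Φ x) (Φ y) = κ * θ (B x y) := by
    intro x y
    rw [sympForm_decomp hef (Φ x) (Φ y), hΦBe, hΦBe, hΦBf, hΦBf, sympForm_decomp hef x y]
    have h1 : ∀ z, prW e f (Φ z) = φ z := by
      intro z
      unfold prW
      rw [hΦBe, hΦBf, hΦ]
      module
    rw [h1, h1, hφB]
    simp only [map_add, map_neg, map_mul]
    ring
  let g0 : Matrix (Fin m ⊕ Fin m) (Fin m ⊕ Fin m) F := Matrix.of fun i j => Φ (Pi.single j 1) i
  have hg0 : ∀ x, g0 *ᵥ thV θ x = Φ x := by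
    intro x
    have hx : x = ∑ j, x j • (Pi.single j (1 : F) : V) := by
      ext i
      simp [Finset.sum_apply, Pi.single_apply]
    conv_rhs => rw [hx, map_sum]
    ext i
    simp only [Matrix.mulVec, dotProduct, g0, Matrix.of_apply, thV, map_smulₛₗ,
      Finset.sum_apply, Pi.smul_apply, smul_eq_mul, RingEquiv.coe_toRingHom]
    exact Finset.sum_congr rfl fun j _ => mul_comm _ _
  have hg0B : ∀ u v, B (g0 *ᵥ u) (g0 *ᵥ v) = κ * B u v := by
    intro u v
    have h1 := hΦB (thV θ.symm u) (thV θ.symm v)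
    rw [← hg0, ← hg0, thV_symm, thV_symm, ← sympForm_thV, thV_symm, thV_symm] at h1
    exact h1
  have hinj : Function.Injective g0.mulVec := by
    intro u v huv
    rw [← sub_eq_zero]
    apply sympForm_nondeg
    intro z
    have h1 := hg0B (u - v) z
    rw [Matrix.mulVec_sub] at h1
    change g0 *ᵥ u = g0 *ᵥ v at huv
    rw [huv, sub_self, sympForm_zero_left] at h1
    exact (mul_eq_zero.1 h1.symm).resolve_left hκ
  have hunit : IsUnit g0 := Matrix.mulVec_injective_iff_isUnit.1 hinj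
  let g : GL (Fin m ⊕ Fin m) F := hunit.unit
  have hgc : g.1 = g0 := rfl
  have hg : g ∈ Cfsg.GSp m F := ⟨Units.mk0 κ hκ, fun u v => by rw [hgc, hg0B]; rfl⟩
  refine ⟨g, hg, θ, ?_⟩
  have hsurj : ∀ y : V, ∃ x, Φ x = y := by
    intro y
    refine ⟨thV θ.symm ((g⁻¹ : GL _ F).1 *ᵥ y), ?_⟩
    rw [← hg0, thV_symm, ← hgc, gl_inv_mulVec]
  have hΨ : ∀ (s : Sp) (x : V), (semiHom g hg θ s).1 *ᵥ (Φ x) = Φ (s.1 *ᵥ x) := by
    intro s x
    rw [← hg0, ← hg0, ← hgc, semiHom_mulVec]
  have hΨe : ∀ w a, B w e = 0 → B w f = 0 → semiHom g hg θ (E e w a) = E e (φ w) (κ * θ a) := by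
    intro w a hwe hwf
    apply sp_ext
    intro y
    obtain ⟨x, rfl⟩ := hsurj y
    rw [hΨ, E_mulVec (swap0 hwe), E_mulVec (swap0 (hφe w)), hΦBe, ← hΦw w hwe hwf, hΦB]
    simp only [map_add, map_smulₛₗ, hΦe, RingEquiv.coe_toRingHom, map_mul]
    module
  have hΨf : ∀ w a, B w e = 0 → B w f = 0 →
      semiHom g hg θ (E f w a) = E f (κ⁻¹ • φ w) (κ⁻¹ * θ a) := by
    intro w a hwe hwf
    apply sp_ext
    intro y
    obtain ⟨x, rfl⟩ := hsurj y
    rw [hΨ, E_mulVec (swap0 hwf), E_mulVec (by rw [sympForm_smul_right, swap0 (hφf w), mul_zero]),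
      hΦBf, sympForm_smul_right, ← hΦw w hwe hwf, hΦB]
    simp only [map_add, map_smulₛₗ, hΦf, RingEquiv.coe_toRingHom, map_mul]
    have e1 : κ⁻¹ * (κ * θ (B x w)) = θ (B x w) := by field_simp
    have e2 : κ⁻¹ * θ a * (κ * θ (B x f)) = θ a * θ (B x f) := by field_simp
    rw [e1, e2, smul_smul]
    have e3 : κ * θ (B x f) * κ⁻¹ = θ (B x f) := by field_simp
    rw [e3]
  let f1 : Sp →* Cfsg.PSp m F := β.toMonoidHom.comp mkP
  let f2 : Sp →* Cfsg.PSp m F := mkP.comp (semiHom g hg θ)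
  have hcl : Subgroup.closure ((Q e : Set Sp) ∪ (Q f : Set Sp)) = ⊤ := by
    rw [Subgroup.closure_union, Subgroup.closure_eq, Subgroup.closure_eq, Q_sup_Q hef]
  have heq : f1 = f2 := by
    apply MonoidHom.eq_of_eqOn_dense hcl
    rintro A (⟨w, a, hw, rfl⟩ | ⟨w, a, hw, rfl⟩)
    · -- reduce to `w ∈ W`
      have hwe := swap0 hw
      have h1 : w = prW e f w + B w f • e := by
        unfold prW; rw [hwe]; module
      have h2 : E e w a = E e (prW e f w) (a + 2 * B w f) := by
        nth_rewrite 1 [h1]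
        rw [E_add_smul (swap0 (prW_e hef w))]
      change β (mkP (E e w a)) = mkP (semiHom g hg θ (E e w a))
      rw [h2, hEe, hΨe _ _ (prW_e hef w) (prW_f hef w), ← hφpr]
    · have hwf := swap0 hw
      have h1 : w = prW e f w + (-B w e) • f := by
        unfold prW; rw [hwf]; module
      have h2 : E f w a = E f (prW e f w) (a + 2 * (-B w e)) := by
        nth_rewrite 1 [h1]
        rw [E_add_smul (swap0 (prW_f hef w))]
      change β (mkP (E f w a)) = mkP (semiHom g hg θ (E f w a))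
      rw [h2, hEf, hΨf _ _ (prW_e hef w) (prW_f hef w), ← hφpr]
  intro s
  exact DFunLike.congr_fun heq s

end Cfsg.Agent.Lib.Helper14.PSpAut
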