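import Mathlib
import Cfsg.Agent.Lib.Helper14.PSpAutMain
import Cfsg.Agent.Lib.Helper5.SpPrimitive

set_option autoImplicit false

/-! Factorisation of the automorphisms of `PSp_{2m}(q)`, `(2m,p) ≠ (4,2)`. -/

namespace Cfsg.Agent.Lib.Helper14.PSpAut

open Matrix Cfsg.Agent.Lib.Helper13 Cfsg.Agent.Lib.Helper5 Cfsg.Agent.Lib.Helper94
open scoped MatrixGroups

variable {F : Type*} [Field F] {m : ℕ}

local notation "V" => (Fin m ⊕ Fin m → F)
local notation "Sp" => Matrix.symplecticGroup (Fin m) F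
local notation "B" => Cfsg.sympForm m F

/-- `Sp → GL` -/
noncomputable def toGL : Sp →* GL (Fin m ⊕ Fin m) F :=
  (Cfsg.spGL m F).subtype.comp (spToSpGL (F := F) (m := m)).toMonoidHom

lemma toGL_coe (h : Sp) : (toGL h).1 = h.1 := rfl

lemma toGL_mem (h : Sp) : toGL h ∈ Cfsg.GSp m F :=
  ⟨1, fun u v => by rw [toGL_coe, Cfsg.Agent.Lib.Helper13.sp_preserves]; simp⟩

lemma semiHom_mul_left (h : Sp) (g : GL (Fin m ⊕ Fin m) F) (hg : g ∈ Cfsg.GSp m F) (θ : F ≃+* F)
    (s : Sp) :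
    semiHom (toGL h * g) ((Cfsg.GSp m F).mul_mem (toGL_mem h) hg) θ s
      = h * semiHom g hg θ s * h⁻¹ := by
  apply Subtype.ext
  change (toGL h * g).1 * s.1.map θ * ((toGL h * g)⁻¹ : GL _ F).1
    = h.1 * (g.1 * s.1.map θ * (g⁻¹ : GL _ F).1) * (h⁻¹).1
  rw [_root_.mul_inv_rev, Units.val_mul, Units.val_mul, ← map_inv, toGL_coe, toGL_coe]
  simp only [mul_assoc]

/-- non-orthogonal centres give non-commuting images -/
lemma not_comm_of_ne (hm : 2 ≤ m) {e f : V} (hef : B e f = 1)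
    (h : mkP (tv f (1 : F)) * mkP (tv e 1) = mkP (tv e 1) * mkP (tv f 1)) : False := by
  have he := ne_zero_of_partner hef
  have hfe : B f e = -1 := by rw [sympForm_swap, hef]
  obtain ⟨x, hx, hxe, hxf⟩ := exists_perp_two hm e f
  have h1 : tv f (1 : F) * tv e 1 = tv e 1 * tv f 1 := by
    apply eq_of_mkP_eq (by rw [map_mul, map_mul, h]) hx
    · rw [sp_mul_mulVec, tv_fix hxe, tv_fix hxf]
    · rw [sp_mul_mulVec, tv_fix hxf, tv_fix hxe]
  have h2 : tv ((tv f (1 : F)).1 *ᵥ e) (1 : F) = tv e 1 := by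
    rw [← tv_conj, h1]; group
  obtain ⟨l, hl⟩ := span_of_tv_eq (sp_mulVec_ne_zero _ he) one_ne_zero h2
  rw [tv_mulVec, hef] at hl
  have h3 := congrArg (fun y => B y e) hl
  simp only [sympForm_add_left, sympForm_smul_left, sympForm_self, hfe] at h3
  exact one_ne_zero (by linear_combination -h3 : (1 : F) = 0)

/-- **Factorisation**: every automorphism is `s ↦ g θ(s) g⁻¹`. -/
theorem aut_factor [Fintype F] (p : ℕ) [Fact p.Prime] [CharP F p] (hm : 2 ≤ m)
    (h4 : m = 2 → p ≠ 2) (β : Cfsg.PSp m F ≃* Cfsg.PSp m F) :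
    ∃ (g : GL (Fin m ⊕ Fin m) F) (hg : g ∈ Cfsg.GSp m F) (θ : F ≃+* F),
      ∀ s : Sp, β (mkP s) = mkP (semiHom g hg θ s) := by
  have he : (eL ⟨0, by omega⟩ : V) ≠ 0 := eL_ne_zero _
  set e : V := eL ⟨0, by omega⟩
  obtain ⟨f, hef⟩ := exists_partner he
  have hfe : B f e = -1 := by rw [sympForm_swap, hef]
  have hf : f ≠ 0 := by
    rintro rfl
    rw [sympForm_zero_right] at hef
    exact zero_ne_one hef
  obtain ⟨e', he', hβe⟩ := aut_tv p hm h4 β he
  obtain ⟨f', hf', hβf⟩ := aut_tv p hm h4 β hf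
  have hc : B e' f' ≠ 0 := by
    intro h0
    obtain ⟨a, ha⟩ := hβe 1
    obtain ⟨b, hb⟩ := hβf 1
    apply not_comm_of_ne hm hef
    apply β.injective
    rw [map_mul, map_mul, ha, hb, ← map_mul, ← map_mul, tv_comm h0]
  set c := B e' f' with hcdef
  have hli1 : LinearIndependent F ![e', c⁻¹ • f'] := by
    rw [LinearIndependent.pair_iff]
    intro s t hst
    have h3 := congrArg (fun x => B e' x) hst
    simp only [sympForm_add_right, sympForm_smul_right, sympForm_self, sympForm_zero_right,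
      ← hcdef] at h3
    have ht : t = 0 := by
      have : t * (c⁻¹ * c) = 0 := by linear_combination h3
      rwa [inv_mul_cancel₀ hc, mul_one] at this
    rw [ht, zero_smul, add_zero] at hst
    exact ⟨(smul_eq_zero.1 hst).resolve_right he', ht⟩
  have hli2 : LinearIndependent F ![e, f] := by
    rw [LinearIndependent.pair_iff]
    intro s t hst
    have h3 := congrArg (fun x => B e x) hst
    simp only [sympForm_add_right, sympForm_smul_right, sympForm_self, sympForm_zero_right,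
      hef] at h3
    have ht : t = 0 := by linear_combination h3
    rw [ht, zero_smul, add_zero] at hst
    exact ⟨(smul_eq_zero.1 hst).resolve_right he, ht⟩
  have hcc : c⁻¹ * c = 1 := inv_mul_cancel₀ hc
  obtain ⟨h, hh⟩ := exists_sp_of_frames m ![e', c⁻¹ • f'] ![e, f] hli1 hli2 (by
    intro i j
    fin_cases i <;> fin_cases j <;>
      simp [sympForm_self, sympForm_smul_left, sympForm_smul_right, hef, hfe, ← hcdef, hcc,
        sympForm_swap f' e'])
  have hhe : h.1 *ᵥ e' = e := congrFun hh 0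
  have hhf0 : h.1 *ᵥ (c⁻¹ • f') = f := congrFun hh 1
  have hhf : h.1 *ᵥ f' = c • f := by
    rw [← hhf0, Matrix.mulVec_smul, smul_smul, mul_inv_cancel₀ hc, one_smul]
  let β₁ : Cfsg.PSp m F ≃* Cfsg.PSp m F := β.trans (MulAut.conj (mkP h))
  have hβ₁ : ∀ x, β₁ x = mkP h * β x * (mkP h)⁻¹ := fun x => rfl
  have hXe : FixX β₁ e := by
    intro a
    obtain ⟨a', ha'⟩ := hβe a
    exact ⟨a', by rw [hβ₁, ha', ← map_inv, ← map_mul, ← map_mul, tv_conj, hhe]⟩
  have hXf : FixX β₁ f := by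
    intro a
    obtain ⟨a', ha'⟩ := hβf a
    exact ⟨c ^ 2 * a', by rw [hβ₁, ha', ← map_inv, ← map_mul, ← map_mul, tv_conj, hhf, tv_smul]⟩
  obtain ⟨g, hg, θ, hgθ⟩ := aut_induced_of_fix p hm hef hXe hXf
  refine ⟨toGL h⁻¹ * g, (Cfsg.GSp m F).mul_mem (toGL_mem _) hg, θ, fun s => ?_⟩
  rw [semiHom_mul_left h⁻¹ g hg, map_mul, map_mul, ← hgθ, hβ₁, inv_inv, map_inv]
  group

lemma induced_of_semiHom {β : Cfsg.PSp m F ≃* Cfsg.PSp m F} {g : GL (Fin m ⊕ Fin m) F}
    {hg : g ∈ Cfsg.GSp m F} {θ : F ≃+* F} (h : ∀ s : Sp, β (mkP s) = mkP (semiHom g hg θ s)) :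
    Cfsg.IsInducedBySemilinearPSp g θ β := by
  intro s s' hs
  have : s' = semiHom g hg θ s := Subtype.ext hs
  rw [this]
  exact h s

end Cfsg.Agent.Lib.Helper14.PSpAut
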