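import Mathlib
import Cfsg.Agent.Lib.Helper14.PSpAutFac

set_option autoImplicit false

/-! The standard automorphisms of `PSp_{2m}(F)` as homomorphisms into `MulAut`. -/

namespace Cfsg.Agent.Lib.Helper14.PSpAut

open Matrix Cfsg.Agent.Lib.Helper13 Cfsg.Agent.Lib.Helper5 Cfsg.Agent.Lib.Helper94
open scoped MatrixGroups

variable {F : Type*} [Field F] {m : ℕ}

local notation "V" => (Fin m ⊕ Fin m → F)
local notation "Sp" => Matrix.symplecticGroup (Fin m) F
local notation "B" => Cfsg.sympForm m F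
local notation "GSp" => Cfsg.GSp m F

/-- conjugation by a conformal symplectic matrix, on `Sp`. -/
noncomputable def conjSp : ↥GSp →* MulAut Sp where
  toFun g :=
    { toFun := fun s => ⟨g.1.1 * s.1 * (g.1⁻¹ : GL _ F).1, conj_mem_sp g.2 s.2⟩
      invFun := fun s => ⟨(g.1⁻¹ : GL _ F).1 * s.1 * g.1.1, by
        have := conj_mem_sp ((Cfsg.GSp m F).inv_mem g.2) s.2
        rwa [inv_inv] at this⟩
      left_inv := fun s => by
        apply Subtype.ext
        show (g.1⁻¹ : GL _ F).1 * (g.1.1 * s.1 * (g.1⁻¹ : GL _ F).1) * g.1.1 = s.1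
        have h : (g.1⁻¹ : GL _ F).1 * g.1.1 = 1 := by
          rw [← Units.val_mul, inv_mul_cancel]; rfl
        calc _ = ((g.1⁻¹ : GL _ F).1 * g.1.1) * s.1 * ((g.1⁻¹ : GL _ F).1 * g.1.1) := by
              simp only [Matrix.mul_assoc]
          _ = s.1 := by rw [h, Matrix.one_mul, Matrix.mul_one]
      right_inv := fun s => by
        apply Subtype.ext
        show g.1.1 * ((g.1⁻¹ : GL _ F).1 * s.1 * g.1.1) * (g.1⁻¹ : GL _ F).1 = s.1
        have h : g.1.1 * (g.1⁻¹ : GL _ F).1 = 1 := by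
          rw [← Units.val_mul, mul_inv_cancel]; rfl
        calc _ = (g.1.1 * (g.1⁻¹ : GL _ F).1) * s.1 * (g.1.1 * (g.1⁻¹ : GL _ F).1) := by
              simp only [Matrix.mul_assoc]
          _ = s.1 := by rw [h, Matrix.one_mul, Matrix.mul_one]
      map_mul' := fun s t => by
        apply Subtype.ext
        show g.1.1 * (s.1 * t.1) * (g.1⁻¹ : GL _ F).1 =
          (g.1.1 * s.1 * (g.1⁻¹ : GL _ F).1) * (g.1.1 * t.1 * (g.1⁻¹ : GL _ F).1)
        have h : (g.1⁻¹ : GL _ F).1 * g.1.1 = 1 := by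
          rw [← Units.val_mul, inv_mul_cancel]; rfl
        calc _ = g.1.1 * s.1 * 1 * t.1 * (g.1⁻¹ : GL _ F).1 := by
              simp only [Matrix.mul_assoc, Matrix.one_mul]
          _ = _ := by rw [← h]; simp only [Matrix.mul_assoc] }
  map_one' := by
    ext s : 1
    apply Subtype.ext
    show (1 : GL _ F).1 * s.1 * ((1 : GL _ F)⁻¹ : GL _ F).1 = s.1
    simp
  map_mul' g h := by
    ext s : 1
    apply Subtype.ext
    show (g.1 * h.1 : GL _ F).1 * s.1 * ((g.1 * h.1)⁻¹ : GL _ F).1 =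
      g.1.1 * (h.1.1 * s.1 * (h.1⁻¹ : GL _ F).1) * (g.1⁻¹ : GL _ F).1
    rw [_root_.mul_inv_rev, Units.val_mul, Units.val_mul]
    simp only [Matrix.mul_assoc]

lemma conjSp_coe (g : ↥GSp) (s : Sp) : (conjSp g s).1 = g.1.1 * s.1 * (g.1⁻¹ : GL _ F).1 := rfl

/-- a field automorphism applied entrywise, on `Sp`. -/
noncomputable def fieldSp : (F ≃+* F) →* MulAut Sp where
  toFun σ :=
    { toFun := fun s => ⟨s.1.map σ, map_mem_sp σ s⟩
      invFun := fun s => ⟨s.1.map σ.symm, map_mem_sp σ.symm s⟩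
      left_inv := fun s => by
        apply Subtype.ext
        ext i j
        simp
      right_inv := fun s => by
        apply Subtype.ext
        ext i j
        simp
      map_mul' := fun s t => by
        apply Subtype.ext
        exact Matrix.map_mul (f := (σ : F →+* F)) }
  map_one' := by
    ext s : 1
    apply Subtype.ext
    ext i j
    rfl
  map_mul' σ τ := by
    ext s : 1
    apply Subtype.ext
    ext i j
    rfl

lemma fieldSp_coe (σ : F ≃+* F) (s : Sp) : (fieldSp σ s).1 = s.1.map σ := rfl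

/-- An automorphism of `Sp` induces one of `PSp`. -/
noncomputable def pspAut : MulAut Sp →* MulAut (Cfsg.PSp m F) where
  toFun α := QuotientGroup.congr _ _ α
    (Subgroup.characteristic_iff_map_eq.mp inferInstance α)
  map_one' := by
    ext x
    induction x using QuotientGroup.induction_on with
    | H s => rfl
  map_mul' α α' := by
    ext x
    induction x using QuotientGroup.induction_on with
    | H s => rfl

lemma pspAut_mk (α : MulAut Sp) (s : Sp) : pspAut α (mkP s) = mkP (α s) := rfl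

lemma mulAut_psp_ext {β β' : MulAut (Cfsg.PSp m F)} (h : ∀ s : Sp, β (mkP s) = β' (mkP s)) :
    β = β' := by
  ext x
  induction x using QuotientGroup.induction_on with
  | H s => exact h s

/-- `GSp → Aut(PSp)`. -/
noncomputable def cG : ↥GSp →* MulAut (Cfsg.PSp m F) := pspAut.comp conjSp

/-- `Aut(F) → Aut(PSp)`. -/
noncomputable def fA : (F ≃+* F) →* MulAut (Cfsg.PSp m F) := pspAut.comp fieldSp

lemma cG_mk (g : ↥GSp) (s : Sp) : cG g (mkP s) = mkP (conjSp g s) := rfl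

lemma fA_mk (σ : F ≃+* F) (s : Sp) : fA σ (mkP s) = mkP (fieldSp σ s) := rfl

lemma semiHom_eq (g : ↥GSp) (θ : F ≃+* F) (s : Sp) :
    semiHom g.1 g.2 θ s = conjSp g (fieldSp θ s) := rfl

/-- `σ` applied to an invertible matrix. -/
noncomputable def mapGL (σ : F ≃+* F) : GL (Fin m ⊕ Fin m) F →* GL (Fin m ⊕ Fin m) F :=
  GeneralLinearGroup.map (σ : F →+* F)

lemma mapGL_coe (σ : F ≃+* F) (g : GL (Fin m ⊕ Fin m) F) : (mapGL σ g).1 = g.1.map σ := rfl

lemma mapGL_mem (σ : F ≃+* F) {g : GL (Fin m ⊕ Fin m) F} (hg : g ∈ GSp) : mapGL σ g ∈ GSp := by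
  obtain ⟨c, hc⟩ := hg
  refine ⟨Units.map (σ : F →* F) c, fun u v => ?_⟩
  have h1 := hc (thV σ.symm u) (thV σ.symm v)
  have h2 := congrArg σ h1
  rw [← sympForm_thV, ← map_mulVec_thV, ← map_mulVec_thV, thV_symm, thV_symm, map_mul,
    ← sympForm_thV, thV_symm, thV_symm] at h2
  exact h2

/-- `σ` applied to a conformal symplectic matrix. -/
noncomputable def mapGSp (σ : F ≃+* F) : ↥GSp →* ↥GSp where
  toFun g := ⟨mapGL σ g.1, mapGL_mem σ g.2⟩
  map_one' := Subtype.ext (map_one _)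
  map_mul' a b := Subtype.ext (map_mul _ _ _)

lemma mapGSp_coe (σ : F ≃+* F) (g : ↥GSp) : (mapGSp σ g).1 = mapGL σ g.1 := rfl

lemma fieldSp_mul_conjSp (σ : F ≃+* F) (g : ↥GSp) :
    fieldSp σ * conjSp g = conjSp (mapGSp σ g) * fieldSp σ := by
  ext s : 1
  apply Subtype.ext
  show (g.1.1 * s.1 * (g.1⁻¹ : GL _ F).1).map σ
    = (mapGL σ g.1).1 * s.1.map σ * ((mapGL σ g.1)⁻¹ : GL _ F).1
  rw [← map_inv, mapGL_coe, mapGL_coe]
  have h1 : ∀ M N : Matrix (Fin m ⊕ Fin m) (Fin m ⊕ Fin m) F, (M * N).map σ = M.map σ * N.map σ :=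
    fun M N => Matrix.map_mul (f := (σ : F →+* F))
  rw [h1, h1]

lemma fA_mul_cG (σ : F ≃+* F) (g : ↥GSp) : fA σ * cG g = cG (mapGSp σ g) * fA σ := by
  simp only [fA, cG, MonoidHom.comp_apply, ← map_mul, fieldSp_mul_conjSp]

/-- the factorisation in `MulAut` -/
theorem aut_factor' [Fintype F] (p : ℕ) [Fact p.Prime] [CharP F p] (hm : 2 ≤ m)
    (h4 : m = 2 → p ≠ 2) (β : MulAut (Cfsg.PSp m F)) :
    ∃ (g : ↥GSp) (σ : F ≃+* F), β = cG g * fA σ := by
  obtain ⟨g, hg, θ, h⟩ := aut_factor p hm h4 β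
  refine ⟨⟨g, hg⟩, θ, mulAut_psp_ext fun s => ?_⟩
  rw [h s]
  rfl

lemma isInduced_cG_fA (g : ↥GSp) (σ : F ≃+* F) :
    Cfsg.IsInducedBySemilinearPSp g.1 σ (cG g * fA σ) := by
  intro s s' h
  have : s' = conjSp g (fieldSp σ s) := Subtype.ext h
  rw [this]
  rfl

lemma isStdField_fA (σ : F ≃+* F) : Cfsg.IsStdFieldAutPSp σ (fA σ : MulAut (Cfsg.PSp m F)) := by
  intro s s' h
  have : s' = fieldSp σ s := Subtype.ext h
  rw [this]
  rfl

lemma eq_fA_of_isStd {σ : F ≃+* F} {φ : MulAut (Cfsg.PSp m F)} (h : Cfsg.IsStdFieldAutPSp σ φ) :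
    φ = fA σ := mulAut_psp_ext fun s => h s (fieldSp σ s) rfl

lemma map_refl (M : Matrix (Fin m ⊕ Fin m) (Fin m ⊕ Fin m) F) : M.map (RingEquiv.refl F) = M := by
  ext i j; rfl

lemma isInnerDiagonal_iff {β : MulAut (Cfsg.PSp m F)} :
    Cfsg.IsInnerDiagonalAutPSp β ↔ β ∈ (cG : ↥GSp →* MulAut (Cfsg.PSp m F)).range := by
  constructor
  · rintro ⟨g, hg, h⟩
    refine ⟨⟨g, hg⟩, mulAut_psp_ext fun s => ?_⟩
    exact (h s (conjSp ⟨g, hg⟩ s) (by rw [map_refl]; rfl)).symm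
  · rintro ⟨g, rfl⟩
    refine ⟨g.1, g.2, fun s s' h => ?_⟩
    rw [map_refl] at h
    have : s' = conjSp g s := Subtype.ext h
    rw [this]
    rfl

lemma inndiagPSp_eq : Cfsg.inndiagPSp m F = (cG : ↥GSp →* MulAut (Cfsg.PSp m F)).range := by
  unfold Cfsg.inndiagPSp Cfsg.autSubgroupOf
  have : {β : MulAut (Cfsg.PSp m F) | Cfsg.IsInnerDiagonalAutPSp β} =
      ((cG : ↥GSp →* MulAut (Cfsg.PSp m F)).range : Set _) := by
    ext β
    exact isInnerDiagonal_iff
  rw [this, Subgroup.closure_eq]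

lemma fA_normalizes (σ : F ≃+* F) {d : MulAut (Cfsg.PSp m F)}
    (hd : d ∈ (cG : ↥GSp →* MulAut (Cfsg.PSp m F)).range) :
    fA σ * d * (fA σ)⁻¹ ∈ (cG : ↥GSp →* MulAut (Cfsg.PSp m F)).range := by
  obtain ⟨g, rfl⟩ := hd
  exact ⟨mapGSp σ g, by rw [fA_mul_cG, mul_inv_cancel_right]⟩

theorem range_cG_normal [Fintype F] (p : ℕ) [Fact p.Prime] [CharP F p] (hm : 2 ≤ m)
    (h4 : m = 2 → p ≠ 2) : ((cG : ↥GSp →* MulAut (Cfsg.PSp m F)).range).Normal := by
  constructor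
  intro d hd α
  obtain ⟨g, σ, rfl⟩ := aut_factor' p hm h4 α
  have h1 := fA_normalizes σ hd
  have h2 : cG g * fA σ * d * (cG g * fA σ)⁻¹ = cG g * (fA σ * d * (fA σ)⁻¹) * (cG g)⁻¹ := by group
  rw [h2]
  exact Subgroup.mul_mem _ (Subgroup.mul_mem _ ⟨g, rfl⟩ h1) (Subgroup.inv_mem _ ⟨g, rfl⟩)

end Cfsg.Agent.Lib.Helper14.PSpAut
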