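import Mathlib
import Cfsg.Agent.Lib.Helper14.PSpAutGrp

set_option autoImplicit false

/-! Automorphisms preserving transvections are semilinear; the dichotomy in characteristic 2. -/

namespace Cfsg.Agent.Lib.Helper14.PSpAut

open Matrix Cfsg.Agent.Lib.Helper13 Cfsg.Agent.Lib.Helper5 Cfsg.Agent.Lib.Helper94
open scoped MatrixGroups

variable {F : Type*} [Field F] {m : ℕ}

local notation "V" => (Fin m ⊕ Fin m → F)
local notation "Sp" => Matrix.symplecticGroup (Fin m) F
local notation "B" => Cfsg.sympForm m F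
local notation "GSp" => Cfsg.GSp m F

/-- `β` maps the transvection group of `u` into a transvection group -/
def TvAt (β : Cfsg.PSp m F ≃* Cfsg.PSp m F) (u : V) : Prop :=
  ∃ u' : V, u' ≠ 0 ∧ ∀ a : F, ∃ a' : F, β (mkP (tv u a)) = mkP (tv u' a')

lemma TvAt.spread {β : Cfsg.PSp m F ≃* Cfsg.PSp m F} {u0 : V} (hu0 : u0 ≠ 0) (h : TvAt β u0)
    {u : V} (hu : u ≠ 0) : TvAt β u := by
  obtain ⟨u1, hu1, key⟩ := h
  obtain ⟨A, hA⟩ := exists_sp_map hu0 hu
  obtain ⟨A', hA'⟩ := mkP_surj (β (mkP A))
  refine ⟨A'.1 *ᵥ u1, sp_mulVec_ne_zero A' hu1, fun a => ?_⟩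
  obtain ⟨a', ha'⟩ := key a
  refine ⟨a', ?_⟩
  rw [← hA, ← tv_conj, ← tv_conj, map_mul, map_mul, map_mul, map_mul, map_mul, map_mul, map_inv,
    map_inv, map_inv, ha', hA']

/-- factorisation of an automorphism preserving the transvection groups -/
theorem aut_factor_of_tv [Fintype F] (p : ℕ) [Fact p.Prime] [CharP F p] (hm : 2 ≤ m)
    (β : Cfsg.PSp m F ≃* Cfsg.PSp m F) (hβ : ∀ u : V, u ≠ 0 → TvAt β u) :
    ∃ (g : GL (Fin m ⊕ Fin m) F) (hg : g ∈ Cfsg.GSp m F) (θ : F ≃+* F),
      ∀ s : Sp, β (mkP s) = mkP (semiHom g hg θ s) := by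
  have he : (eL ⟨0, by omega⟩ : V) ≠ 0 := eL_ne_zero _
  set e : V := eL ⟨0, by omega⟩
  obtain ⟨f, hef⟩ := exists_partner he
  have hfe : B f e = -1 := by rw [sympForm_swap, hef]
  have hf : f ≠ 0 := by
    rintro rfl
    rw [sympForm_zero_right] at hef
    exact zero_ne_one hef
  obtain ⟨e', he', hβe⟩ := hβ e he
  obtain ⟨f', hf', hβf⟩ := hβ f hf
  have hc : B e' f' ≠ 0 := by
    intro h0
    obtain ⟨a, ha⟩ := hβe 1
    obtain ⟨b, hb⟩ := hβf 1
    apply not_comm_of_ne hm hef
    apply β.injective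
    rw [map_mul, map_mul, ha, hb, ← map_mul, ← map_mul, tv_comm h0]
  set c := B e' f' with hcdef
  have hli1 : LinearIndependent F ![e', c⁻¹ • f'] := by
    rw [LinearIndependent.pair_iff]
    intro s t hst
    have h3 := congrArg (fun x => B e' x) hst
    simp only [sympForm_add_right, sympForm_smul_right, sympForm_self, sympForm_zero_right,
      ← hcdef] at h3
    have ht : t = 0 := by
      have : t * (c⁻¹ * c) = 0 := by linear_combination h3
      rwa [inv_mul_cancel₀ hc, mul_one] at this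
    rw [ht, zero_smul, add_zero] at hst
    exact ⟨(smul_eq_zero.1 hst).resolve_right he', ht⟩
  have hli2 : LinearIndependent F ![e, f] := by
    rw [LinearIndependent.pair_iff]
    intro s t hst
    have h3 := congrArg (fun x => B e x) hst
    simp only [sympForm_add_right, sympForm_smul_right, sympForm_self, sympForm_zero_right,
      hef] at h3
    have ht : t = 0 := by linear_combination h3
    rw [ht, zero_smul, add_zero] at hst
    exact ⟨(smul_eq_zero.1 hst).resolve_right he, ht⟩
  have hcc : c⁻¹ * c = 1 := inv_mul_cancel₀ hc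
  obtain ⟨h, hh⟩ := exists_sp_of_frames m ![e', c⁻¹ • f'] ![e, f] hli1 hli2 (by
    intro i j
    fin_cases i <;> fin_cases j <;>
      simp [sympForm_self, sympForm_smul_left, sympForm_smul_right, hef, hfe, ← hcdef, hcc,
        sympForm_swap f' e'])
  have hhe : h.1 *ᵥ e' = e := congrFun hh 0
  have hhf0 : h.1 *ᵥ (c⁻¹ • f') = f := congrFun hh 1
  have hhf : h.1 *ᵥ f' = c • f := by
    rw [← hhf0, Matrix.mulVec_smul, smul_smul, mul_inv_cancel₀ hc, one_smul]
  let β₁ : Cfsg.PSp m F ≃* Cfsg.PSp m F := β.trans (MulAut.conj (mkP h))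
  have hβ₁ : ∀ x, β₁ x = mkP h * β x * (mkP h)⁻¹ := fun x => rfl
  have hXe : FixX β₁ e := by
    intro a
    obtain ⟨a', ha'⟩ := hβe a
    exact ⟨a', by rw [hβ₁, ha', ← map_inv, ← map_mul, ← map_mul, tv_conj, hhe]⟩
  have hXf : FixX β₁ f := by
    intro a
    obtain ⟨a', ha'⟩ := hβf a
    exact ⟨c ^ 2 * a', by rw [hβ₁, ha', ← map_inv, ← map_mul, ← map_mul, tv_conj, hhf, tv_smul]⟩
  obtain ⟨g, hg, θ, hgθ⟩ := aut_induced_of_fix p hm hef hXe hXf
  refine ⟨toGL h⁻¹ * g, (Cfsg.GSp m F).mul_mem (toGL_mem _) hg, θ, fun s => ?_⟩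
  rw [semiHom_mul_left h⁻¹ g hg, map_mul, map_mul, ← hgθ, hβ₁, inv_inv, map_inv]
  group

theorem aut_factor_of_tv' [Fintype F] (p : ℕ) [Fact p.Prime] [CharP F p] (hm : 2 ≤ m)
    (β : MulAut (Cfsg.PSp m F)) {u0 : V} (hu0 : u0 ≠ 0) (hβ : TvAt β u0) :
    ∃ (g : ↥GSp) (σ : F ≃+* F), β = cG g * fA σ := by
  obtain ⟨g, hg, θ, h⟩ := aut_factor_of_tv p hm β (fun u hu => hβ.spread hu0 hu)
  refine ⟨⟨g, hg⟩, θ, mulAut_psp_ext fun s => ?_⟩
  rw [h s]
  rfl

/-- the image of a transvection group lies in some `Q u1` -/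
lemma aut_tv_Q [Fintype F] (p : ℕ) [Fact p.Prime] [CharP F p] (hm : 1 ≤ m)
    (β : Cfsg.PSp m F ≃* Cfsg.PSp m F) {u : V} (hu : u ≠ 0) :
    ∃ (u1 f1 : V), B u1 f1 = 1 ∧ ∀ a : F, ∃ (w : V) (a' : F), B w u1 = 0 ∧ B w f1 = 0 ∧
      β (mkP (tv u a)) = mkP (E u1 w a') := by
  obtain ⟨u0, u1, f1, hu0, huf, h⟩ := aut_tv_aux p hm β
  obtain ⟨A, hA⟩ := exists_sp_map hu0 hu
  obtain ⟨A', hA'⟩ := mkP_surj (β (mkP A))
  refine ⟨A'.1 *ᵥ u1, A'.1 *ᵥ f1, by rw [Cfsg.Agent.Lib.Helper13.sp_preserves, huf], fun a => ?_⟩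
  obtain ⟨w, a', hw1, hw2, hβ, -⟩ := h a
  refine ⟨A'.1 *ᵥ w, a', by rw [Cfsg.Agent.Lib.Helper13.sp_preserves, hw1],
    by rw [Cfsg.Agent.Lib.Helper13.sp_preserves, hw2], ?_⟩
  rw [← hA, ← tv_conj, ← E_conj, map_mul, map_mul, map_mul, map_mul, map_mul, map_mul, map_inv,
    map_inv, map_inv, hβ, hA']

/-- T2': elements of type `c₂` have a conjugate with product of order four -/
lemma T2' (h2 : (2 : F) = 0) {u f w : V} (huf : B u f = 1) (hwu : B w u = 0)
    (hwf : B w f = 0) (hw : w ≠ 0) {a : F} (ha : a ≠ 0) :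
    ∃ g : Sp, (E u w a * (g * E u w a * g⁻¹)) ^ 4 = 1 ∧
      (E u w a * (g * E u w a * g⁻¹)) ^ 2 ∉ Subgroup.center Sp := by
  have hu0 := ne_zero_of_partner huf
  have huw : B u w = 0 := swap0 hwu
  have hfu : B f u = -1 := by rw [sympForm_swap, huf]
  -- a vector `w'` with `B u w' = 1 = B w w'`
  obtain ⟨y, hy⟩ := exists_partner hw
  set w' := f + (1 - B w f) • (prW u f y) with hw'
  have hwpr : B w (prW u f y) = 1 := by
    unfold prW
    rw [sympForm_add_right, sympForm_sub_right, sympForm_smul_right, sympForm_smul_right, hwu, hwf,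
      hy]; ring
  have hupr : B u (prW u f y) = 0 := swap0 (prW_e huf y)
  have huw' : B u w' = 1 := by
    rw [hw', sympForm_add_right, sympForm_smul_right, huf, hupr]; ring
  have hww' : B w w' = 1 := by
    rw [hw', sympForm_add_right, sympForm_smul_right, hwf, hwpr]; ring
  have h11 : (1 : F) + 1 = 0 := by rw [one_add_one_eq_two, h2]
  have hli1 : LinearIndependent F ![u, w] := by
    rw [LinearIndependent.pair_iff]
    intro s t hst
    have h3 := congrArg (fun x => B x f) hst
    simp only [sympForm_add_left, sympForm_smul_left, huf, hwf, sympForm_zero_left] at h3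
    have hs : s = 0 := by linear_combination h3
    rw [hs, zero_smul, zero_add] at hst
    exact ⟨hs, (smul_eq_zero.1 hst).resolve_right hw⟩
  have huw0 : u + w ≠ 0 := by
    intro h0
    have h3 := congrArg (fun x => B x f) h0
    simp only [sympForm_add_left, huf, hwf, sympForm_zero_left] at h3
    exact one_ne_zero (by linear_combination h3)
  have hli2 : LinearIndependent F ![u + w, w'] := by
    rw [LinearIndependent.pair_iff]
    intro s t hst
    have h3 := congrArg (fun x => B u x) hst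
    simp only [sympForm_add_right, sympForm_smul_right, sympForm_self, huw, huw',
      sympForm_zero_right] at h3
    have ht : t = 0 := by linear_combination h3
    rw [ht, zero_smul, add_zero] at hst
    exact ⟨(smul_eq_zero.1 hst).resolve_right huw0, ht⟩
  have hgram : B (u + w) w' = 0 := by rw [sympForm_add_left, huw', hww', h11]
  obtain ⟨g, hg⟩ := exists_sp_of_frames m ![u, w] ![u + w, w'] hli1 hli2 (by
    intro i j
    fin_cases i <;> fin_cases j <;>
      simp [sympForm_self, huw, hwu, hgram, swap0 hgram])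
  have hgu : g.1 *ᵥ u = u + w := congrFun hg 0
  have hgw : g.1 *ᵥ w = w' := congrFun hg 1
  refine ⟨g, ?_⟩
  rw [E_conj, hgu, hgw]
  set d := E u w a with hd
  set d' := E (u + w) w' a with hd'
  have hd'2 : d' * d' = 1 := by
    rw [hd', E_mul hgram hgram, sympForm_self, add_self_vec h2, add_self_sc h2, add_zero, E_zero_zero]
  have huu : B u (u + w) = 0 := by rw [sympForm_add_right, sympForm_self, huw, add_zero]
  have hwu' : B w (u + w) = 0 := by rw [sympForm_add_right, sympForm_self, hwu, add_zero]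
  have hsq : (d * d') ^ 2 = tv u a * tv w a := by
    have e1 : d' * d * d'⁻¹ = E w u a := by
      rw [hd, E_conj, hd', E_mulVec hgram, E_mulVec hgram, huu, hwu', huw', hww']
      congr 1
      · have : u + u = 0 := add_self_vec h2 u
        linear_combination (norm := module) this
      · have : w + w = 0 := add_self_vec h2 w
        linear_combination (norm := module) this
    rw [pow_two]
    calc d * d' * (d * d') = d * (d' * d * d'⁻¹) * (d' * d') := by group
      _ = d * E w u a := by rw [e1, hd'2, mul_one]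
      _ = tv u a * tv w a := by
        apply sp_ext
        intro x
        rw [hd, sp_mul_mulVec, sp_mul_mulVec, E_mulVec hwu, E_mulVec huw, tv_mulVec, tv_mulVec]
        simp only [sympForm_add_left, sympForm_smul_left, sympForm_self, huw, hwu]
        have e2 : (B x w) • (u + u) = 0 := by rw [add_self_vec h2, smul_zero]
        have e3 : (B x u) • (w + w) = 0 := by rw [add_self_vec h2, smul_zero]
        linear_combination (norm := module) e2 + e3
  constructor
  · rw [show (4 : ℕ) = 2 * 2 from rfl, pow_mul, hsq, pow_two]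
    calc tv u a * tv w a * (tv u a * tv w a) = tv u a * (tv w a * tv u a) * tv w a := by group
      _ = tv u a * (tv u a * tv w a) * tv w a := by rw [tv_comm huw]
      _ = (tv u a * tv u a) * (tv w a * tv w a) := by group
      _ = 1 := by rw [tv_mul_tv, tv_mul_tv, add_self_sc h2, tv_zero_right, tv_zero_right, one_mul]
  · rw [hsq]
    intro hc
    have h1 := center_eq_one_of_fix _ hc hu0 (by
      rw [sp_mul_mulVec, tv_fix huw, tv_fix (sympForm_self u)])
    have h3 := congrArg (fun A : Sp => A.1 *ᵥ f) h1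
    simp only [sp_mul_mulVec, tv_mulVec, one_mulVec', swap0 hwf, hfu, sympForm_add_left,
      sympForm_smul_left, hwu] at h3
    have h4 : (a * (-1 + a * 0 * 0)) • u = 0 := by
      linear_combination (norm := module) h3
    have := (smul_eq_zero.1 h4).resolve_right hu0
    apply ha
    linear_combination -this

/-- a Siegel element is not a transvection -/
lemma E_ne_tv {u f w v : V} (huf : B u f = 1) (hwu : B w u = 0) (hwf : B w f = 0) (hw : w ≠ 0)
    (c : F) : E u w 0 ≠ tv v c := by
  intro h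
  have hfu : B f u = -1 := by rw [sympForm_swap, huf]
  have h1 := congrArg (fun A : Sp => A.1 *ᵥ f) h
  simp only [E_mulVec (swap0 hwu), tv_mulVec, hfu, swap0 hwf] at h1
  have h2 : w = -(c * B f v) • v := by linear_combination (norm := module) -h1
  obtain ⟨x, hx⟩ := exists_partner hw
  have hxw : B x w = -1 := by rw [sympForm_swap, hx]
  have h3 := congrArg (fun A : Sp => A.1 *ᵥ x) h
  simp only [E_mulVec (swap0 hwu), tv_mulVec, hxw] at h3
  have h4 : u = B x u • w - (c * B x v) • v := by linear_combination (norm := module) -h3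
  have h5 : B v f = 0 ∨ c * B f v = 0 := by
    have := hwf
    rw [h2, sympForm_smul_left] at this
    rcases mul_eq_zero.1 this with h6 | h6
    · right; linear_combination -h6
    · left; exact h6
  rcases h5 with h5 | h5
  · have := huf
    rw [h4, sympForm_sub_left, sympForm_smul_left, sympForm_smul_left, hwf, h5] at this
    exact zero_ne_one (by linear_combination this)
  · rw [h5, neg_zero, zero_smul] at h2
    exact hw h2

end Cfsg.Agent.Lib.Helper14.PSpAut
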