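import Mathlib
import Cfsg.Agent.Lib.Helper14.PSpAutTv
import Cfsg.Agent.Lib.Helper43.PA.Count

set_option autoImplicit false

/-! Counting: the multiplier, the kernel of `cG`, the order of `Inndiag(PSp)`. -/

namespace Cfsg.Agent.Lib.Helper14.PSpAut

open Matrix Cfsg.Agent.Lib.Helper13 Cfsg.Agent.Lib.Helper5 Cfsg.Agent.Lib.Helper94
open scoped MatrixGroups

variable {F : Type*} [Field F] {m : ℕ}

local notation "V" => (Fin m ⊕ Fin m → F)
local notation "Sp" => Matrix.symplecticGroup (Fin m) F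
local notation "B" => Cfsg.sympForm m F
local notation "GSp" => Cfsg.GSp m F

lemma mult_unique (hm : 1 ≤ m) {c c' : Fˣ} {X : V → V → F} (h : ∀ u v, X u v = (c : F) * B u v)
    (h' : ∀ u v, X u v = (c' : F) * B u v) : c = c' := by
  have he : (eL ⟨0, by omega⟩ : V) ≠ 0 := eL_ne_zero _
  obtain ⟨f, hef⟩ := exists_partner he
  have := (h (eL ⟨0, by omega⟩) f).symm.trans (h' (eL ⟨0, by omega⟩) f)
  rw [hef, mul_one, mul_one] at this
  exact Units.ext this

/-- the multiplier -/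
noncomputable def mult (hm : 1 ≤ m) : ↥GSp →* Fˣ where
  toFun g := Classical.choose g.2
  map_one' := by
    apply mult_unique hm (X := fun u v => B u v)
    · intro u v
      have := Classical.choose_spec (1 : ↥GSp).2 u v
      simpa using this
    · intro u v; simp
  map_mul' g h := by
    apply mult_unique hm (X := fun u v => B ((g * h).1.1 *ᵥ u) ((g * h).1.1 *ᵥ v))
    · exact Classical.choose_spec (g * h).2
    · intro u v
      change B ((g.1 * h.1 : GL _ F).1 *ᵥ u) ((g.1 * h.1 : GL _ F).1 *ᵥ v) = _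
      rw [Units.val_mul, ← Matrix.mulVec_mulVec, ← Matrix.mulVec_mulVec,
        Classical.choose_spec g.2, Classical.choose_spec h.2, Units.val_mul, mul_assoc]

lemma mult_spec (hm : 1 ≤ m) (g : ↥GSp) (u v : V) :
    B (g.1.1 *ᵥ u) (g.1.1 *ᵥ v) = (mult hm g : F) * B u v := Classical.choose_spec g.2 u v

lemma conjSp_mulVec (g : ↥GSp) (s : Sp) (x : V) :
    (conjSp g s).1 *ᵥ (g.1.1 *ᵥ x) = g.1.1 *ᵥ (s.1 *ᵥ x) := by
  rw [conjSp_coe, ← Matrix.mulVec_mulVec, ← Matrix.mulVec_mulVec, gl_inv_mulVec']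

lemma conjSp_tv (hm : 1 ≤ m) (g : ↥GSp) (u : V) (a : F) :
    conjSp g (tv u a) = tv (g.1.1 *ᵥ u) (((mult hm g)⁻¹ : Fˣ) * a) := by
  apply sp_ext
  intro y
  rw [← gl_inv_mulVec g.1 y, conjSp_mulVec, tv_mulVec, tv_mulVec, mult_spec hm, Matrix.mulVec_add,
    Matrix.mulVec_smul]
  congr 2
  have : (((mult hm g)⁻¹ : Fˣ) : F) * (mult hm g : F) = 1 := by
    rw [← Units.val_mul, inv_mul_cancel]; rfl
  linear_combination (-(a * B ((g.1⁻¹ : GL _ F).1 *ᵥ y) u)) * this

lemma thV_add (σ : F ≃+* F) (x y : V) : thV σ (x + y) = thV σ x + thV σ y := by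
  ext i; simp [thV]

lemma thV_smul (σ : F ≃+* F) (c : F) (x : V) : thV σ (c • x) = σ c • thV σ x := by
  ext i; simp [thV]

lemma fieldSp_tv (σ : F ≃+* F) (u : V) (a : F) :
    fieldSp σ (tv u a) = tv (thV σ u) (σ a) := by
  apply sp_ext
  intro y
  rw [← thV_symm σ y, fieldSp_coe, map_mulVec_thV, tv_mulVec, tv_mulVec, thV_add, thV_smul,
    sympForm_thV, map_mul]

lemma thV_eL (σ : F ≃+* F) (i : Fin m) : thV σ (eL i : V) = eL i := by
  ext j
  simp only [thV, eL, Pi.single_apply]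
  split_ifs <;> simp

/-- the kernel of `cG` consists of the scalars -/
lemma cG_eq_one_iff (hm : 2 ≤ m) (g : ↥GSp) :
    cG g = 1 ↔ ∃ c : F, ∀ x : V, g.1.1 *ᵥ x = c • x := by
  constructor
  · intro h
    have h1 : ∀ v : V, ∃ c : F, g.1.1 *ᵥ v = c • v := by
      intro v
      by_cases hv : v = 0
      · exact ⟨0, by simp [hv]⟩
      have h2 : cG g (mkP (tv v 1)) = mkP (tv v 1) := by rw [h]; rfl
      rw [cG_mk, conjSp_tv (by omega)] at h2
      have h3 := tv_eq_of_mkP_eq hm h2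
      have hgv : g.1.1 *ᵥ v ≠ 0 := by
        intro h0
        apply hv
        rw [← gl_inv_mulVec' g.1 v, h0, Matrix.mulVec_zero]
      exact span_of_tv_eq hgv (by simp) h3
    obtain ⟨a, ha⟩ := matrix_eq_scalar_of_forall_mulVec g.1.1 h1
    refine ⟨a, fun x => ?_⟩
    rw [ha]
    ext i
    simp [Matrix.mulVec_diagonal]
  · rintro ⟨c, hc⟩
    apply mulAut_psp_ext
    intro s
    rw [cG_mk]
    have : conjSp g s = s := by
      apply sp_ext
      intro y
      rw [← gl_inv_mulVec g.1 y, conjSp_mulVec, hc, hc, Matrix.mulVec_smul]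
    rw [this]
    rfl

lemma fA_mem_range_cG (hm : 2 ≤ m) {σ : F ≃+* F}
    (h : (fA σ : MulAut (Cfsg.PSp m F)) ∈ (cG : ↥GSp →* MulAut (Cfsg.PSp m F)).range) : σ = 1 := by
  obtain ⟨g, hg⟩ := h
  set e : V := eL ⟨0, by omega⟩ with he
  have he0 : e ≠ 0 := eL_ne_zero _
  have hgv : g.1.1 *ᵥ e ≠ 0 := by
    intro h0
    apply he0
    rw [← gl_inv_mulVec' g.1 e, h0, Matrix.mulVec_zero]
  have h1 : ∀ a : F, tv (g.1.1 *ᵥ e) (((mult (by omega) g)⁻¹ : Fˣ) * a) = tv e (σ a) := by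
    intro a
    apply tv_eq_of_mkP_eq hm
    rw [← conjSp_tv, ← cG_mk, hg, fA_mk, fieldSp_tv, he, thV_eL]
  obtain ⟨l, hl⟩ := span_of_tv_eq hgv (by simp) (h1 1)
  have h2 : ∀ a : F, l ^ 2 * ((((mult (by omega) g)⁻¹ : Fˣ) : F) * a) = σ a := by
    intro a
    have := h1 a
    rw [hl, tv_smul] at this
    exact tv_inj he0 this
  ext a
  have h3 := h2 1
  rw [map_one, mul_one] at h3
  have h4 := h2 a
  rw [← mul_assoc, h3, one_mul] at h4
  exact h4.symm

/-- scalar matrices in `GSp` -/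
noncomputable def scG : Fˣ →* ↥GSp where
  toFun c := ⟨Units.map (Matrix.scalar (Fin m ⊕ Fin m)).toMonoidHom c, ⟨c * c, fun u v => by
    have h : ∀ x : V, (Units.map (Matrix.scalar (Fin m ⊕ Fin m)).toMonoidHom c : GL _ F).1 *ᵥ x
        = (c : F) • x := by
      intro x
      ext i
      simp [Matrix.mulVec_diagonal]
    rw [h, h, sympForm_smul_left, sympForm_smul_right, Units.val_mul, mul_assoc]⟩⟩
  map_one' := Subtype.ext (map_one _)
  map_mul' a b := Subtype.ext (map_mul _ _ _)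

lemma scG_mulVec (c : Fˣ) (x : V) : (scG c : ↥GSp).1.1 *ᵥ x = (c : F) • x := by
  ext i
  simp [scG, Matrix.mulVec_diagonal]

lemma gsp_ext {g h : ↥GSp} (e : ∀ x : V, g.1.1 *ᵥ x = h.1.1 *ᵥ x) : g = h := by
  apply Subtype.ext
  apply Units.ext
  rw [Matrix.ext_iff_mulVec]
  exact e

lemma scG_injective (hm : 1 ≤ m) : Function.Injective (scG : Fˣ →* ↥GSp) := by
  intro a b h
  have he : (eL ⟨0, by omega⟩ : V) ≠ 0 := eL_ne_zero _
  have h1 := scG_mulVec a (eL ⟨0, by omega⟩ : V)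
  rw [h, scG_mulVec] at h1
  have h2 : ((b : F) - a) • (eL ⟨0, by omega⟩ : V) = 0 := by rw [sub_smul, h1, sub_self]
  have := (smul_eq_zero.1 h2).resolve_right he
  exact Units.ext (by linear_combination -this)

lemma ker_cG (hm : 2 ≤ m) :
    (cG : ↥GSp →* MulAut (Cfsg.PSp m F)).ker = (scG : Fˣ →* ↥GSp).range := by
  ext g
  rw [MonoidHom.mem_ker, cG_eq_one_iff hm]
  constructor
  · rintro ⟨c, hc⟩
    have hc0 : c ≠ 0 := by
      rintro rfl
      have he : (eL ⟨0, by omega⟩ : V) ≠ 0 := eL_ne_zero _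
      apply he
      rw [← gl_inv_mulVec' g.1 (eL ⟨0, by omega⟩ : V), hc, zero_smul, Matrix.mulVec_zero]
    exact ⟨Units.mk0 c hc0, gsp_ext fun x => by rw [scG_mulVec, hc]; rfl⟩
  · rintro ⟨c, rfl⟩
    exact ⟨c, scG_mulVec c⟩

/-- `Sp → GSp` -/
noncomputable def toGSp : Sp →* ↥GSp where
  toFun s := ⟨toGL s, toGL_mem s⟩
  map_one' := Subtype.ext (map_one _)
  map_mul' a b := Subtype.ext (map_mul _ _ _)

lemma toGSp_coe (s : Sp) : (toGSp s).1.1 = s.1 := rfl

lemma toGSp_injective : Function.Injective (toGSp : Sp →* ↥GSp) := by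
  intro a b h
  apply Subtype.ext
  rw [← toGSp_coe, h, toGSp_coe]

lemma ker_mult (hm : 1 ≤ m) : (mult hm : ↥GSp →* Fˣ).ker = (toGSp : Sp →* ↥GSp).range := by
  ext g
  rw [MonoidHom.mem_ker]
  constructor
  · intro h
    have hg : g.1.1 ∈ Matrix.symplecticGroup (Fin m) F := by
      rw [mem_symplecticGroup_iff_preserves]
      intro u v
      rw [mult_spec hm, h]; simp
    exact ⟨⟨g.1.1, hg⟩, gsp_ext fun x => rfl⟩
  · rintro ⟨s, rfl⟩
    apply mult_unique hm (X := fun u v => B u v)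
    · intro u v
      rw [← mult_spec hm, toGSp_coe, Cfsg.Agent.Lib.Helper13.sp_preserves]
    · intro u v; simp

/-- the dilation `diag(c, 1)` -/
noncomputable def dilM (c : F) : Matrix (Fin m ⊕ Fin m) (Fin m ⊕ Fin m) F :=
  Matrix.diagonal (Sum.elim (fun _ => c) (fun _ => 1))

lemma dilM_form (c : F) (u v : V) : B (dilM c *ᵥ u) (dilM c *ᵥ v) = c * B u v := by
  simp only [sympForm_eq_sum, dilM, Matrix.mulVec_diagonal, Sum.elim_inl, Sum.elim_inr, one_mul,
    Finset.mul_sum]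
  exact Finset.sum_congr rfl fun i _ => by ring

lemma mult_surjective (hm : 1 ≤ m) : Function.Surjective (mult hm : ↥GSp →* Fˣ) := by
  intro c
  have h1 : dilM (m := m) (c : F) * dilM ((c⁻¹ : Fˣ) : F) = 1 := by
    rw [dilM, dilM, Matrix.diagonal_mul_diagonal, ← Matrix.diagonal_one]
    congr 1
    ext i
    rcases i with i | i <;> simp
  have h2 : dilM (m := m) ((c⁻¹ : Fˣ) : F) * dilM (c : F) = 1 := by
    rw [dilM, dilM, Matrix.diagonal_mul_diagonal, ← Matrix.diagonal_one]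
    congr 1
    ext i
    rcases i with i | i <;> simp
  let g : ↥GSp := ⟨⟨dilM c, dilM ((c⁻¹ : Fˣ) : F), h1, h2⟩, ⟨c, fun u v => dilM_form _ u v⟩⟩
  refine ⟨g, ?_⟩
  apply mult_unique hm (X := fun u v => B (g.1.1 *ᵥ u) (g.1.1 *ᵥ v))
  · exact mult_spec hm g
  · intro u v; exact dilM_form _ u v

theorem card_GSp [Fintype F] (hm : 1 ≤ m) :
    Nat.card ↥GSp = Nat.card Sp * (Fintype.card F - 1) := by
  rw [← Subgroup.card_mul_index (mult hm : ↥GSp →* Fˣ).ker, Subgroup.index_ker,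
    MonoidHom.range_eq_top.2 (mult_surjective hm), Subgroup.card_top, Nat.card_units,
    Nat.card_eq_fintype_card (α := F), ker_mult hm,
    ← Nat.card_congr (MonoidHom.ofInjective toGSp_injective).toEquiv]

theorem card_range_cG [Fintype F] (hm : 2 ≤ m) :
    Nat.card (cG : ↥GSp →* MulAut (Cfsg.PSp m F)).range
      = Nat.gcd 2 (Fintype.card F - 1) * Nat.card (Cfsg.PSp m F) := by
  have h1 := Subgroup.card_mul_index (cG : ↥GSp →* MulAut (Cfsg.PSp m F)).ker
  rw [Subgroup.index_ker, ker_cG hm,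
    ← Nat.card_congr (MonoidHom.ofInjective (scG_injective (F := F) (m := m) (by omega))).toEquiv,
    Nat.card_units, Nat.card_eq_fintype_card (α := F), card_GSp (by omega), mul_comm] at h1
  have hq : 0 < Fintype.card F - 1 := by
    have := Fintype.one_lt_card (α := F); omega
  have h2 := Nat.eq_of_mul_eq_mul_right hq h1
  rw [h2, ← card_center_sp m (by omega), mul_comm]
  exact Subgroup.card_eq_card_quotient_mul_card_subgroup _

lemma conj_mk_eq_cG (s : Sp) : MulAut.conj (mkP s) = cG (toGSp s) := by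
  apply mulAut_psp_ext
  intro t
  rw [cG_mk, MulAut.conj_apply, ← map_inv, ← map_mul, ← map_mul]
  congr 1
  apply Subtype.ext
  change s.1 * t.1 * (s⁻¹).1 = (toGL s).1 * t.1 * ((toGL s)⁻¹ : GL _ F).1
  rw [← map_inv, toGL_coe, toGL_coe]

lemma inn_le_range_cG :
    Cfsg.Inn (Cfsg.PSp m F) ≤ (cG : ↥GSp →* MulAut (Cfsg.PSp m F)).range := by
  rintro _ ⟨x, rfl⟩
  obtain ⟨s, rfl⟩ := mkP_surj x
  exact ⟨toGSp s, (conj_mk_eq_cG s).symm⟩

/-- if every element is a square then `Inndiag = Inn` -/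
lemma range_cG_eq_inn (hm : 2 ≤ m) (hsq : ∀ x : F, ∃ y : F, y ^ 2 = x) :
    (cG : ↥GSp →* MulAut (Cfsg.PSp m F)).range = Cfsg.Inn (Cfsg.PSp m F) := by
  apply le_antisymm _ inn_le_range_cG
  rintro _ ⟨g, rfl⟩
  obtain ⟨d, hd⟩ := hsq (mult (by omega) g : F)
  have hd0 : d ≠ 0 := by
    rintro rfl
    rw [zero_pow two_ne_zero] at hd
    exact (mult (by omega) g).ne_zero hd.symm
  set du : Fˣ := Units.mk0 d hd0
  have h1 : (scG du)⁻¹ * g ∈ (mult (by omega) : ↥GSp →* Fˣ).ker := by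
    rw [MonoidHom.mem_ker, map_mul, map_inv]
    have : mult (by omega) (scG du : ↥GSp) = mult (by omega) g := by
      apply mult_unique (by omega) (X := fun u v => B ((scG du : ↥GSp).1.1 *ᵥ u) ((scG du : ↥GSp).1.1 *ᵥ v))
      · exact mult_spec _ _
      · intro u v
        rw [scG_mulVec, scG_mulVec, sympForm_smul_left, sympForm_smul_right, ← hd]
        change d * (d * _) = _
        ring
    rw [this, inv_mul_cancel]
  rw [ker_mult] at h1
  obtain ⟨s, hs⟩ := h1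
  have h2 : cG g = cG (toGSp s) := by
    rw [hs, map_mul, map_inv]
    have : cG (scG du : ↥GSp) = 1 := (cG_eq_one_iff hm _).2 ⟨d, scG_mulVec du⟩
    rw [this]; simp
  rw [h2, ← conj_mk_eq_cG]
  exact ⟨mkP s, rfl⟩

/-- the order of the automorphism group, `(m,p) ≠ (2,2)` -/
theorem card_aut [Fintype F] {p f : ℕ} [Fact p.Prime] (hF : Fintype.card F = p ^ f) (hm : 2 ≤ m)
    (h4 : m = 2 → p ≠ 2) :
    Nat.card (MulAut (Cfsg.PSp m F)) = Nat.gcd 2 (p ^ f - 1) * f * Nat.card (Cfsg.PSp m F) := by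
  haveI : CharP F p := charP_of_card_eq_prime_pow hF
  obtain ⟨θ, hθs, hθk⟩ := Cfsg.Agent.Lib.Helper43.PA.exists_hom_of_complement
    (cG : ↥GSp →* MulAut (Cfsg.PSp m F)).range (fA : (F ≃+* F) →* MulAut (Cfsg.PSp m F))
    (fun x => by
      obtain ⟨g, σ, h⟩ := aut_factor' p hm h4 x
      exact ⟨cG g, ⟨g, rfl⟩, σ, h⟩)
    (fun σ d hd => fA_normalizes σ hd) (fun σ h => fA_mem_range_cG hm h)
  rw [← Subgroup.card_mul_index θ.ker, Subgroup.index_ker, MonoidHom.range_eq_top.2 hθs,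
    Subgroup.card_top, hθk, card_range_cG hm, Cfsg.Agent.Lib.Helper43.PA.card_ringAut hF, hF]
  ring

end Cfsg.Agent.Lib.Helper14.PSpAut
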