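import Mathlib
import Cfsg.Agent.Lib.Helper14.B2Iso
import Cfsg.Agent.Lib.Lead.ChevSpecialData
import Cfsg.Agent.Lib.Helper14.PSpAutCount

set_option autoImplicit false

/-! The exceptional graph automorphism of `PSp₄(F)`, `F` perfect of characteristic 2. -/

namespace Cfsg.Agent.Lib.Helper14.PSpAut

open Matrix Cfsg.Lie Cfsg.Agent.Lib.Helper13 Cfsg.Agent.Lib.Helper5 Cfsg.Agent.Lib.Helper94
open Cfsg.Agent.Lib.Helper14 Cfsg.Agent.Lib.Lead.ChevSpecial
open scoped MatrixGroups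

variable {F : Type*} [Field F]

local notation "V" => (Fin 2 ⊕ Fin 2 → F)
local notation "Sp" => Matrix.symplecticGroup (Fin 2) F
local notation "B" => Cfsg.sympForm 2 F

/-- the adjoint representation with values in the Chevalley group -/
noncomputable def adB' : Sp →* ↥(chevB2.group F) :=
  (adB (F := F)).codRestrict _ (fun s => by rw [← adB_range]; exact ⟨s, rfl⟩)

lemma adB'_coe (s : Sp) : (adB' s).1 = adB s := rfl

lemma adB'_surj : Function.Surjective (adB' (F := F)) := by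
  rintro ⟨g, hg⟩
  rw [← adB_range] at hg
  obtain ⟨s, rfl⟩ := hg
  exact ⟨s, rfl⟩

lemma adB'_ker : (adB' (F := F)).ker = Subgroup.center Sp := by
  rw [← adG_ker]
  ext s
  rw [MonoidHom.mem_ker, MonoidHom.mem_ker, Subtype.ext_iff]
  rfl

/-- `PSp₄(F) ≃ B₂(F)` -/
noncomputable def eps : Cfsg.PSp 2 F ≃* ↥(chevB2.group F) :=
  MulEquiv.ofBijective (QuotientGroup.lift (Subgroup.center Sp) adB' (by
    intro s hs
    rw [← adB'_ker] at hs
    exact hs)) ⟨by
      rw [injective_iff_map_eq_one]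
      intro x hx
      obtain ⟨s, rfl⟩ := mkP_surj x
      have : adB' s = 1 := hx
      rw [mkP_eq_one, ← adB'_ker]
      exact this, by
      intro g
      obtain ⟨s, rfl⟩ := adB'_surj g
      exact ⟨mkP s, rfl⟩⟩

lemma eps_mk (s : Sp) : eps (mkP s) = adB' s := rfl

def rb : Fin 8 → Fin 8 := ![1, 0, 3, 2, 5, 4, 7, 6]
def ex : Fin 8 → ℕ := ![1, 2, 2, 1, 1, 2, 2, 1]

lemma x_eq (r : Fin 8) (t : F) : chevB2.x F r.val t = chevB2.xMat F r t := by
  unfold ChevalleyDatum.x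
  rw [dif_pos (show r.val < chevB2.nroots from r.2)]
  rfl

lemma rB2_get (r : Fin 8) : rB2.getD r.val (0, 1) = ((rb r).val, ex r) := by
  fin_cases r <;> rfl

theorem exists_graph [CharP F 2] (hperf : ∀ x : F, ∃ y : F, y ^ 2 = x) :
    ∃ τ : MulAut (Cfsg.PSp 2 F), ∀ (r : Fin 8) (t : F),
      τ (mkP (xs r t)) = mkP (xs (rb r) (t ^ ex r)) := by
  obtain ⟨α, -, hα⟩ := specialB2 hperf
  refine ⟨eps.trans (α.trans eps.symm), fun r t => ?_⟩
  change eps.symm (α (eps (mkP (xs r t)))) = _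
  rw [MulEquiv.symm_apply_eq]
  apply Subtype.ext
  apply Units.ext
  have h1 := hα (eps (mkP (xs r t))) r.val t r.2 (by
    rw [eps_mk, adB'_coe, adB_xs, x_eq])
  rw [h1, rB2_get, x_eq, eps_mk, adB'_coe, adB_xs]

end Cfsg.Agent.Lib.Helper14.PSpAut
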