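import Mathlib
import Cfsg.Agent.Lib.Helper14.PSp4Graph
import Cfsg.Agent.Lib.Helper14.PSpAutTv

set_option autoImplicit false

/-! The automorphism group of `PSp₄(2^f)`. -/

namespace Cfsg.Agent.Lib.Helper14.PSpAut

open Matrix Cfsg.Agent.Lib.Helper13 Cfsg.Agent.Lib.Helper5 Cfsg.Agent.Lib.Helper94
open Cfsg.Agent.Lib.Helper14
open scoped MatrixGroups

variable {F : Type*} [Field F]

local notation "V" => (Fin 2 ⊕ Fin 2 → F)
local notation "Sp" => Matrix.symplecticGroup (Fin 2) F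
local notation "B" => Cfsg.sympForm 2 F
local notation "GSp" => Cfsg.GSp 2 F

lemma xs_coe (r : Fin 8) (t : F) : (xs r t).1 = Matrix.reindex s4.symm s4.symm (rootMat r t) := rfl

lemma fieldSp_xs (σ : F ≃+* F) (r : Fin 8) (t : F) : fieldSp σ (xs r t) = xs r (σ t) := by
  apply Subtype.ext
  rw [fieldSp_coe, xs_coe, xs_coe]
  ext i j
  simp only [Matrix.map_apply, Matrix.reindex_apply, Matrix.submatrix_apply, Equiv.symm_symm]
  generalize s4 i = i'
  generalize s4 j = j'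
  fin_cases r <;> fin_cases i' <;> fin_cases j' <;> simp [rootMat]

lemma s4_inl0 : s4 (.inl 0) = 0 := rfl
lemma s4_inl1 : s4 (.inl 1) = 1 := rfl
lemma s4_inr0 : s4 (.inr 0) = 2 := rfl
lemma s4_inr1 : s4 (.inr 1) = 3 := rfl

lemma xs6_eq (t : F) : xs 6 t = E (eL 0) ((-t) • eL 1) 0 := by
  apply sp_ext
  intro x
  rw [E_mulVec (by rw [sympForm_smul_right, sympForm_eL_eL, mul_zero]), sympForm_smul_right,
    sympForm_eL_right, sympForm_eL_right, xs_coe]
  ext i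
  rcases i with i | i <;> fin_cases i <;>
    simp [Matrix.mulVec, dotProduct, Fintype.sum_sum_type, Fin.sum_univ_two, rootMat, eL, s4_inl0,
      s4_inl1, s4_inr0, s4_inr1] <;> ring

/-- the centre is trivial in characteristic two -/
lemma mkP_inj2 [CharP F 2] {A A' : Sp} (h : mkP A = mkP A') : A = A' := by
  have hc : A⁻¹ * A' ∈ Subgroup.center Sp := by
    rw [← mkP_eq_one, map_mul, map_inv, h]; group
  obtain ⟨c, hcx⟩ := center_smul _ hc
  have he : (eL 0 : V) ≠ 0 := eL_ne_zero _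
  obtain ⟨f, hef⟩ := exists_partner he
  have h1 := Cfsg.Agent.Lib.Helper13.sp_preserves (A⁻¹ * A') (eL 0 : V) f
  rw [hcx, hcx, sympForm_smul_left, sympForm_smul_right, hef] at h1
  have h2 : (c + 1) ^ 2 = 0 := by
    have h22 : (2 : F) = 0 := CharTwo.two_eq_zero
    linear_combination h1 + (c + 1) * h22
  have h3 : c = 1 := by
    have h4 : c + 1 = 0 := by simpa using h2
    have h22 : (2 : F) = 0 := CharTwo.two_eq_zero
    linear_combination h4 - h22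
  have h5 : A⁻¹ * A' = 1 := by
    apply sp_ext
    intro x
    rw [hcx, h3, one_smul, one_mulVec']
  calc A = A * (A⁻¹ * A') := by rw [h5, mul_one]
    _ = A' := by group

/-- the image of a transvection is a transvection or a Siegel element -/
lemma dich0 [CharP F 2] (β : Cfsg.PSp 2 F ≃* Cfsg.PSp 2 F) {u0 u1 f1 w : V} {a a' : F}
    (huf : B u1 f1 = 1) (hw1 : B w u1 = 0) (hw2 : B w f1 = 0)
    (hβ : β (mkP (tv u0 a)) = mkP (E u1 w a')) : w = 0 ∨ a' = 0 := by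
  by_contra hcon
  push Not at hcon
  obtain ⟨hw, ha'⟩ := hcon
  have h2 : (2 : F) = 0 := CharTwo.two_eq_zero
  obtain ⟨g, hg4, hg2⟩ := T2' h2 huf hw1 hw2 hw ha'
  obtain ⟨g', hg'⟩ := mkP_surj (β.symm (mkP g))
  have e : β (mkP (tv u0 a * (g' * tv u0 a * g'⁻¹))) = mkP (E u1 w a' * (g * E u1 w a' * g⁻¹)) := by
    simp only [map_mul, map_inv, hβ, hg', MulEquiv.apply_symm_apply]
  have h5 : (tv u0 a * (g' * tv u0 a * g'⁻¹)) ^ 4 ∈ Subgroup.center Sp := by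
    rw [← mkP_eq_one, map_pow]
    apply β.injective
    rw [map_pow, e, ← map_pow, hg4, map_one, map_one]
  have h6 := T1 le_rfl u0 a g' h5
  apply hg2
  rw [← mkP_eq_one, map_pow, ← e, ← map_pow, ← map_pow, h6, map_one, map_one]

/-- `β` maps the transvection group of `u` to Siegel elements -/
def SgAt (β : Cfsg.PSp 2 F ≃* Cfsg.PSp 2 F) (u : V) : Prop :=
  ∃ u1 f1 : V, B u1 f1 = 1 ∧ ∀ a : F, ∃ w : V, B w u1 = 0 ∧ B w f1 = 0 ∧
    β (mkP (tv u a)) = mkP (E u1 w 0)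

lemma dich [Fintype F] [CharP F 2] (β : Cfsg.PSp 2 F ≃* Cfsg.PSp 2 F) {u : V} (hu : u ≠ 0) :
    TvAt β u ∨ SgAt β u := by
  obtain ⟨u1, f1, huf, h⟩ := aut_tv_Q 2 (by norm_num) β hu
  by_cases h1 : ∀ a : F, ∃ a' : F, β (mkP (tv u a)) = mkP (tv u1 a')
  · exact Or.inl ⟨u1, ne_zero_of_partner huf, h1⟩
  right
  push Not at h1
  obtain ⟨a1, ha1⟩ := h1
  obtain ⟨w1, a1', hw1, hw1', hβ1⟩ := h a1
  have hw10 : w1 ≠ 0 := by
    rintro rfl
    exact ha1 a1' (by rw [hβ1, E_zero])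
  have ha10 : a1' = 0 := (dich0 β huf hw1 hw1' hβ1).resolve_left hw10
  subst ha10
  refine ⟨u1, f1, huf, fun a => ?_⟩
  obtain ⟨w, a', hw, hw', hβ⟩ := h a
  refine ⟨w, hw, hw', ?_⟩
  rcases dich0 β huf hw hw' hβ with h0 | h0
  · subst h0
    have h3 : β (mkP (tv u (a1 + a))) = mkP (E u1 w1 a') := by
      rw [← tv_mul_tv, map_mul, map_mul, hβ1, hβ, ← map_mul, E_mul (swap0 hw1) (swap0 hw),
        sympForm_zero_left]
      simp
    have := (dich0 β huf hw1 hw1' h3).resolve_left hw10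
    rw [hβ, this]
  · rw [hβ, h0]

lemma tv_one_ne [CharP F 2] (β : Cfsg.PSp 2 F ≃* Cfsg.PSp 2 F) {u : V} (hu : u ≠ 0) :
    β (mkP (tv u 1)) ≠ 1 := by
  intro h
  have h1 : mkP (tv u (1 : F)) = mkP (1 : Sp) := by
    apply β.injective
    rw [h, map_one, map_one]
  have h2 := mkP_inj2 h1
  rw [← tv_zero_right u] at h2
  exact one_ne_zero (tv_inj hu h2)

section Graph

variable (τ : MulAut (Cfsg.PSp 2 F))
  (hτ : ∀ (r : Fin 8) (t : F), τ (mkP (xs r t)) = mkP (xs (rb r) (t ^ ex r)))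

include hτ

lemma sg_to_tv [Fintype F] [CharP F 2] (β : MulAut (Cfsg.PSp 2 F)) {u : V} (hu : u ≠ 0)
    (h : SgAt β u) : TvAt (τ * β : MulAut (Cfsg.PSp 2 F)) u := by
  obtain ⟨u1, f1, huf, h⟩ := h
  obtain ⟨w, hw, hw', hβ⟩ := h 1
  have hw0 : w ≠ 0 := by
    rintro rfl
    apply tv_one_ne β hu
    rw [hβ, E_zero_zero, map_one]
  have hli1 : LinearIndependent F ![(eL 0 : V), (-1 : F) • eL 1] := by
    rw [LinearIndependent.pair_iff]
    intro s t hst
    have h3 := congrFun hst (Sum.inl 0)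
    have h4 := congrFun hst (Sum.inl 1)
    simp [eL] at h3 h4
    exact ⟨h3, h4⟩
  have hli2 : LinearIndependent F ![u1, w] := by
    rw [LinearIndependent.pair_iff]
    intro s t hst
    have h3 := congrArg (fun x => B x f1) hst
    simp only [sympForm_add_left, sympForm_smul_left, huf, hw', sympForm_zero_left] at h3
    have hs : s = 0 := by linear_combination h3
    rw [hs, zero_smul, zero_add] at hst
    exact ⟨hs, (smul_eq_zero.1 hst).resolve_right hw0⟩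
  obtain ⟨k, hk⟩ := exists_sp_of_frames 2 ![(eL 0 : V), (-1 : F) • eL 1] ![u1, w] hli1 hli2 (by
    intro i j
    fin_cases i <;> fin_cases j <;>
      simp [sympForm_self, sympForm_neg_left, sympForm_neg_right, sympForm_eL_eL, hw, swap0 hw])
  have hk0 : k.1 *ᵥ (eL 0 : V) = u1 := congrFun hk 0
  have hk1 : k.1 *ᵥ ((-1 : F) • eL 1 : V) = w := congrFun hk 1
  obtain ⟨k', hk'⟩ := mkP_surj (τ (mkP k))
  have key : (τ * β : MulAut (Cfsg.PSp 2 F)) (mkP (tv u 1)) = mkP (tv (k'.1 *ᵥ (eL 0 : V)) 1) := by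
    rw [MulAut.mul_apply, hβ, ← hk0, ← hk1, ← E_conj, ← xs6_eq, map_mul, map_mul, map_mul, map_mul,
      map_inv, map_inv, hτ, ← hk', ← tv_conj, tv_eL_eq, map_mul, map_mul, map_inv]
    simp [rb, ex]
  rcases dich (τ * β : MulAut (Cfsg.PSp 2 F)) hu with h1 | h1
  · exact h1
  · exfalso
    obtain ⟨u2, f2, huf2, h2⟩ := h1
    obtain ⟨w2, hw2, hw2', hβ2⟩ := h2 1
    have hw20 : w2 ≠ 0 := by
      rintro rfl
      apply tv_one_ne (τ * β : MulAut (Cfsg.PSp 2 F)) hu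
      rw [hβ2, E_zero_zero, map_one]
    exact E_ne_tv huf2 hw2 hw2' hw20 1 (mkP_inj2 (hβ2.symm.trans key))

lemma tau_not_gamma [CharP F 2] (g : ↥GSp) (σ : F ≃+* F) : τ ≠ cG g * fA σ := by
  intro h
  have h1 := hτ 7 1
  rw [h, MulAut.mul_apply, fA_mk, cG_mk, ← tv_eL_eq, fieldSp_tv, conjSp_tv (by norm_num)] at h1
  have h2 : xs (rb 7) ((1 : F) ^ ex 7) = E (eL 0) ((-1 : F) • eL 1) 0 := by
    rw [← xs6_eq]
    simp [rb, ex]
  rw [h2] at h1
  refine E_ne_tv (f := -eR 0) ?_ ?_ ?_ ?_ _ (mkP_inj2 h1).symm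
  · rw [sympForm_neg_right, sympForm_eL_eR]; simp
  · rw [sympForm_smul_left, sympForm_eL_eL, mul_zero]
  · rw [sympForm_smul_left, sympForm_neg_right, sympForm_eL_eR]; simp
  · exact smul_ne_zero (by simp) (eL_ne_zero _)

theorem aut_cases [Fintype F] [CharP F 2] (β : MulAut (Cfsg.PSp 2 F)) :
    (∃ (g : ↥GSp) (σ : F ≃+* F), β = cG g * fA σ) ∨
      (∃ (g : ↥GSp) (σ : F ≃+* F), τ * β = cG g * fA σ) := by
  have he : (eL 0 : V) ≠ 0 := eL_ne_zero _
  rcases dich β he with h | h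
  · exact Or.inl (aut_factor_of_tv' 2 le_rfl β he h)
  · exact Or.inr (aut_factor_of_tv' 2 le_rfl _ he (sg_to_tv τ hτ β he h))

omit hτ in
lemma aut_ext_xs {β β' : MulAut (Cfsg.PSp 2 F)}
    (h : ∀ (r : Fin 8) (t : F), β (mkP (xs r t)) = β' (mkP (xs r t))) : β = β' := by
  have h1 : (β.toMonoidHom.comp mkP : Sp →* Cfsg.PSp 2 F) = β'.toMonoidHom.comp mkP := by
    apply MonoidHom.eq_of_eqOn_dense (s := {x | ∃ (r : Fin 8) (t : F), x = xs r t}) rootGen_eq_top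
    rintro _ ⟨r, t, rfl⟩
    exact h r t
  exact mulAut_psp_ext fun s => DFunLike.congr_fun h1 s

end Graph

section Frob

variable [Finite F] [CharP F 2]

/-- the Frobenius automorphism -/
noncomputable def fr : F ≃+* F := frobeniusEquiv F 2

lemma fr_apply (x : F) : fr x = x ^ 2 := rfl

lemma fr_pow_apply (n : ℕ) (x : F) : (fr ^ n : F ≃+* F) x = x ^ (2 ^ n) := by
  induction n generalizing x with
  | zero => simp
  | succ n ih =>
    rw [pow_succ, RingAut.mul_apply, ih, fr_apply, ← pow_mul, pow_succ, mul_comm]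

lemma fr_gen (σ : F ≃+* F) : ∃ k : ℕ, σ = fr ^ k := by
  letI : Algebra (ZMod 2) F := ZMod.algebra F 2
  obtain ⟨n, hn⟩ := (FiniteField.bijective_frobeniusAlgEquivOfAlgebraic_pow (ZMod 2) F).2
    (Cfsg.Agent.Lib.Helper43.PA.ringAutEquivGal 2 σ)
  refine ⟨n.1, ?_⟩
  ext x
  have h1 := DFunLike.congr_fun hn x
  simp only [AlgEquiv.coe_pow, FiniteField.coe_frobeniusAlgEquivOfAlgebraic_iterate, ZMod.card] at h1
  rw [fr_pow_apply, h1]
  rfl

lemma fr_mem_zpowers (σ : F ≃+* F) : σ ∈ Subgroup.zpowers (fr : F ≃+* F) := by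
  obtain ⟨k, rfl⟩ := fr_gen σ
  exact Subgroup.npow_mem_zpowers _ _

end Frob

section Out

variable (τ : MulAut (Cfsg.PSp 2 F))
  (hτ : ∀ (r : Fin 8) (t : F), τ (mkP (xs r t)) = mkP (xs (rb r) (t ^ ex r)))

include hτ

lemma tau_sq [Finite F] [CharP F 2] : τ * τ = fA fr := by
  apply aut_ext_xs
  intro r t
  rw [MulAut.mul_apply, hτ, hτ, fA_mk, fieldSp_xs, fr_apply, ← pow_mul]
  fin_cases r <;> rfl

theorem out_psp4 [Fintype F] {f : ℕ} (hF : Fintype.card F = 2 ^ f) :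
    IsCyclic (Cfsg.Out (Cfsg.PSp 2 F)) ∧ Nat.card (Cfsg.Out (Cfsg.PSp 2 F)) = 2 * f := by
  haveI : CharP F 2 := charP_of_card_eq_prime_pow hF
  have hf0 : 0 < f := by
    rcases Nat.eq_zero_or_pos f with h | h
    · subst h
      have := Fintype.one_lt_card (α := F)
      omega
    · exact h
  have hsq : ∀ x : F, ∃ y : F, y ^ 2 = x := fun x => ⟨fr.symm x, by rw [← fr_apply]; simp⟩
  have hN := range_cG_eq_inn (F := F) (m := 2) le_rfl hsq
  have hord : orderOf (fr : F ≃+* F) = f := by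
    rw [orderOf_eq_card_of_forall_mem_zpowers fr_mem_zpowers,
      Cfsg.Agent.Lib.Helper43.PA.card_ringAut hF]
  let q : MulAut (Cfsg.PSp 2 F) →* Cfsg.Out (Cfsg.PSp 2 F) := QuotientGroup.mk' _
  have hq1 : ∀ β, q β = 1 ↔ β ∈ (cG : ↥GSp →* MulAut (Cfsg.PSp 2 F)).range := by
    intro β
    rw [hN]
    exact QuotientGroup.eq_one_iff β
  have hqc : ∀ g, q (cG g) = 1 := fun g => (hq1 _).2 ⟨g, rfl⟩
  have hqf : ∀ k : ℕ, q (fA (fr ^ k)) = q τ ^ (2 * k) := by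
    intro k
    rw [map_pow, ← tau_sq τ hτ, map_pow, map_mul, pow_mul, pow_two]
  have hgen : ∀ x : Cfsg.Out (Cfsg.PSp 2 F), x ∈ Subgroup.zpowers (q τ) := by
    intro x
    obtain ⟨β, rfl⟩ := QuotientGroup.mk'_surjective _ x
    change q β ∈ _
    rcases aut_cases τ hτ β with ⟨g, σ, h⟩ | ⟨g, σ, h⟩
    · obtain ⟨k, rfl⟩ := fr_gen σ
      rw [h, map_mul, hqc, one_mul, hqf]
      exact Subgroup.npow_mem_zpowers _ _
    · obtain ⟨k, rfl⟩ := fr_gen σ
      have h1 : q β = (q τ)⁻¹ * q τ ^ (2 * k) := by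
        rw [← hqf, ← one_mul (q (fA _)), ← hqc g, ← map_mul, ← h, map_mul]
        group
      rw [h1]
      exact Subgroup.mul_mem _ (Subgroup.inv_mem _ (Subgroup.mem_zpowers _))
        (Subgroup.npow_mem_zpowers _ _)
  refine ⟨⟨q τ, fun x => Subgroup.mem_zpowers_iff.1 (hgen x)⟩, ?_⟩
  rw [← orderOf_eq_card_of_forall_mem_zpowers hgen, orderOf_eq_iff (by omega)]
  refine ⟨by rw [← hqf, ← hord, pow_orderOf_eq_one, map_one, map_one], fun n hn hn0 h1 => ?_⟩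
  rcases Nat.even_or_odd' n with ⟨j, rfl | rfl⟩
  · rw [← hqf, hq1] at h1
    have h2 := fA_mem_range_cG le_rfl h1
    have h3 := orderOf_dvd_of_pow_eq_one h2
    rw [hord] at h3
    have := Nat.le_of_dvd (by omega) h3
    omega
  · rw [pow_succ, ← hqf, ← map_mul, hq1] at h1
    obtain ⟨g, hg⟩ := h1
    apply tau_not_gamma τ hτ (mapGSp (fr ^ j)⁻¹ g) (fr ^ j)⁻¹
    rw [← fA_mul_cG, hg, map_inv]
    group

theorem card_aut_psp4 [Fintype F] {f : ℕ} (hF : Fintype.card F = 2 ^ f) :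
    Nat.card (MulAut (Cfsg.PSp 2 F)) = 2 * Nat.gcd 2 (2 ^ f - 1) * f * Nat.card (Cfsg.PSp 2 F) := by
  haveI : CharP F 2 := charP_of_card_eq_prime_pow hF
  have hsq : ∀ x : F, ∃ y : F, y ^ 2 = x := fun x => ⟨fr.symm x, by rw [← fr_apply]; simp⟩
  have hN := range_cG_eq_inn (F := F) (m := 2) le_rfl hsq
  rw [Subgroup.card_eq_card_quotient_mul_card_subgroup (Cfsg.Inn (Cfsg.PSp 2 F)), ← hN,
    card_range_cG le_rfl, hF]
  have := (out_psp4 τ hτ hF).2
  rw [hN]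
  change Nat.card (Cfsg.Out (Cfsg.PSp 2 F)) * _ = _
  rw [this]
  ring

end Out

theorem out_psp4' [Fintype F] {f : ℕ} (hF : Fintype.card F = 2 ^ f) :
    IsCyclic (Cfsg.Out (Cfsg.PSp 2 F)) ∧ Nat.card (Cfsg.Out (Cfsg.PSp 2 F)) = 2 * f := by
  haveI : CharP F 2 := charP_of_card_eq_prime_pow hF
  obtain ⟨τ, hτ⟩ := exists_graph (F := F) (fun x => ⟨fr.symm x, by rw [← fr_apply]; simp⟩)
  exact out_psp4 τ hτ hF

theorem card_aut_psp4' [Fintype F] {f : ℕ} (hF : Fintype.card F = 2 ^ f) :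
    Nat.card (MulAut (Cfsg.PSp 2 F)) = 2 * Nat.gcd 2 (2 ^ f - 1) * f * Nat.card (Cfsg.PSp 2 F) := by
  haveI : CharP F 2 := charP_of_card_eq_prime_pow hF
  obtain ⟨τ, hτ⟩ := exists_graph (F := F) (fun x => ⟨fr.symm x, by rw [← fr_apply]; simp⟩)
  exact card_aut_psp4 τ hτ hF

end Cfsg.Agent.Lib.Helper14.PSpAut
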